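import Mathlib
import Cfsg.Agent.Lib.Helper32.D8Stmt

/-!
# S3716 / OMEGA2: the two linear characters of `C_G(x)` exist (from the normal form `NF`).
-/

set_option autoImplicit false

namespace Cfsg.Agent.Lib.Helper8.D8OMEGA2

open Cfsg Cfsg.Agent.Lib.Helper32.D8Stmt

universe u

section
variable {G : Type u} [Group G]

/-- The part of the normal form toolkit that is used. -/
structure Dat (x y b : G) : Prop where
  mem : ∀ g, g ∈ Subgroup.centralizer ({x} : Set G) ↔ ∃ i j l : ℕ, g = x ^ i * y ^ j * b ^ l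
  uniq : ∀ i j l i' j' l' : ℕ, x ^ i * y ^ j * b ^ l = x ^ i' * y ^ j' * b ^ l' →
    i % 3 = i' % 3 ∧ l % 2 = l' % 2
  mul : ∀ i j l i' j' l' : ℕ, (x ^ i * y ^ j * b ^ l) * (x ^ i' * y ^ j' * b ^ l') =
    x ^ (i + i') * y ^ (j + (if l % 2 = 0 then j' else 2 * j')) * b ^ (l + l')

variable {x y b : G}

theorem exists_repr (D : Dat x y b) (c : Subgroup.centralizer ({x} : Set G)) :
    ∃ p : ℕ × ℕ × ℕ, (c : G) = x ^ p.1 * y ^ p.2.1 * b ^ p.2.2 := by
  obtain ⟨i, j, l, h⟩ := (D.mem c.1).1 c.2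
  exact ⟨(i, j, l), h⟩

/-- A chosen triple of exponents. -/
noncomputable def rp (D : Dat x y b) (c : Subgroup.centralizer ({x} : Set G)) : ℕ × ℕ × ℕ :=
  Classical.choose (exists_repr D c)

theorem rp_spec (D : Dat x y b) (c : Subgroup.centralizer ({x} : Set G)) :
    (c : G) = x ^ (rp D c).1 * y ^ (rp D c).2.1 * b ^ (rp D c).2.2 :=
  Classical.choose_spec (exists_repr D c)

theorem rp_mod (D : Dat x y b) (c : Subgroup.centralizer ({x} : Set G)) (i j l : ℕ)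
    (h : (c : G) = x ^ i * y ^ j * b ^ l) :
    (rp D c).1 % 3 = i % 3 ∧ (rp D c).2.2 % 2 = l % 2 :=
  D.uniq _ _ _ _ _ _ ((rp_spec D c).symm.trans h)

theorem rp_mul (D : Dat x y b) (c c' : Subgroup.centralizer ({x} : Set G)) :
    (rp D (c * c')).1 % 3 = ((rp D c).1 + (rp D c').1) % 3 ∧
      (rp D (c * c')).2.2 % 2 = ((rp D c).2.2 + (rp D c').2.2) % 2 := by
  have h := D.mul (rp D c).1 (rp D c).2.1 (rp D c).2.2 (rp D c').1 (rp D c').2.1 (rp D c').2.2
  rw [← rp_spec D c, ← rp_spec D c'] at h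
  exact rp_mod D (c * c') _ _ _ (by rw [Subgroup.coe_mul]; exact h)

/-- The homomorphism `c ↦ ω ^ i`. -/
noncomputable def fHom (D : Dat x y b) (ω : ℂˣ) (hω : ω ^ 3 = 1) :
    Subgroup.centralizer ({x} : Set G) →* ℂˣ where
  toFun c := ω ^ (rp D c).1
  map_one' := by
    have h := (rp_mod D 1 0 0 0 (by simp)).1
    rw [pow_eq_pow_mod _ hω, h]; simp
  map_mul' c c' := by
    have h := (rp_mul D c c').1
    rw [pow_eq_pow_mod _ hω, h, ← pow_eq_pow_mod _ hω, pow_add]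

/-- The homomorphism `c ↦ (-1) ^ l`. -/
noncomputable def gHom (D : Dat x y b) : Subgroup.centralizer ({x} : Set G) →* ℂˣ where
  toFun c := (-1) ^ (rp D c).2.2
  map_one' := by
    have h := (rp_mod D 1 0 0 0 (by simp)).2
    rw [pow_eq_pow_mod _ (by norm_num : ((-1 : ℂˣ)) ^ 2 = 1), h]; simp
  map_mul' c c' := by
    have h := (rp_mul D c c').2
    rw [pow_eq_pow_mod _ (by norm_num : ((-1 : ℂˣ)) ^ 2 = 1), h,
      ← pow_eq_pow_mod _ (by norm_num : ((-1 : ℂˣ)) ^ 2 = 1), pow_add]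

theorem fHom_apply (D : Dat x y b) (ω : ℂˣ) (hω : ω ^ 3 = 1)
    (c : Subgroup.centralizer ({x} : Set G)) (i j l : ℕ) (h : (c : G) = x ^ i * y ^ j * b ^ l) :
    fHom D ω hω c = ω ^ (i % 3) := by
  change ω ^ (rp D c).1 = _
  rw [pow_eq_pow_mod _ hω, (rp_mod D c i j l h).1]

theorem gHom_apply (D : Dat x y b)
    (c : Subgroup.centralizer ({x} : Set G)) (i j l : ℕ) (h : (c : G) = x ^ i * y ^ j * b ^ l) :
    gHom D c = (-1) ^ (l % 2) := by
  change (-1 : ℂˣ) ^ (rp D c).2.2 = _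
  rw [pow_eq_pow_mod _ (by norm_num : ((-1 : ℂˣ)) ^ 2 = 1), (rp_mod D c i j l h).2]

end

theorem exists_omega : ∃ ω : ℂˣ, ω ^ 3 = 1 ∧ ω ≠ 1 := by
  have hζ := Complex.isPrimitiveRoot_exp 3 (by norm_num)
  have h0 : Complex.exp (2 * Real.pi * Complex.I / (3 : ℕ)) ≠ 0 := Complex.exp_ne_zero _
  refine ⟨Units.mk0 _ h0, ?_, ?_⟩
  · apply Units.ext
    simpa using hζ.pow_eq_one
  · intro h
    have h1 : Complex.exp (2 * Real.pi * Complex.I / (3 : ℕ)) = 1 := by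
      simpa using congrArg Units.val h
    exact hζ.ne_one (by norm_num) h1

theorem main (hNF : NF.{u}) : OMEGA2.{u} := by
  intro G _ _ T N x y a b w hC
  obtain ⟨-, -, hU, hM, hCen, -, -⟩ := hNF hC
  have D : Dat x y b :=
    { mem := hCen
      uniq := by
        intro i j l i' j' l' h
        have h' := hU i j 0 l 0 i' j' 0 l' 0 (by simpa using h)
        exact ⟨h'.1, h'.2.2.2.1⟩
      mul := by
        intro i j l i' j' l'
        have h' := hM i j 0 l 0 i' j' 0 l' 0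
        simpa using h' }
  obtain ⟨ω, hω3, hω1⟩ := exists_omega
  refine ⟨fHom D ω hω3, gHom D, ?_⟩
  constructor
  · intro h
    rw [fHom_apply D ω hω3 ⟨x, h⟩ 1 0 0 (by simp)]
    simpa using hω1
  · intro h
    rw [fHom_apply D ω hω3 ⟨y, h⟩ 0 1 0 (by simp)]
    simp
  · intro h
    rw [fHom_apply D ω hω3 ⟨b, h⟩ 0 0 1 (by simp)]
    simp
  · intro h
    rw [gHom_apply D ⟨x, h⟩ 1 0 0 (by simp)]
    simp
  · intro h
    rw [gHom_apply D ⟨y, h⟩ 0 1 0 (by simp)]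
    simp
  · intro h
    rw [gHom_apply D ⟨b, h⟩ 0 0 1 (by simp)]
    simp

end Cfsg.Agent.Lib.Helper8.D8OMEGA2
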