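import Mathlib
import Cfsg.Agent.Lib.Helper30.CTIStmt

/-!
# S4064 piece SQAB: a 2-group of order `q²` with a fixed-point-free group of order `q - 1`
-/

set_option autoImplicit false

namespace Cfsg.Agent.Lib.Helper8.CTISQAB

open Cfsg.Agent.Lib.Helper30.CTIStmt

universe u

theorem main : Cfsg.Agent.Lib.Helper30.CTIStmt.SQAB.{u} := by
  intro G _ _ M V D k hM hV hD hVdef hVc hDM hfpf hcomm x hx y hy
  have hVM : V ≤ M := fun v hv => ((hVdef v).1 hv).1
  have hVsq : ∀ v ∈ V, v ^ 2 = 1 := fun v hv => ((hVdef v).1 hv).2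
  have hDV : ∀ d ∈ D, ∀ v ∈ V, d * v * d⁻¹ ∈ V := by
    intro d hd v hv
    rw [hVdef]
    refine ⟨hDM d hd v (hVM hv), ?_⟩
    rw [conj_pow, hVsq v hv, mul_one, mul_inv_cancel]
  have hfree : ∀ d ∈ D, d ≠ 1 → ∀ y ∈ M, y ∉ V → ∀ v₁ ∈ V, d * y * d⁻¹ ≠ y * v₁ := by
    intro d hd hd1 y hy hyV v₁ hv₁ heq
    let τ : ↥V → ↥V := fun z =>
      ⟨(z : G) * (d * z * d⁻¹)⁻¹, V.mul_mem z.2 (V.inv_mem (hDV d hd z z.2))⟩
    have hτ : Function.Injective τ := by
      intro z z' h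
      have h1 : (z : G) * (d * z * d⁻¹)⁻¹ = (z' : G) * (d * z' * d⁻¹)⁻¹ :=
        congrArg Subtype.val h
      have e1 : (z' : G)⁻¹ * z = (d * z' * d⁻¹)⁻¹ * (d * z * d⁻¹) := by
        calc (z' : G)⁻¹ * z = (z' : G)⁻¹ * ((z : G) * (d * z * d⁻¹)⁻¹) * (d * z * d⁻¹) := by
              group
          _ = (z' : G)⁻¹ * ((z' : G) * (d * z' * d⁻¹)⁻¹) * (d * z * d⁻¹) := by rw [h1]
          _ = (d * z' * d⁻¹)⁻¹ * (d * z * d⁻¹) := by group
      have hw : d * ((z' : G)⁻¹ * z) = ((z' : G)⁻¹ * z) * d := by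
        calc d * ((z' : G)⁻¹ * z) = ((d * z' * d⁻¹)⁻¹ * (d * z * d⁻¹)) * d := by group
          _ = ((z' : G)⁻¹ * z) * d := by rw [← e1]
      by_contra hne
      have hw1 : (z' : G)⁻¹ * z ≠ 1 := by
        intro h0
        apply hne
        apply Subtype.ext
        exact (inv_mul_eq_one.1 h0).symm
      exact hfpf d hd hd1 _ (M.mul_mem (M.inv_mem (hVM z'.2)) (hVM z.2)) hw1 hw
    obtain ⟨z, hz⟩ := Finite.surjective_of_injective hτ ⟨v₁, hv₁⟩
    have hz' : (z : G) * (d * z * d⁻¹)⁻¹ = v₁ := congrArg Subtype.val hz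
    have hc : d * (y * z) = (y * z) * d := by
      calc d * (y * z) = (d * y * d⁻¹) * (d * z * d⁻¹) * d := by group
        _ = (y * v₁) * (d * z * d⁻¹) * d := by rw [heq]
        _ = (y * ((z : G) * (d * z * d⁻¹)⁻¹)) * (d * z * d⁻¹) * d := by rw [hz']
        _ = (y * z) * d := by group
    have hyz1 : y * (z : G) ≠ 1 := by
      intro h0
      apply hyV
      rw [eq_inv_of_mul_eq_one_left h0]
      exact V.inv_mem z.2
    exact hfpf d hd hd1 _ (M.mul_mem hy (hVM z.2)) hyz1 hc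
  by_cases hyV : y ∈ V
  · exact (hVc y hyV x hx).symm
  · let Ψ : (↥D × ↥V) ⊕ ↥V → ↥M := Sum.elim
      (fun p => ⟨(p.1 : G) * y * (p.1 : G)⁻¹ * (p.2 : G),
        M.mul_mem (hDM _ p.1.2 y hy) (hVM p.2.2)⟩)
      (fun v => ⟨(v : G), hVM v.2⟩)
    have hinj : Function.Injective Ψ := by
      rintro (⟨⟨d, hd⟩, ⟨v, hv⟩⟩ | ⟨v, hv⟩) (⟨⟨d', hd'⟩, ⟨v', hv'⟩⟩ | ⟨v', hv'⟩) h
      · have h1 : d * y * d⁻¹ * v = d' * y * d'⁻¹ * v' := congrArg Subtype.val h
        have h2 : d * y * d⁻¹ = d' * y * d'⁻¹ * v' * v⁻¹ := by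
          calc d * y * d⁻¹ = (d * y * d⁻¹ * v) * v⁻¹ := by group
            _ = d' * y * d'⁻¹ * v' * v⁻¹ := by rw [h1]
        have he : d'⁻¹ * d = 1 := by
          by_contra he
          refine hfree (d'⁻¹ * d) (D.mul_mem (D.inv_mem hd') hd) he y hy hyV
            (d'⁻¹ * (v' * v⁻¹) * (d'⁻¹)⁻¹)
            (hDV _ (D.inv_mem hd') _ (V.mul_mem hv' (V.inv_mem hv))) ?_
          calc (d'⁻¹ * d) * y * (d'⁻¹ * d)⁻¹ = d'⁻¹ * (d * y * d⁻¹) * d' := by group
            _ = d'⁻¹ * (d' * y * d'⁻¹ * v' * v⁻¹) * d' := by rw [h2]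
            _ = y * (d'⁻¹ * (v' * v⁻¹) * (d'⁻¹)⁻¹) := by group
        have hdd : d' = d := inv_mul_eq_one.1 he
        subst hdd
        have hvv : v = v' := mul_left_cancel h1
        subst hvv
        rfl
      · exfalso
        have h1 : d * y * d⁻¹ * v = v' := congrArg Subtype.val h
        apply hyV
        have e : y = d⁻¹ * (v' * v⁻¹) * (d⁻¹)⁻¹ := by
          rw [← h1]
          group
        rw [e]
        exact hDV _ (D.inv_mem hd) _ (V.mul_mem hv' (V.inv_mem hv))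
      · exfalso
        have h1 : v = d' * y * d'⁻¹ * v' := congrArg Subtype.val h
        apply hyV
        have e : y = d'⁻¹ * (v * v'⁻¹) * (d'⁻¹)⁻¹ := by
          rw [h1]
          group
        rw [e]
        exact hDV _ (D.inv_mem hd') _ (V.mul_mem hv (V.inv_mem hv'))
      · have h1 : v = v' := congrArg Subtype.val h
        subst h1
        rfl
    have hcard : Nat.card ↥M ≤ Nat.card ((↥D × ↥V) ⊕ ↥V) := by
      rw [Nat.card_sum, Nat.card_prod, hM, hV, hD]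
      obtain ⟨t, ht⟩ : ∃ t, 2 ^ k = t + 1 := ⟨2 ^ k - 1, by
        have := Nat.one_le_two_pow (n := k)
        omega⟩
      rw [ht, Nat.add_sub_cancel]
      apply le_of_eq
      ring
    obtain ⟨s, hs⟩ := (hinj.bijective_of_nat_card_le hcard).2 ⟨x, hx⟩
    rcases s with ⟨⟨d, hd⟩, ⟨v, hv⟩⟩ | ⟨v, hv⟩
    · have hx' : d * y * d⁻¹ * v = x := congrArg Subtype.val hs
      have c1 : y * (d * y * d⁻¹) = d * y * d⁻¹ * y := (hcomm y hy d hd).eq
      have c2 : v * y = y * v := hVc v hv y hy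
      rw [← hx']
      calc d * y * d⁻¹ * v * y = d * y * d⁻¹ * (v * y) := by group
        _ = d * y * d⁻¹ * (y * v) := by rw [c2]
        _ = (d * y * d⁻¹ * y) * v := by group
        _ = (y * (d * y * d⁻¹)) * v := by rw [c1]
        _ = y * (d * y * d⁻¹ * v) := by group
    · have hx' : v = x := congrArg Subtype.val hs
      rw [← hx']
      exact hVc v hv y hy

end Cfsg.Agent.Lib.Helper8.CTISQAB
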