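import Mathlib
import Cfsg.Agent.Lib.Helper30.CTIStmt

/-!
# S4064 piece Z2: `N(M)` is transitive on the points other than its own
-/

set_option autoImplicit false

namespace Cfsg.Agent.Lib.Helper8.CTIZ2

open Cfsg.Agent.Lib.Helper30.CTIStmt

universe u

theorem fix_iff {G : Type u} [Group G] (s : Subgroup G) (x t : G) :
    x • (QuotientGroup.mk t : G ⧸ s) = QuotientGroup.mk t ↔ t⁻¹ * x * t ∈ s := by
  rw [MulAction.Quotient.smul_mk, QuotientGroup.eq, smul_eq_mul]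
  have e : (x * t)⁻¹ * t = (t⁻¹ * x * t)⁻¹ := by group
  rw [e, inv_mem_iff]

theorem mk_eq_one_iff {G : Type u} [Group G] (s : Subgroup G) (t : G) :
    (QuotientGroup.mk (1 : G) : G ⧸ s) = QuotientGroup.mk t ↔ t ∈ s := by
  rw [QuotientGroup.eq, inv_one, one_mul]

theorem main : Cfsg.Agent.Lib.Helper30.CTIStmt.Z2.{u} := by
  intro G _ _ M hZ hZ3 x y hx hy
  obtain ⟨u, huo, hux⟩ := hZ.swap _ x (Ne.symm hx)
  obtain ⟨u', hu'o, hu'y⟩ := hZ.swap _ y (Ne.symm hy)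
  have hxu : x = (QuotientGroup.mk u : G ⧸ NM M) := by
    rw [← hux, MulAction.Quotient.smul_mk, smul_eq_mul, mul_one]
  have hyu : y = (QuotientGroup.mk u' : G ⧸ NM M) := by
    rw [← hu'y, MulAction.Quotient.smul_mk, smul_eq_mul, mul_one]
  have huH : u ∉ NM M := by
    intro h
    apply hx
    rw [hxu]
    exact ((mk_eq_one_iff _ _).2 h).symm
  have hu'H : u' ∉ NM M := by
    intro h
    apply hy
    rw [hyu]
    exact ((mk_eq_one_iff _ _).2 h).symm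
  -- a nonidentity element of `D_{u'}`
  have hcard := hZ.dcard u' hu'o hu'H
  have hne : DU (NM M) u' ≠ ⊥ := by
    rw [← Subgroup.one_lt_card_iff_ne_bot, hcard]
    have := hZ.i2
    omega
  obtain ⟨⟨d, hd⟩, hd1⟩ := (Subgroup.ne_bot_iff_exists_ne_one).1 hne
  have hd1' : d ≠ 1 := fun h => hd1 (Subtype.ext h)
  have hdH : d ∈ NM M := hd.1
  obtain ⟨m₀, hm₀, d₀, hd₀, hdeq⟩ := hZ.hmd u huo huH d hdH
  have hd₀H : d₀ ∈ NM M := hd₀.1
  have hd₀1 : d₀ ≠ 1 := by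
    rintro rfl
    rw [mul_one] at hdeq
    have hmem : d ∈ DU (NM M) u' ⊓ M := ⟨hd, hdeq ▸ hm₀⟩
    rw [hZ.dM u' hu'o hu'H] at hmem
    exact hd1' (Subgroup.mem_bot.1 hmem)
  let θ : ↥M → ↥M := fun m =>
    ⟨(m : G) * (d₀ * (m : G)⁻¹ * d₀⁻¹),
      M.mul_mem m.2 ((Subgroup.mem_normalizer_iff.1 hd₀H (m : G)⁻¹).1 (M.inv_mem m.2))⟩
  have hθ : Function.Injective θ := by
    intro m m' h
    have h1 : (m : G) * (d₀ * (m : G)⁻¹ * d₀⁻¹) = (m' : G) * (d₀ * (m' : G)⁻¹ * d₀⁻¹) :=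
      congrArg Subtype.val h
    have hc : ((m' : G)⁻¹ * m) * d₀ = d₀ * ((m' : G)⁻¹ * m) := by
      calc ((m' : G)⁻¹ * m) * d₀ = (m' : G)⁻¹ * ((m : G) * (d₀ * (m : G)⁻¹ * d₀⁻¹)) * d₀ * m := by
            group
        _ = (m' : G)⁻¹ * ((m' : G) * (d₀ * (m' : G)⁻¹ * d₀⁻¹)) * d₀ * m := by rw [h1]
        _ = d₀ * ((m' : G)⁻¹ * m) := by group
    by_contra hmm
    have hn1 : (m' : G)⁻¹ * m ≠ 1 := by
      intro h0
      apply hmm
      apply Subtype.ext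
      exact (inv_mul_eq_one.1 h0).symm
    have hnM : (m' : G)⁻¹ * m ∈ M := M.mul_mem (M.inv_mem m'.2) m.2
    have hd₀M : d₀ ∈ M := by
      apply hZ.cc _ hnM hn1
      rw [Subgroup.mem_centralizer_iff]
      intro h hh
      rw [Set.mem_singleton_iff] at hh
      rw [hh]
      exact hc
    have hmem : d₀ ∈ DU (NM M) u ⊓ M := ⟨hd₀, hd₀M⟩
    rw [hZ.dM u huo huH] at hmem
    exact hd₀1 (Subgroup.mem_bot.1 hmem)
  obtain ⟨⟨m, hm⟩, hmθ⟩ := Finite.surjective_of_injective hθ ⟨m₀, hm₀⟩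
  have hm' : m * (d₀ * m⁻¹ * d₀⁻¹) = m₀ := congrArg Subtype.val hmθ
  have hdm : d = m * d₀ * m⁻¹ := by
    rw [hdeq, ← hm']
    group
  have hmH : m ∈ NM M := Subgroup.le_normalizer hm
  refine ⟨m, hmH, ?_⟩
  rw [hxu, hyu, MulAction.Quotient.smul_mk, smul_eq_mul]
  by_contra hne23
  have h12 : (QuotientGroup.mk (1 : G) : G ⧸ NM M) ≠ QuotientGroup.mk u' := by
    intro h
    exact hu'H ((mk_eq_one_iff _ _).1 h)
  have h13 : (QuotientGroup.mk (1 : G) : G ⧸ NM M) ≠ QuotientGroup.mk (m * u) := by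
    intro h
    have h1 : m * u ∈ NM M := (mk_eq_one_iff _ _).1 h
    apply huH
    have e : u = m⁻¹ * (m * u) := by group
    rw [e]
    exact Subgroup.mul_mem _ (Subgroup.inv_mem _ hmH) h1
  have f1 : d • (QuotientGroup.mk (1 : G) : G ⧸ NM M) = QuotientGroup.mk (1 : G) := by
    rw [fix_iff]
    simpa using hdH
  have f2 : d • (QuotientGroup.mk u' : G ⧸ NM M) = QuotientGroup.mk u' := by
    rw [fix_iff]
    obtain ⟨h, hh, hhd⟩ := Subgroup.mem_map.1 hd.2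
    rw [MulEquiv.coe_toMonoidHom, MulAut.conj_apply] at hhd
    have e : u'⁻¹ * d * u' = h := by
      rw [← hhd]
      group
    rw [e]
    exact hh
  have f3 : d • (QuotientGroup.mk (m * u) : G ⧸ NM M) = QuotientGroup.mk (m * u) := by
    rw [fix_iff]
    obtain ⟨h, hh, hhd⟩ := Subgroup.mem_map.1 hd₀.2
    rw [MulEquiv.coe_toMonoidHom, MulAut.conj_apply] at hhd
    have e : (m * u)⁻¹ * d * (m * u) = h := by
      rw [hdm, ← hhd]
      group
    rw [e]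
    exact hh
  exact hd1' (hZ3 d _ _ _ h12 (fun h => hne23 h.symm) h13 f1 f2 f3)

end Cfsg.Agent.Lib.Helper8.CTIZ2
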