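import Mathlib
import Cfsg.Agent.Lib.Helper30.CTIStmt

/-!
# S4064 piece Z3: an element fixing three points of `G ⧸ N(M)` is trivial
-/

set_option autoImplicit false

namespace Cfsg.Agent.Lib.Helper8.CTIZ3

open Cfsg.Agent.Lib.Helper30.CTIStmt

universe u

theorem fix_iff {G : Type u} [Group G] (s : Subgroup G) (x t : G) :
    x • (QuotientGroup.mk t : G ⧸ s) = QuotientGroup.mk t ↔ t⁻¹ * x * t ∈ s := by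
  rw [MulAction.Quotient.smul_mk, QuotientGroup.eq, smul_eq_mul]
  have e : (x * t)⁻¹ * t = (t⁻¹ * x * t)⁻¹ := by group
  rw [e, inv_mem_iff]

theorem fix_iff' {G : Type u} [Group G] (s : Subgroup G) (x t : G) :
    x • (QuotientGroup.mk t⁻¹ : G ⧸ s) = QuotientGroup.mk t⁻¹ ↔ t * x * t⁻¹ ∈ s := by
  rw [fix_iff, inv_inv]

theorem ord_conj {G : Type u} [Group G] (x g : G) : orderOf (x * g * x⁻¹) = orderOf g := by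
  have h := MulEquiv.orderOf_eq (MulAut.conj x) g
  rwa [MulAut.conj_apply] at h

theorem sq_of_inv {G : Type u} [Group G] (x : G) (h : x⁻¹ * x⁻¹ = 1) : x ^ 2 = 1 := by
  have h1 : x⁻¹ = (x⁻¹)⁻¹ := eq_inv_of_mul_eq_one_left h
  rw [inv_inv] at h1
  rw [pow_two]
  calc x * x = x⁻¹ * x := by rw [h1]
    _ = 1 := inv_mul_cancel x

theorem main : Cfsg.Agent.Lib.Helper30.CTIStmt.Z3.{u} := by
  intro G _ _ M hZ hInv g a b c hab hbc hac hga hgb hgc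
  obtain ⟨w₁, hw₁o, hw₁⟩ := hZ.swap a b hab
  obtain ⟨w₂, hw₂o, hw₂⟩ := hZ.swap b c hbc
  obtain ⟨w₃, hw₃o, hw₃⟩ := hZ.swap c a (Ne.symm hac)
  have i1 : w₁ * g * w₁⁻¹ = g⁻¹ := hInv a b w₁ g hab hw₁o hw₁ hga hgb
  have i2 : w₂ * g * w₂⁻¹ = g⁻¹ := hInv b c w₂ g hbc hw₂o hw₂ hgb hgc
  have i3 : w₃ * g * w₃⁻¹ = g⁻¹ := hInv c a w₃ g (Ne.symm hac) hw₃o hw₃ hgc hga
  have hka : (w₃ * w₂ * w₁) • a = a := by rw [mul_smul, mul_smul, hw₁, hw₂, hw₃]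
  have hkg : (w₃ * w₂ * w₁) * g * (w₃ * w₂ * w₁)⁻¹ = g⁻¹ := by
    calc (w₃ * w₂ * w₁) * g * (w₃ * w₂ * w₁)⁻¹
        = w₃ * (w₂ * (w₁ * g * w₁⁻¹) * w₂⁻¹) * w₃⁻¹ := by group
      _ = w₃ * (w₂ * g⁻¹ * w₂⁻¹) * w₃⁻¹ := by rw [i1]
      _ = w₃ * (w₂ * g * w₂⁻¹)⁻¹ * w₃⁻¹ := by group
      _ = w₃ * (g⁻¹)⁻¹ * w₃⁻¹ := by rw [i2]
      _ = w₃ * g * w₃⁻¹ := by rw [inv_inv]
      _ = g⁻¹ := i3
  obtain ⟨s, rfl⟩ : ∃ s : G, a = (QuotientGroup.mk s⁻¹ : G ⧸ NM M) := by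
    obtain ⟨t, ht⟩ := QuotientGroup.mk_surjective a
    exact ⟨t⁻¹, by rw [inv_inv, ht]⟩
  have hg'H : s * g * s⁻¹ ∈ NM M := (fix_iff' _ _ _).1 hga
  have hk'H : s * (w₃ * w₂ * w₁) * s⁻¹ ∈ NM M := (fix_iff' _ _ _).1 hka
  have huo : orderOf (s * w₁ * s⁻¹) = 2 := by rw [ord_conj]; exact hw₁o
  have huH : s * w₁ * s⁻¹ ∉ NM M := by
    intro h
    have h1 := (fix_iff' _ _ _).2 h
    rw [hw₁] at h1
    exact hab h1.symm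
  have hw₁' : w₁⁻¹ • b = (QuotientGroup.mk s⁻¹ : G ⧸ NM M) := by
    rw [← hw₁, inv_smul_smul]
  have hg'D : s * g * s⁻¹ ∈ DU (NM M) (s * w₁ * s⁻¹) := by
    refine Subgroup.mem_inf.2 ⟨hg'H, Subgroup.mem_map.2
      ⟨(s * w₁ * s⁻¹)⁻¹ * (s * g * s⁻¹) * (s * w₁ * s⁻¹), ?_, ?_⟩⟩
    · have e : (s * w₁ * s⁻¹)⁻¹ * (s * g * s⁻¹) * (s * w₁ * s⁻¹) = s * (w₁⁻¹ * g * w₁) * s⁻¹ := by
        group
      rw [e]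
      apply (fix_iff' _ _ _).1
      rw [mul_smul, mul_smul, hw₁, hgb, hw₁']
    · rw [MulEquiv.coe_toMonoidHom, MulAut.conj_apply]
      group
  obtain ⟨m, hm, d₁, hd₁, hkeq⟩ := hZ.hmd _ huo huH _ hk'H
  have hDab : ∀ d ∈ DU (NM M) (s * w₁ * s⁻¹), ∀ e ∈ DU (NM M) (s * w₁ * s⁻¹), d * e = e * d := by
    intro d hd e he
    have h1 := hZ.dinv _ huo huH d hd
    have h2 := hZ.dinv _ huo huH e he
    have h3 := hZ.dinv _ huo huH (d * e) (Subgroup.mul_mem _ hd he)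
    have h4 : (d * e)⁻¹ = d⁻¹ * e⁻¹ := by
      rw [← h3, ← h1, ← h2]
      group
    have h5 : (d * e)⁻¹ = (e * d)⁻¹ := by rw [h4, mul_inv_rev]
    exact inv_injective h5
  have hk'g : (s * (w₃ * w₂ * w₁) * s⁻¹) * (s * g * s⁻¹) * (s * (w₃ * w₂ * w₁) * s⁻¹)⁻¹
      = (s * g * s⁻¹)⁻¹ := by
    calc (s * (w₃ * w₂ * w₁) * s⁻¹) * (s * g * s⁻¹) * (s * (w₃ * w₂ * w₁) * s⁻¹)⁻¹
        = s * ((w₃ * w₂ * w₁) * g * (w₃ * w₂ * w₁)⁻¹) * s⁻¹ := by group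
      _ = s * g⁻¹ * s⁻¹ := by rw [hkg]
      _ = (s * g * s⁻¹)⁻¹ := by group
  have hdg : d₁ * (s * g * s⁻¹) * d₁⁻¹ = s * g * s⁻¹ := by
    rw [hDab d₁ hd₁ _ hg'D]
    group
  have hmg : m * (s * g * s⁻¹) * m⁻¹ = (s * g * s⁻¹)⁻¹ := by
    calc m * (s * g * s⁻¹) * m⁻¹ = m * (d₁ * (s * g * s⁻¹) * d₁⁻¹) * m⁻¹ := by rw [hdg]
      _ = (m * d₁) * (s * g * s⁻¹) * (m * d₁)⁻¹ := by group
      _ = (s * g * s⁻¹)⁻¹ := by rw [← hkeq]; exact hk'g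
  have hnM : m * ((s * g * s⁻¹) * m⁻¹ * (s * g * s⁻¹)⁻¹) ∈ M :=
    M.mul_mem hm ((Subgroup.mem_normalizer_iff.1 hg'H m⁻¹).1 (M.inv_mem hm))
  have hn : m * ((s * g * s⁻¹) * m⁻¹ * (s * g * s⁻¹)⁻¹) = (s * g * s⁻¹)⁻¹ * (s * g * s⁻¹)⁻¹ := by
    calc m * ((s * g * s⁻¹) * m⁻¹ * (s * g * s⁻¹)⁻¹)
        = (m * (s * g * s⁻¹) * m⁻¹) * (s * g * s⁻¹)⁻¹ := by group
      _ = (s * g * s⁻¹)⁻¹ * (s * g * s⁻¹)⁻¹ := by rw [hmg]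
  rw [hn] at hnM
  have hbot := hZ.dM _ huo huH
  have hsq : (s * g * s⁻¹)⁻¹ * (s * g * s⁻¹)⁻¹ = 1 := by
    have hmem : (s * g * s⁻¹)⁻¹ * (s * g * s⁻¹)⁻¹ ∈ DU (NM M) (s * w₁ * s⁻¹) ⊓ M :=
      Subgroup.mem_inf.2
        ⟨Subgroup.mul_mem _ (Subgroup.inv_mem _ hg'D) (Subgroup.inv_mem _ hg'D), hnM⟩
    rw [hbot] at hmem
    exact Subgroup.mem_bot.1 hmem
  have hsq' : (s * g * s⁻¹) ^ 2 = 1 := sq_of_inv _ hsq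
  have hg'1 : s * g * s⁻¹ = 1 := by
    by_contra hne
    have ho : orderOf (s * g * s⁻¹) = 2 := orderOf_eq_prime hsq' hne
    have hM' := hZ.invM _ hg'H ho
    have hmem : s * g * s⁻¹ ∈ DU (NM M) (s * w₁ * s⁻¹) ⊓ M := Subgroup.mem_inf.2 ⟨hg'D, hM'⟩
    rw [hbot] at hmem
    exact hne (Subgroup.mem_bot.1 hmem)
  exact conj_eq_one_iff.1 hg'1

end Cfsg.Agent.Lib.Helper8.CTIZ3
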