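import Mathlib
import Cfsg.Agent.Lib.Helper40.GFStmt

/-!
# S5886 / COORD: `F ^ N` is an `L`-vector space through `ι : L →ₐ[F] M_N(F)`, hence has
`L`-coordinates.
-/

set_option autoImplicit false

namespace Cfsg.Agent.Lib.Helper8.GFCOORD

open Cfsg.Agent.Lib.Helper40.GFStmt

universe u

theorem main : Coord.{u} := by
  intro F L _ _ _ _ N ι
  classical
  let φ : L →+* Module.End F (Fin N → F) :=
    ((Matrix.toLinAlgEquiv' : Matrix (Fin N) (Fin N) F ≃ₐ[F] _) : Matrix (Fin N) (Fin N) F →+* _).comp
      (ι : L →+* Matrix (Fin N) (Fin N) F)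
  letI : Module L (Fin N → F) := Module.compHom (Fin N → F) φ
  have hsmul : ∀ (a : L) (x : Fin N → F), a • x = Matrix.mulVec (ι a) x := by
    intro a x
    show φ a x = _
    simp [φ]
  haveI : IsScalarTower F L (Fin N → F) := by
    refine ⟨fun s a x => ?_⟩
    rw [hsmul, hsmul, map_smul, Matrix.smul_mulVec]
  haveI : Module.Finite L (Fin N → F) := Module.Finite.of_restrictScalars_finite F L (Fin N → F)
  let bs := Module.finBasis L (Fin N → F)
  refine ⟨Module.finrank L (Fin N → F), (bs.equivFun).restrictScalars F, fun a x => ?_⟩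
  rw [← hsmul]
  exact bs.equivFun.map_smul a x

end Cfsg.Agent.Lib.Helper8.GFCOORD
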