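import Cfsg.Agent.Lib.Helper8.HSElts2

/-!
Relations among the explicit elements of the model group `G0` used in the local analysis at the
prime 2, all checked on tables.
-/

set_option autoImplicit false

namespace Cfsg.Agent.Lib.Helper8.HSTab

open scoped commutatorElement

/-- Powers of a table. -/
def tpow (t : List Nat) : Nat → List Nat
  | 0 => idT
  | n + 1 => tmul (tpow t n) t

theorem tab_pow (π : Equiv.Perm (Fin 100)) (n : ℕ) : tab (π ^ n) = tpow (tab π) n := by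
  induction n with
  | zero => rw [pow_zero, tab_one]; rfl
  | succ n ih => rw [pow_succ, tab_mul, ih]; rfl

theorem f_c01 : x0 * x1 = x1 * x0 := by
  apply tab_injective
  simp only [tab_mul, tab_inv, tab_one, tab_pow, commutatorElement_def, tab_x0, tab_x1, tab_x2, tab_g7, tab_h3, tab_s0, tab_s2, tab_e0, tab_w0, tab_w2, tab_cs, tab_cr, tab_c2, tab_c3]
  decide +kernel

theorem f_c02 : x0 * x2 = x2 * x0 := by
  apply tab_injective
  simp only [tab_mul, tab_inv, tab_one, tab_pow, commutatorElement_def, tab_x0, tab_x1, tab_x2, tab_g7, tab_h3, tab_s0, tab_s2, tab_e0, tab_w0, tab_w2, tab_cs, tab_cr, tab_c2, tab_c3]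
  decide +kernel

theorem f_c12 : x1 * x2 = x2 * x1 := by
  apply tab_injective
  simp only [tab_mul, tab_inv, tab_one, tab_pow, commutatorElement_def, tab_x0, tab_x1, tab_x2, tab_g7, tab_h3, tab_s0, tab_s2, tab_e0, tab_w0, tab_w2, tab_cs, tab_cr, tab_c2, tab_c3]
  decide +kernel

theorem f_p0 : x0 ^ 4 = 1 := by
  apply tab_injective
  simp only [tab_mul, tab_inv, tab_one, tab_pow, commutatorElement_def, tab_x0, tab_x1, tab_x2, tab_g7, tab_h3, tab_s0, tab_s2, tab_e0, tab_w0, tab_w2, tab_cs, tab_cr, tab_c2, tab_c3]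
  decide +kernel

theorem f_p1 : x1 ^ 4 = 1 := by
  apply tab_injective
  simp only [tab_mul, tab_inv, tab_one, tab_pow, commutatorElement_def, tab_x0, tab_x1, tab_x2, tab_g7, tab_h3, tab_s0, tab_s2, tab_e0, tab_w0, tab_w2, tab_cs, tab_cr, tab_c2, tab_c3]
  decide +kernel

theorem f_p2 : x2 ^ 4 = 1 := by
  apply tab_injective
  simp only [tab_mul, tab_inv, tab_one, tab_pow, commutatorElement_def, tab_x0, tab_x1, tab_x2, tab_g7, tab_h3, tab_s0, tab_s2, tab_e0, tab_w0, tab_w2, tab_cs, tab_cr, tab_c2, tab_c3]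
  decide +kernel

theorem f_g2 : g7 * x2 * g7⁻¹ = x0 * x1 * x1 * x1 * x2 * x2 := by
  apply tab_injective
  simp only [tab_mul, tab_inv, tab_one, tab_pow, commutatorElement_def, tab_x0, tab_x1, tab_x2, tab_g7, tab_h3, tab_s0, tab_s2, tab_e0, tab_w0, tab_w2, tab_cs, tab_cr, tab_c2, tab_c3]
  decide +kernel

theorem f_hh0 : h3 * x0 * h3⁻¹ = x0 * x1 * x1 * x2 * x2 := by
  apply tab_injective
  simp only [tab_mul, tab_inv, tab_one, tab_pow, commutatorElement_def, tab_x0, tab_x1, tab_x2, tab_g7, tab_h3, tab_s0, tab_s2, tab_e0, tab_w0, tab_w2, tab_cs, tab_cr, tab_c2, tab_c3]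
  decide +kernel

theorem f_hh1 : h3 * x1 * h3⁻¹ = x0 * x0 * x2 * x2 * x2 := by
  apply tab_injective
  simp only [tab_mul, tab_inv, tab_one, tab_pow, commutatorElement_def, tab_x0, tab_x1, tab_x2, tab_g7, tab_h3, tab_s0, tab_s2, tab_e0, tab_w0, tab_w2, tab_cs, tab_cr, tab_c2, tab_c3]
  decide +kernel

theorem f_hh2 : h3 * x2 * h3⁻¹ = x0 * x0 * x1 * x2 * x2 * x2 := by
  apply tab_injective
  simp only [tab_mul, tab_inv, tab_one, tab_pow, commutatorElement_def, tab_x0, tab_x1, tab_x2, tab_g7, tab_h3, tab_s0, tab_s2, tab_e0, tab_w0, tab_w2, tab_cs, tab_cr, tab_c2, tab_c3]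
  decide +kernel

theorem f_hhg : h3 * g7 * h3⁻¹ = g7 * g7 := by
  apply tab_injective
  simp only [tab_mul, tab_inv, tab_one, tab_pow, commutatorElement_def, tab_x0, tab_x1, tab_x2, tab_g7, tab_h3, tab_s0, tab_s2, tab_e0, tab_w0, tab_w2, tab_cs, tab_cr, tab_c2, tab_c3]
  decide +kernel

theorem f_hs0 : s0 * x0 * s0⁻¹ = x0 * x0 * x0 := by
  apply tab_injective
  simp only [tab_mul, tab_inv, tab_one, tab_pow, commutatorElement_def, tab_x0, tab_x1, tab_x2, tab_g7, tab_h3, tab_s0, tab_s2, tab_e0, tab_w0, tab_w2, tab_cs, tab_cr, tab_c2, tab_c3]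
  decide +kernel

theorem f_hs1 : s0 * x1 * s0⁻¹ = x1 * x1 * x1 := by
  apply tab_injective
  simp only [tab_mul, tab_inv, tab_one, tab_pow, commutatorElement_def, tab_x0, tab_x1, tab_x2, tab_g7, tab_h3, tab_s0, tab_s2, tab_e0, tab_w0, tab_w2, tab_cs, tab_cr, tab_c2, tab_c3]
  decide +kernel

theorem f_hs2 : s0 * x2 * s0⁻¹ = x0 * x0 * x1 * x1 * x1 * x2 := by
  apply tab_injective
  simp only [tab_mul, tab_inv, tab_one, tab_pow, commutatorElement_def, tab_x0, tab_x1, tab_x2, tab_g7, tab_h3, tab_s0, tab_s2, tab_e0, tab_w0, tab_w2, tab_cs, tab_cr, tab_c2, tab_c3]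
  decide +kernel

theorem f_s0s0 : s0 * s0 = 1 := by
  apply tab_injective
  simp only [tab_mul, tab_inv, tab_one, tab_pow, commutatorElement_def, tab_x0, tab_x1, tab_x2, tab_g7, tab_h3, tab_s0, tab_s2, tab_e0, tab_w0, tab_w2, tab_cs, tab_cr, tab_c2, tab_c3]
  decide +kernel

theorem f_hsh : s0 * h3 * s0⁻¹ = h3⁻¹ := by
  apply tab_injective
  simp only [tab_mul, tab_inv, tab_one, tab_pow, commutatorElement_def, tab_x0, tab_x1, tab_x2, tab_g7, tab_h3, tab_s0, tab_s2, tab_e0, tab_w0, tab_w2, tab_cs, tab_cr, tab_c2, tab_c3]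
  decide +kernel

theorem f_hse : s0 * e0 * s0⁻¹ = e0⁻¹ := by
  apply tab_injective
  simp only [tab_mul, tab_inv, tab_one, tab_pow, commutatorElement_def, tab_x0, tab_x1, tab_x2, tab_g7, tab_h3, tab_s0, tab_s2, tab_e0, tab_w0, tab_w2, tab_cs, tab_cr, tab_c2, tab_c3]
  decide +kernel

theorem f_d0 : x0 = ⁅x0 * x0 * x2 * x2, h3⁆ * (e0 * e0 * e0) := by
  apply tab_injective
  simp only [tab_mul, tab_inv, tab_one, tab_pow, commutatorElement_def, tab_x0, tab_x1, tab_x2, tab_g7, tab_h3, tab_s0, tab_s2, tab_e0, tab_w0, tab_w2, tab_cs, tab_cr, tab_c2, tab_c3]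
  decide +kernel

theorem f_d1 : x1 = ⁅x0 * x2, h3⁆ * (e0 * e0) := by
  apply tab_injective
  simp only [tab_mul, tab_inv, tab_one, tab_pow, commutatorElement_def, tab_x0, tab_x1, tab_x2, tab_g7, tab_h3, tab_s0, tab_s2, tab_e0, tab_w0, tab_w2, tab_cs, tab_cr, tab_c2, tab_c3]
  decide +kernel

theorem f_d2 : x2 = ⁅x1 * x1 * x1 * x2 * x2 * x2, h3⁆ := by
  apply tab_injective
  simp only [tab_mul, tab_inv, tab_one, tab_pow, commutatorElement_def, tab_x0, tab_x1, tab_x2, tab_g7, tab_h3, tab_s0, tab_s2, tab_e0, tab_w0, tab_w2, tab_cs, tab_cr, tab_c2, tab_c3]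
  decide +kernel

theorem f_r4 : (s2 * s0) ^ 4 = 1 := by
  apply tab_injective
  simp only [tab_mul, tab_inv, tab_one, tab_pow, commutatorElement_def, tab_x0, tab_x1, tab_x2, tab_g7, tab_h3, tab_s0, tab_s2, tab_e0, tab_w0, tab_w2, tab_cs, tab_cr, tab_c2, tab_c3]
  decide +kernel

theorem f_sr : s0 * (s2 * s0) * s0⁻¹ = (s2 * s0)⁻¹ := by
  apply tab_injective
  simp only [tab_mul, tab_inv, tab_one, tab_pow, commutatorElement_def, tab_x0, tab_x1, tab_x2, tab_g7, tab_h3, tab_s0, tab_s2, tab_e0, tab_w0, tab_w2, tab_cs, tab_cr, tab_c2, tab_c3]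
  decide +kernel

theorem f_s2s2 : s2 * s2 = 1 := by
  apply tab_injective
  simp only [tab_mul, tab_inv, tab_one, tab_pow, commutatorElement_def, tab_x0, tab_x1, tab_x2, tab_g7, tab_h3, tab_s0, tab_s2, tab_e0, tab_w0, tab_w2, tab_cs, tab_cr, tab_c2, tab_c3]
  decide +kernel

theorem f_fs : s0 = cs * (x0 * x0) * cs⁻¹ := by
  apply tab_injective
  simp only [tab_mul, tab_inv, tab_one, tab_pow, commutatorElement_def, tab_x0, tab_x1, tab_x2, tab_g7, tab_h3, tab_s0, tab_s2, tab_e0, tab_w0, tab_w2, tab_cs, tab_cr, tab_c2, tab_c3]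
  decide +kernel

theorem f_fr : ⁅s0, s2 * s0⁆ = cr * (x0 * x0) * cr⁻¹ := by
  apply tab_injective
  simp only [tab_mul, tab_inv, tab_one, tab_pow, commutatorElement_def, tab_x0, tab_x1, tab_x2, tab_g7, tab_h3, tab_s0, tab_s2, tab_e0, tab_w0, tab_w2, tab_cs, tab_cr, tab_c2, tab_c3]
  decide +kernel

theorem f_w02 : w0 * w2 = w2 * w0 := by
  apply tab_injective
  simp only [tab_mul, tab_inv, tab_one, tab_pow, commutatorElement_def, tab_x0, tab_x1, tab_x2, tab_g7, tab_h3, tab_s0, tab_s2, tab_e0, tab_w0, tab_w2, tab_cs, tab_cr, tab_c2, tab_c3]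
  decide +kernel

theorem f_w3 : w0 * w2 = c3 * w0 * c3⁻¹ := by
  apply tab_injective
  simp only [tab_mul, tab_inv, tab_one, tab_pow, commutatorElement_def, tab_x0, tab_x1, tab_x2, tab_g7, tab_h3, tab_s0, tab_s2, tab_e0, tab_w0, tab_w2, tab_cs, tab_cr, tab_c2, tab_c3]
  decide +kernel

theorem f_w0w0 : w0 * w0 = 1 := by
  apply tab_injective
  simp only [tab_mul, tab_inv, tab_one, tab_pow, commutatorElement_def, tab_x0, tab_x1, tab_x2, tab_g7, tab_h3, tab_s0, tab_s2, tab_e0, tab_w0, tab_w2, tab_cs, tab_cr, tab_c2, tab_c3]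
  decide +kernel

theorem f_r2 : (s2 * s0) ^ 2 ≠ 1 := by
  intro h
  have h1 := congrArg tab h
  simp only [tab_mul, tab_inv, tab_one, tab_pow, commutatorElement_def, tab_x0, tab_x1, tab_x2, tab_g7, tab_h3, tab_s0, tab_s2, tab_e0, tab_w0, tab_w2, tab_cs, tab_cr, tab_c2, tab_c3] at h1
  revert h1
  decide +kernel

/-- The table of `x0 ^ i * x1 ^ j * x2 ^ k`. -/
def eT (i j k : ℕ) : List Nat := tmul (tmul (tpow x0T i) (tpow x1T j)) (tpow x2T k)

theorem tab_eT (i j k : ℕ) : tab (x0 ^ i * x1 ^ j * x2 ^ k) = eT i j k := by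
  rw [tab_mul, tab_mul, tab_pow, tab_pow, tab_pow, tab_x0, tab_x1, tab_x2]
  rfl

theorem fpf_T : ∀ i j k : Fin 4, tmul (eT i j k) g7T = tmul g7T (eT i j k) →
    i = 0 ∧ j = 0 ∧ k = 0 := by
  decide +kernel

theorem f_fpf (i j k : Fin 4)
    (h : x0 ^ (i : ℕ) * x1 ^ (j : ℕ) * x2 ^ (k : ℕ) * g7
      = g7 * (x0 ^ (i : ℕ) * x1 ^ (j : ℕ) * x2 ^ (k : ℕ))) : i = 0 ∧ j = 0 ∧ k = 0 := by
  apply fpf_T
  have h1 := congrArg tab h
  rwa [tab_mul _ g7, tab_mul g7 _, tab_eT, tab_g7] at h1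

theorem inj_T : ∀ i j k i' j' k' : Fin 4,
    ((eT i j k).getD 0 0 = (eT i' j' k').getD 0 0 ∧ (eT i j k).getD 1 0 = (eT i' j' k').getD 1 0) →
    i = i' ∧ j = j' ∧ k = k' := by
  decide +kernel

theorem f_inj (i j k i' j' k' : Fin 4)
    (h : x0 ^ (i : ℕ) * x1 ^ (j : ℕ) * x2 ^ (k : ℕ)
      = x0 ^ (i' : ℕ) * x1 ^ (j' : ℕ) * x2 ^ (k' : ℕ)) : i = i' ∧ j = j' ∧ k = k' := by
  apply inj_T
  have h1 := congrArg tab h
  rw [tab_eT, tab_eT] at h1
  rw [h1]
  exact ⟨rfl, rfl⟩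

/-- The table of `(s2 * s0) ^ i * s2 ^ j`. -/
def dT (i j : ℕ) : List Nat := tmul (tpow (tmul s2T s0T) i) (tpow s2T j)

theorem tab_dT (i j : ℕ) : tab ((s2 * s0) ^ i * s2 ^ j) = dT i j := by
  rw [tab_mul, tab_pow, tab_pow, tab_mul, tab_s2, tab_s0]
  rfl

theorem dfix_T : ∀ (i : Fin 4) (j : Fin 2), tmul (dT i j) x0T = tmul x0T (dT i j) →
    i = 0 ∧ j = 0 := by
  decide +kernel

theorem f_dfix (i : Fin 4) (j : Fin 2)
    (h : (s2 * s0) ^ (i : ℕ) * s2 ^ (j : ℕ) * x0 = x0 * ((s2 * s0) ^ (i : ℕ) * s2 ^ (j : ℕ))) :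
    i = 0 ∧ j = 0 := by
  apply dfix_T
  have h1 := congrArg tab h
  rwa [tab_mul _ x0, tab_mul x0 _, tab_dT, tab_x0] at h1

theorem dinj_T : ∀ (i i' : Fin 4) (j j' : Fin 2), dT i j = dT i' j' → i = i' ∧ j = j' := by
  decide +kernel

theorem f_dinj (i i' : Fin 4) (j j' : Fin 2)
    (h : (s2 * s0) ^ (i : ℕ) * s2 ^ (j : ℕ) = (s2 * s0) ^ (i' : ℕ) * s2 ^ (j' : ℕ)) :
    i = i' ∧ j = j' := by
  apply dinj_T
  have h1 := congrArg tab h
  rwa [tab_dT, tab_dT] at h1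

theorem w0_fpf_T : ∀ i : Fin 100, w0T.getD i 0 ≠ i := by
  decide +kernel

theorem w0_fpf (i : Fin 100) : w0 i ≠ i := by
  intro h
  have h1 := tab_getD w0 i
  rw [tab_w0, h] at h1
  exact w0_fpf_T i h1

theorem x1_mem : x1 ∈ G0 := G0.mul_mem (G0.mul_mem g7_mem x0_mem) (G0.inv_mem g7_mem)

theorem x2_mem : x2 ∈ G0 := G0.mul_mem (G0.mul_mem g7_mem x1_mem) (G0.inv_mem g7_mem)

theorem s2_mem : s2 ∈ G0 := G0.mul_mem (G0.mul_mem g7_mem s0_mem) (G0.inv_mem g7_mem)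

theorem e0_mem : e0 ∈ G0 :=
  G0.mul_mem (G0.mul_mem (G0.mul_mem x0_mem x0_mem) x0_mem) (G0.mul_mem x1_mem x1_mem)

theorem w0_mem : w0 ∈ G0 := G0.mul_mem e0_mem s0_mem

end Cfsg.Agent.Lib.Helper8.HSTab
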