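import Cfsg.Agent.Lib.Helper8.HSLeech
import Cfsg.Agent.S0410
import Cfsg.Agent.Lib.Helper35.M22Aut

/-!
Recognition of the Higman-Sims group: a group of order `44352000` of automorphisms of a
strongly regular graph with parameters `(100, 22, 0, 6)` is isomorphic to it; a group
isomorphic to `M22` acting with an orbit of length `22` is doubly transitive on it.
-/

set_option autoImplicit false

namespace Cfsg.Agent.Lib.Helper8.HSRecog

open Cfsg Cfsg.Agent.Lib.Helper8.SRG100 Cfsg.Agent.Lib.Helper8.HSGraph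
  Cfsg.Agent.Lib.Helper8.HSLeech Cfsg.Agent.Lib.Helper35.PermAut

/-- Two graphs with the local counts of a strongly regular graph with parameters
`(100, 22, 0, 6)` are isomorphic. -/
theorem loc_iso {V W : Type*} [Fintype V] [DecidableEq V] [Fintype W] [DecidableEq W]
    {G : SimpleGraph V} {H : SimpleGraph W} [DecidableRel G.Adj] [DecidableRel H.Adj]
    (hG : Loc G) (hH : Loc H) : Nonempty (G ≃g H) := by
  obtain ⟨x⟩ : Nonempty V := Fintype.card_pos_iff.1 (by rw [hG.card]; norm_num)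
  obtain ⟨y⟩ : Nonempty W := Fintype.card_pos_iff.1 (by rw [hH.card]; norm_num)
  have hB := design_steiner hG x
  have hB' := design_steiner hH y
  let e : G ≃g Cfsg.pointBlockGraph (design G x) :=
    ⟨Equiv.ofBijective (toPB G x) ⟨toPB_inj hG x, toPB_surj x⟩,
      fun {u u'} => toPB_adj hG x hB u u'⟩
  let e' : H ≃g Cfsg.pointBlockGraph (design H y) :=
    ⟨Equiv.ofBijective (toPB H y) ⟨toPB_inj hH y, toPB_surj y⟩,
      fun {u u'} => toPB_adj hH y hB' u u'⟩
  obtain ⟨f, hf⟩ := Cfsg.Agent.S0410.result (card_nbr hG x) (card_nbr hH y) hB hB'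
  obtain ⟨c, -⟩ := pbg_congr f hf
  exact ⟨(e.trans c).trans e'.symm⟩

/-- A simple subgroup of index two equals every subgroup of index two. -/
theorem eq_of_index_two {Γ : Type*} [Group Γ] (N R M : Subgroup Γ) [Finite N] (hR : R ≤ N)
    (hM : M ≤ N) (hRc : Nat.card N = 2 * Nat.card R) (hMc : Nat.card N = 2 * Nat.card M)
    [IsSimpleGroup R] (h2 : 2 < Nat.card R) : R = M := by
  have hfinR : Finite R :=
    Finite.of_injective (Subgroup.inclusion hR) (Subgroup.inclusion_injective hR)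
  have hfinM : Finite M :=
    Finite.of_injective (Subgroup.inclusion hM) (Subgroup.inclusion_injective hM)
  have hidx : (M.subgroupOf N).index = 2 := by
    have h1 := Subgroup.card_mul_index (M.subgroupOf N)
    have h3 : Nat.card (M.subgroupOf N) = Nat.card M :=
      Nat.card_congr (Subgroup.subgroupOfEquivOfLe hM).toEquiv
    rw [h3, hMc] at h1
    have hpos : 0 < Nat.card M := by omega
    exact Nat.eq_of_mul_eq_mul_left hpos (by rw [h1, mul_comm])
  obtain ⟨a₀, ha₀⟩ := Subgroup.index_eq_two_iff.mp hidx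
  have hor : ∀ k ∈ R, k ∈ M ∨ (a₀ : Γ)⁻¹ * k ∈ M := by
    intro k hk
    have h := ha₀ ⟨k⁻¹, hR (R.inv_mem hk)⟩
    rw [Subgroup.mem_subgroupOf, Subgroup.mem_subgroupOf] at h
    rcases h with ⟨h1, -⟩ | ⟨h1, -⟩
    · right
      have h3 := M.inv_mem h1
      have h4 : ((k⁻¹ : Γ) * (a₀ : Γ))⁻¹ = (a₀ : Γ)⁻¹ * k := by group
      rw [← h4]
      exact h3
    · left
      have h3 := M.inv_mem h1
      rwa [inv_inv] at h3
  rcases half_or_all R M (a₀ : Γ)⁻¹ hor with h | h
  · have hle : R ≤ M := by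
      have h3 : R ⊓ M = R := Subgroup.eq_of_le_of_card_ge inf_le_left (le_of_eq h.symm)
      exact inf_eq_left.mp h3
    exact Subgroup.eq_of_le_of_card_ge hle (by omega)
  · exfalso
    have hc : Nat.card (M.subgroupOf R) = Nat.card ↥(R ⊓ M) := by
      rw [← Subgroup.inf_subgroupOf_left M R]
      exact Nat.card_congr (Subgroup.subgroupOfEquivOfLe inf_le_left).toEquiv
    have hidx2 : (M.subgroupOf R).index = 2 := by
      have h1 := Subgroup.card_mul_index (M.subgroupOf R)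
      rw [hc] at h1
      have hpos : 0 < Nat.card ↥(R ⊓ M) := by omega
      have h3 : Nat.card ↥(R ⊓ M) * (M.subgroupOf R).index = Nat.card ↥(R ⊓ M) * 2 := by
        rw [h1, ← h, mul_comm]
      exact Nat.eq_of_mul_eq_mul_left hpos h3
    have hn : (M.subgroupOf R).Normal := Subgroup.normal_of_index_eq_two hidx2
    rcases hn.eq_bot_or_eq_top with hb | ht
    · rw [hb, Subgroup.card_bot] at hc
      omega
    · rw [ht, Subgroup.index_top] at hidx2
      omega

/-- A group of order `44352000` of automorphisms of a strongly regular graph with parameters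
`(100, 22, 0, 6)` is isomorphic to the Higman-Sims group. -/
theorem iso_hs_of_graph {V : Type*} [Fintype V] [DecidableEq V] {Γ : SimpleGraph V}
    [DecidableRel Γ.Adj] (hloc : Loc Γ) (G : Subgroup (Equiv.Perm V)) (hGA : G ≤ autP Γ)
    (hcard : Nat.card G = 44352000) : Nonempty (G ≃* Cfsg.Spor.HS) := by
  classical
  have : Finite ↥X := finite_X.to_subtype
  let _ : Fintype ↥X := Fintype.ofFinite _
  have hloc' : Loc gr := gr_loc
  obtain ⟨ψ⟩ := loc_iso hloc hloc'
  let Φ : Equiv.Perm V ≃* Equiv.Perm ↥X := ψ.toEquiv.permCongrHom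
  have hΦ : ∀ (g : Equiv.Perm V) (u : ↥X), Φ g u = ψ (g (ψ.symm u)) := fun g u => rfl
  have hG' : G.map Φ.toMonoidHom ≤ autP gr := by
    rintro _ ⟨g, hg, rfl⟩
    intro u v
    show gr.Adj (Φ g u) (Φ g v) ↔ gr.Adj u v
    rw [hΦ, hΦ, ψ.map_rel_iff, hGA hg (ψ.symm u) (ψ.symm v), ← ψ.map_rel_iff]
    simp
  have hG'c : Nat.card (G.map Φ.toMonoidHom) = 44352000 := by
    rw [← hcard]
    exact (Nat.card_congr (G.equivMapOfInjective Φ.toMonoidHom Φ.injective).toEquiv).symm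
  have hN := card_autP hloc'
  have hsA : IsSimpleGroup ↥A := (Cfsg.Agent.S0405.result _ _ hv hw hvw).1
  have hs : IsSimpleGroup ↥(rho.range) := (MonoidHom.ofInjective rho_injective).symm.isSimpleGroup
  have heq : rho.range = G.map Φ.toMonoidHom :=
    eq_of_index_two (autP gr) rho.range (G.map Φ.toMonoidHom) range_le hG'
      (by rw [hN, card_range]) (by rw [hN, hG'c]) (by rw [card_range]; norm_num)
  exact ⟨(G.equivMapOfInjective Φ.toMonoidHom Φ.injective).trans
    ((MulEquiv.subgroupCongr heq.symm).trans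
      ((MonoidHom.ofInjective rho_injective).symm.trans hsEquiv.symm))⟩

section m22

open Cfsg.Agent.Lib.Helper35.M22Aut Cfsg.Agent.Lib.Helper35.M24Aut MulAction

variable {P : Type*} [Group P] {Ω : Type*} [MulAction P Ω]

theorem card_M22_stab {p : GolayPt} (hp : p ∈ pts22) :
    Nat.card ↥(Cfsg.Spor.M22 ⊓ stabilizer (Equiv.Perm GolayPt) p) = 20160 := by
  have h1 := card_eq_mul_orb Cfsg.Spor.M22 p
  have h2 : orb Cfsg.Spor.M22 p = pts22 := by
    ext q
    rw [mem_orb]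
    constructor
    · rintro ⟨g, hg, rfl⟩
      rw [mem_pts22] at hp ⊢
      obtain ⟨-, hgn, hgz⟩ := mem_M22.mp hg
      exact ⟨fun h => hp.1 (g.injective (h.trans hgn.symm)),
        fun h => hp.2 (g.injective (h.trans hgz.symm))⟩
    · intro hq
      exact exists_map_pts22 hp hq
  rw [h2, card_pts22, card_M22] at h1
  omega

/-- The stabiliser of a point of an orbit of length 22 corresponds to the stabiliser of one
of the 22 points. -/
theorem stab_point (e : P ≃* ↥Cfsg.Spor.M22) {b : Ω} (hb : (orbit P b).ncard = 22) {y : Ω}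
    (hy : y ∈ orbit P b) :
    ∃ p ∈ pts22, ∀ s : P, s • y = y ↔
      ((e s : ↥Cfsg.Spor.M22) : Equiv.Perm GolayPt) p = p := by
  have hP : Nat.card P = 443520 := by rw [Nat.card_congr e.toEquiv, card_M22]
  have hfin : Finite P := Nat.finite_of_card_ne_zero (by rw [hP]; norm_num)
  have hidx : (stabilizer P y).index = 22 := by
    rw [MulAction.index_stabilizer, MulAction.orbit_eq_iff.mpr hy, hb]
  have hst : Nat.card (stabilizer P y) = 20160 := by
    have h := Subgroup.card_mul_index (stabilizer P y)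
    rw [hidx, hP] at h
    omega
  have hHle : ((stabilizer P y).map e.toMonoidHom).map Cfsg.Spor.M22.subtype ≤ Cfsg.Spor.M22 := by
    rintro _ ⟨m, -, rfl⟩
    exact m.2
  have hHc : Nat.card ↥(((stabilizer P y).map e.toMonoidHom).map Cfsg.Spor.M22.subtype)
      = 20160 := by
    rw [Subgroup.card_map_of_injective (Subgroup.subtype_injective _),
      Subgroup.card_map_of_injective (show Function.Injective e.toMonoidHom from e.injective), hst]
  obtain ⟨p, hp, hfix⟩ := index22_fix _ hHle hHc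
  have hHeq : ((stabilizer P y).map e.toMonoidHom).map Cfsg.Spor.M22.subtype
      = Cfsg.Spor.M22 ⊓ stabilizer (Equiv.Perm GolayPt) p := by
    apply Subgroup.eq_of_le_of_card_ge
    · intro h hh
      exact ⟨hHle hh, MulAction.mem_stabilizer_iff.mpr (hfix h hh)⟩
    · rw [card_M22_stab hp, hHc]
  refine ⟨p, hp, fun s => ⟨fun hs => ?_, fun hs => ?_⟩⟩
  · exact hfix _ ⟨e s, ⟨s, hs, rfl⟩, rfl⟩
  · have hmem : ((e s : ↥Cfsg.Spor.M22) : Equiv.Perm GolayPt)
        ∈ ((stabilizer P y).map e.toMonoidHom).map Cfsg.Spor.M22.subtype := by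
      rw [hHeq]
      exact ⟨(e s).2, MulAction.mem_stabilizer_iff.mpr hs⟩
    obtain ⟨m, ⟨s', hs', rfl⟩, hm⟩ := hmem
    have h1 : s' = s := e.injective (Subtype.ext hm)
    rw [← h1]
    exact hs'

/-- Distinct points of the orbit have distinct stabilisers. -/
theorem eq_of_stab_eq (e : P ≃* ↥Cfsg.Spor.M22) {b : Ω} (hb : (orbit P b).ncard = 22) {y z : Ω}
    (hy : y ∈ orbit P b) (hz : z ∈ orbit P b) (h : ∀ s : P, s • y = y ↔ s • z = z) : y = z := by
  obtain ⟨p, hp, hfix⟩ := stab_point e hb hy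
  have hz' : z ∈ orbit P y := by
    rw [MulAction.orbit_eq_iff.mpr hy]
    exact hz
  obtain ⟨k, rfl⟩ := hz'
  by_contra hne
  have hkp : ((e k : ↥Cfsg.Spor.M22) : Equiv.Perm GolayPt) p ≠ p := by
    intro hk
    exact hne ((hfix k).mpr hk).symm
  have hq22 : ((e k : ↥Cfsg.Spor.M22) : Equiv.Perm GolayPt) p ∈ pts22 := by
    rw [mem_pts22] at hp ⊢
    obtain ⟨-, hgn, hgz⟩ := mem_M22.mp (e k).2
    exact ⟨fun h => hp.1 (((e k : ↥Cfsg.Spor.M22) : Equiv.Perm GolayPt).injective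
        (h.trans hgn.symm)),
      fun h => hp.2 (((e k : ↥Cfsg.Spor.M22) : Equiv.Perm GolayPt).injective (h.trans hgz.symm))⟩
  obtain ⟨g, hg, hgp, hgq⟩ := exists_fix_move hp hq22 (Ne.symm hkp)
  have hes : ((e (e.symm ⟨g, hg⟩) : ↥Cfsg.Spor.M22) : Equiv.Perm GolayPt) = g := by
    rw [MulEquiv.apply_symm_apply]
  have h1 : (e.symm ⟨g, hg⟩) • y = y := (hfix _).mpr (by rw [hes]; exact hgp)
  have h2 : (e.symm ⟨g, hg⟩) • (k • y) = k • y := (h _).mp h1
  have h3 : (k⁻¹ * e.symm ⟨g, hg⟩ * k) • y = y := by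
    rw [mul_smul, mul_smul, h2, inv_smul_smul]
  have h4 := (hfix (k⁻¹ * e.symm ⟨g, hg⟩ * k)).mp h3
  rw [map_mul, map_mul, map_inv] at h4
  have h5 : ((e k : ↥Cfsg.Spor.M22) : Equiv.Perm GolayPt)⁻¹
      (g (((e k : ↥Cfsg.Spor.M22) : Equiv.Perm GolayPt) p)) = p := by
    rw [← hes]
    exact h4
  apply hgq
  rw [Equiv.Perm.inv_eq_iff_eq] at h5
  exact h5

/-- A group isomorphic to `M22` is doubly transitive on an orbit of length 22. -/
theorem two_trans (e : P ≃* ↥Cfsg.Spor.M22) {b : Ω} (hb : (orbit P b).ncard = 22) {y y₁ y₂ : Ω}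
    (hy : y ∈ orbit P b) (hy₁ : y₁ ∈ orbit P b) (hy₂ : y₂ ∈ orbit P b) (h1 : y₁ ≠ y)
    (h2 : y₂ ≠ y) : ∃ s : P, s • y = y ∧ s • y₁ = y₂ := by
  obtain ⟨p, hp, hfix⟩ := stab_point e hb hy
  obtain ⟨p₁, hp₁, hfix₁⟩ := stab_point e hb hy₁
  obtain ⟨p₂, hp₂, hfix₂⟩ := stab_point e hb hy₂
  have hne₁ : p₁ ≠ p := by
    rintro rfl
    exact h1 (eq_of_stab_eq e hb hy₁ hy (fun s => (hfix₁ s).trans (hfix s).symm))
  have hne₂ : p₂ ≠ p := by
    rintro rfl
    exact h2 (eq_of_stab_eq e hb hy₂ hy (fun s => (hfix₂ s).trans (hfix s).symm))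
  rw [mem_pts22] at hp hp₁ hp₂
  obtain ⟨m, hm, hmn, hmz, hmp, hmp₁⟩ := exists_map_quad (a := none) (b := some 0) (c := p)
    (d := p₁) (a' := none) (b' := some 0) (c' := p) (d' := p₂)
    (by simp [none_ne_zero, Ne.symm hp.1, Ne.symm hp.2, Ne.symm hp₁.1, Ne.symm hp₁.2,
      Ne.symm hne₁])
    (by simp [none_ne_zero, Ne.symm hp.1, Ne.symm hp.2, Ne.symm hp₂.1, Ne.symm hp₂.2,
      Ne.symm hne₂])
  have hm22 : m ∈ Cfsg.Spor.M22 := mem_M22.mpr ⟨hm, hmn, hmz⟩
  have hes : ((e (e.symm ⟨m, hm22⟩) : ↥Cfsg.Spor.M22) : Equiv.Perm GolayPt) = m := by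
    rw [MulEquiv.apply_symm_apply]
  refine ⟨e.symm ⟨m, hm22⟩, (hfix _).mpr (by rw [hes]; exact hmp), ?_⟩
  have hmem : (e.symm ⟨m, hm22⟩) • y₁ ∈ orbit P b := by
    rw [← MulAction.orbit_eq_iff.mpr hy₁]
    exact MulAction.mem_orbit _ _
  apply eq_of_stab_eq e hb hmem hy₂
  intro t
  rw [hfix₂ t]
  have h3 : t • ((e.symm ⟨m, hm22⟩) • y₁) = (e.symm ⟨m, hm22⟩) • y₁ ↔
      ((e.symm ⟨m, hm22⟩)⁻¹ * t * (e.symm ⟨m, hm22⟩)) • y₁ = y₁ := by
    rw [mul_smul, mul_smul]
    constructor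
    · intro h
      rw [h, inv_smul_smul]
    · intro h
      have h4 := congrArg (fun z => (e.symm ⟨m, hm22⟩) • z) h
      simp only [smul_inv_smul] at h4
      exact h4
  rw [h3, hfix₁, map_mul, map_mul, map_inv]
  show ((e (e.symm ⟨m, hm22⟩) : ↥Cfsg.Spor.M22) : Equiv.Perm GolayPt)⁻¹
    (((e t : ↥Cfsg.Spor.M22) : Equiv.Perm GolayPt)
      (((e (e.symm ⟨m, hm22⟩) : ↥Cfsg.Spor.M22) : Equiv.Perm GolayPt) p₁)) = p₁ ↔ _
  rw [hes, hmp₁, Equiv.Perm.inv_eq_iff_eq, hmp₁]

end m22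

end Cfsg.Agent.Lib.Helper8.HSRecog
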