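import Cfsg.Agent.Lib.Helper8.HSTab3
import Cfsg.Agent.Lib.Helper8.HSRecog

/-!
The model group `G0` is isomorphic to the Higman-Sims group.
-/

set_option autoImplicit false

namespace Cfsg.Agent.Lib.Helper8.HSTab

theorem iso_G0 : Nonempty (↥G0 ≃* ↥Cfsg.Spor.HS) :=
  Cfsg.Agent.Lib.Helper8.HSRecog.iso_hs_of_graph loc0 G0 inf_le_left card_G0

end Cfsg.Agent.Lib.Helper8.HSTab
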