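import Mathlib
import Cfsg.Prelude.Def_Sporadic_a
import Cfsg.Agent.Lib.Helper8.SteinerUniq
import Cfsg.Agent.Lib.Helper8.TwoExt
import Cfsg.Agent.Lib.Helper8.AutExt23
import Cfsg.Agent.Lib.Helper8.SRG100
import Cfsg.Agent.Lib.Helper8.S3622
import Cfsg.Agent.S0363

/-!
An explicit automorphism of the model `S(3,6,22)` which is an odd permutation of the 22 points
and an even permutation of the 77 blocks.
-/

set_option autoImplicit false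

namespace Cfsg.Agent.Lib.Helper8.HSModel

open Finset Cfsg.Agent.Lib.Helper8.Plane4Model Cfsg.Agent.Lib.Helper8.GolayModel
  Cfsg.Agent.Lib.Helper8.CodeSpan Cfsg.Agent.Lib.Helper8.SteinerUniq
  Cfsg.Agent.Lib.Helper8.DerivedPlane Cfsg.Agent.Lib.Helper8.SRG100
  Cfsg.Agent.Lib.Helper8.AutTransport

/-- The action on the fifteen involutions of the transposition of the labels 0 and 1. -/
def tt : Fin 15 → Fin 15 := ![0, 1, 2, 6, 9, 12, 3, 10, 13, 4, 7, 14, 5, 8, 11]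

def t22fun : Pts22 → Pts22 := Sum.map id (Sum.map (Equiv.swap (0 : Fin 6) 1) tt)

theorem t22fun_invol : ∀ x, t22fun (t22fun x) = x := by decide

/-- The model automorphism. -/
def t22 : Equiv.Perm Pts22 := ⟨t22fun, t22fun, t22fun_invol, t22fun_invol⟩

theorem t22_invol (x : Pts22) : t22 (t22 x) = x := t22fun_invol x

def cT : Fin 11 → Finset (Fin 11) :=
  ![{0}, {5, 8, 9}, {6, 7, 8}, {4, 7, 9}, {3, 7, 9}, {1, 8, 9}, {2, 7, 8}, {7}, {8}, {9}, {10}]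

set_option maxRecDepth 100000 in
theorem ht_hvec : ∀ (i : Fin 11) (x : Pts22), hvec22 i (t22 x) = ∑ j ∈ cT i, hvec22 j x := by
  decide +kernel

theorem t22_K22 (w : Pts22 → ZMod 2) (hw : w ∈ K22) : (fun x => w (t22 x)) ∈ K22 := by
  induction hw using Submodule.span_induction with
  | mem v hv =>
    obtain ⟨i, rfl⟩ := hv
    have h1 : (fun x => hvec22 i (t22 x)) = ∑ j ∈ cT i, hvec22 j := by
      funext x
      rw [ht_hvec, Finset.sum_apply]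
    rw [h1]
    exact Submodule.sum_mem _ (fun j _ => Submodule.subset_span ⟨j, rfl⟩)
  | zero => exact Submodule.zero_mem _
  | add u v _ _ hu hv => exact Submodule.add_mem _ hu hv
  | smul c u _ hu => exact Submodule.smul_mem _ c hu

theorem ind_image_t22 (S : Finset Pts22) : ind (S.image t22) = fun x => ind S (t22 x) := by
  funext x
  have h1 : x ∈ S.image t22 ↔ t22 x ∈ S := by
    rw [mem_image]
    constructor
    · rintro ⟨y, hy, rfl⟩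
      rw [t22_invol]
      exact hy
    · intro h
      exact ⟨t22 x, h, t22_invol x⟩
  simp only [ind, h1]

theorem t22_image_mem {S : Finset Pts22} (hS : S ∈ BM22) : S.image t22 ∈ BM22 := by
  refine ⟨by rw [card_image_of_injective _ t22.injective]; exact hS.1, ?_⟩
  rw [ind_image_t22]
  exact t22_K22 _ hS.2

theorem t22_mem : t22 ∈ Cfsg.setSystemAut BM22 := by
  apply Cfsg.Agent.Lib.Helper8.AutExt23.aut_of_iff
  intro S
  refine ⟨fun h => ?_, t22_image_mem⟩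
  have h1 := t22_image_mem h
  rw [image_image] at h1
  have h2 : (⇑t22 ∘ ⇑t22) = id := funext t22_invol
  rwa [h2, image_id] at h1

theorem BM22_steiner : Cfsg.IsSteinerSystem 3 6 BM22 := by
  have hpq : (none : Cfsg.GolayPt) ≠ some 0 := by simp
  have hJ : ({none, some 0} : Finset Cfsg.GolayPt).card = 2 := Finset.card_pair hpq
  have hB₀ := derived (j := 2) hJ Cfsg.Agent.S0363.result
  have hco : Fintype.card (Co ({none, some 0} : Finset Cfsg.GolayPt)) = 22 := by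
    rw [card_co, hJ, Fintype.card_option, ZMod.card]
  obtain ⟨φ, h⟩ := u22 hco hB₀
  rw [← h]
  exact Cfsg.Agent.Lib.Helper8.TwoExt.steiner_image φ hB₀

theorem BM22_ncard : BM22.ncard = 77 := by
  rw [Cfsg.Agent.Lib.Helper8.Steiner.ncard_eq]
  exact Cfsg.Agent.Lib.Helper8.S3622.card_blocks (by decide) BM22_steiner

def L77 : Fin 77 → Finset Pts22 :=
  ![{Sum.inl 0, Sum.inr (Sum.inl 0), Sum.inr (Sum.inl 1), Sum.inr (Sum.inr 0), Sum.inr (Sum.inr 1), Sum.inr (Sum.inr 2)},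
    {Sum.inl 0, Sum.inr (Sum.inl 2), Sum.inr (Sum.inl 3), Sum.inr (Sum.inr 0), Sum.inr (Sum.inr 11), Sum.inr (Sum.inr 14)},
    {Sum.inl 0, Sum.inr (Sum.inl 2), Sum.inr (Sum.inl 4), Sum.inr (Sum.inr 1), Sum.inr (Sum.inr 8), Sum.inr (Sum.inr 13)},
    {Sum.inl 0, Sum.inr (Sum.inl 2), Sum.inr (Sum.inl 5), Sum.inr (Sum.inr 2), Sum.inr (Sum.inr 7), Sum.inr (Sum.inr 10)},
    {Sum.inl 0, Sum.inr (Sum.inl 3), Sum.inr (Sum.inl 4), Sum.inr (Sum.inr 2), Sum.inr (Sum.inr 5), Sum.inr (Sum.inr 12)},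
    {Sum.inl 0, Sum.inr (Sum.inl 3), Sum.inr (Sum.inl 5), Sum.inr (Sum.inr 1), Sum.inr (Sum.inr 4), Sum.inr (Sum.inr 9)},
    {Sum.inl 0, Sum.inr (Sum.inl 4), Sum.inr (Sum.inl 5), Sum.inr (Sum.inr 0), Sum.inr (Sum.inr 3), Sum.inr (Sum.inr 6)},
    {Sum.inr (Sum.inl 0), Sum.inr (Sum.inl 1), Sum.inr (Sum.inl 2), Sum.inr (Sum.inl 3), Sum.inr (Sum.inl 4), Sum.inr (Sum.inl 5)},
    {Sum.inr (Sum.inl 0), Sum.inr (Sum.inl 1), Sum.inr (Sum.inr 3), Sum.inr (Sum.inr 6), Sum.inr (Sum.inr 11), Sum.inr (Sum.inr 14)},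
    {Sum.inr (Sum.inl 0), Sum.inr (Sum.inl 1), Sum.inr (Sum.inr 4), Sum.inr (Sum.inr 8), Sum.inr (Sum.inr 9), Sum.inr (Sum.inr 13)},
    {Sum.inr (Sum.inl 0), Sum.inr (Sum.inl 1), Sum.inr (Sum.inr 5), Sum.inr (Sum.inr 7), Sum.inr (Sum.inr 10), Sum.inr (Sum.inr 12)},
    {Sum.inr (Sum.inl 2), Sum.inr (Sum.inl 3), Sum.inr (Sum.inr 1), Sum.inr (Sum.inr 2), Sum.inr (Sum.inr 3), Sum.inr (Sum.inr 6)},
    {Sum.inr (Sum.inl 2), Sum.inr (Sum.inl 4), Sum.inr (Sum.inr 0), Sum.inr (Sum.inr 2), Sum.inr (Sum.inr 4), Sum.inr (Sum.inr 9)},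
    {Sum.inr (Sum.inl 2), Sum.inr (Sum.inl 5), Sum.inr (Sum.inr 0), Sum.inr (Sum.inr 1), Sum.inr (Sum.inr 5), Sum.inr (Sum.inr 12)},
    {Sum.inr (Sum.inl 3), Sum.inr (Sum.inl 4), Sum.inr (Sum.inr 0), Sum.inr (Sum.inr 1), Sum.inr (Sum.inr 7), Sum.inr (Sum.inr 10)},
    {Sum.inr (Sum.inl 3), Sum.inr (Sum.inl 5), Sum.inr (Sum.inr 0), Sum.inr (Sum.inr 2), Sum.inr (Sum.inr 8), Sum.inr (Sum.inr 13)},
    {Sum.inr (Sum.inl 4), Sum.inr (Sum.inl 5), Sum.inr (Sum.inr 1), Sum.inr (Sum.inr 2), Sum.inr (Sum.inr 11), Sum.inr (Sum.inr 14)},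
    {Sum.inr (Sum.inr 3), Sum.inr (Sum.inr 4), Sum.inr (Sum.inr 6), Sum.inr (Sum.inr 7), Sum.inr (Sum.inr 9), Sum.inr (Sum.inr 10)},
    {Sum.inr (Sum.inr 3), Sum.inr (Sum.inr 5), Sum.inr (Sum.inr 6), Sum.inr (Sum.inr 8), Sum.inr (Sum.inr 12), Sum.inr (Sum.inr 13)},
    {Sum.inr (Sum.inr 4), Sum.inr (Sum.inr 5), Sum.inr (Sum.inr 9), Sum.inr (Sum.inr 11), Sum.inr (Sum.inr 12), Sum.inr (Sum.inr 14)},
    {Sum.inr (Sum.inr 7), Sum.inr (Sum.inr 8), Sum.inr (Sum.inr 10), Sum.inr (Sum.inr 11), Sum.inr (Sum.inr 13), Sum.inr (Sum.inr 14)},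
    {Sum.inl 0, Sum.inr (Sum.inl 0), Sum.inr (Sum.inl 2), Sum.inr (Sum.inr 3), Sum.inr (Sum.inr 4), Sum.inr (Sum.inr 5)},
    {Sum.inl 0, Sum.inr (Sum.inl 1), Sum.inr (Sum.inl 2), Sum.inr (Sum.inr 6), Sum.inr (Sum.inr 9), Sum.inr (Sum.inr 12)},
    {Sum.inl 0, Sum.inr (Sum.inl 0), Sum.inr (Sum.inl 3), Sum.inr (Sum.inr 6), Sum.inr (Sum.inr 7), Sum.inr (Sum.inr 8)},
    {Sum.inl 0, Sum.inr (Sum.inl 1), Sum.inr (Sum.inl 3), Sum.inr (Sum.inr 3), Sum.inr (Sum.inr 10), Sum.inr (Sum.inr 13)},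
    {Sum.inl 0, Sum.inr (Sum.inl 0), Sum.inr (Sum.inl 4), Sum.inr (Sum.inr 9), Sum.inr (Sum.inr 10), Sum.inr (Sum.inr 11)},
    {Sum.inl 0, Sum.inr (Sum.inl 1), Sum.inr (Sum.inl 4), Sum.inr (Sum.inr 4), Sum.inr (Sum.inr 7), Sum.inr (Sum.inr 14)},
    {Sum.inl 0, Sum.inr (Sum.inl 0), Sum.inr (Sum.inl 5), Sum.inr (Sum.inr 12), Sum.inr (Sum.inr 13), Sum.inr (Sum.inr 14)},
    {Sum.inl 0, Sum.inr (Sum.inl 1), Sum.inr (Sum.inl 5), Sum.inr (Sum.inr 5), Sum.inr (Sum.inr 8), Sum.inr (Sum.inr 11)},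
    {Sum.inl 0, Sum.inr (Sum.inr 0), Sum.inr (Sum.inr 4), Sum.inr (Sum.inr 8), Sum.inr (Sum.inr 10), Sum.inr (Sum.inr 12)},
    {Sum.inl 0, Sum.inr (Sum.inr 0), Sum.inr (Sum.inr 5), Sum.inr (Sum.inr 7), Sum.inr (Sum.inr 9), Sum.inr (Sum.inr 13)},
    {Sum.inl 0, Sum.inr (Sum.inr 1), Sum.inr (Sum.inr 3), Sum.inr (Sum.inr 7), Sum.inr (Sum.inr 11), Sum.inr (Sum.inr 12)},
    {Sum.inl 0, Sum.inr (Sum.inr 1), Sum.inr (Sum.inr 5), Sum.inr (Sum.inr 6), Sum.inr (Sum.inr 10), Sum.inr (Sum.inr 14)},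
    {Sum.inl 0, Sum.inr (Sum.inr 2), Sum.inr (Sum.inr 3), Sum.inr (Sum.inr 8), Sum.inr (Sum.inr 9), Sum.inr (Sum.inr 14)},
    {Sum.inl 0, Sum.inr (Sum.inr 2), Sum.inr (Sum.inr 4), Sum.inr (Sum.inr 6), Sum.inr (Sum.inr 11), Sum.inr (Sum.inr 13)},
    {Sum.inr (Sum.inl 0), Sum.inr (Sum.inl 2), Sum.inr (Sum.inr 0), Sum.inr (Sum.inr 6), Sum.inr (Sum.inr 10), Sum.inr (Sum.inr 13)},
    {Sum.inr (Sum.inl 1), Sum.inr (Sum.inl 2), Sum.inr (Sum.inr 0), Sum.inr (Sum.inr 3), Sum.inr (Sum.inr 7), Sum.inr (Sum.inr 8)},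
    {Sum.inr (Sum.inl 0), Sum.inr (Sum.inl 2), Sum.inr (Sum.inr 1), Sum.inr (Sum.inr 7), Sum.inr (Sum.inr 9), Sum.inr (Sum.inr 14)},
    {Sum.inr (Sum.inl 1), Sum.inr (Sum.inl 2), Sum.inr (Sum.inr 1), Sum.inr (Sum.inr 4), Sum.inr (Sum.inr 10), Sum.inr (Sum.inr 11)},
    {Sum.inr (Sum.inl 0), Sum.inr (Sum.inl 2), Sum.inr (Sum.inr 2), Sum.inr (Sum.inr 8), Sum.inr (Sum.inr 11), Sum.inr (Sum.inr 12)},
    {Sum.inr (Sum.inl 1), Sum.inr (Sum.inl 2), Sum.inr (Sum.inr 2), Sum.inr (Sum.inr 5), Sum.inr (Sum.inr 13), Sum.inr (Sum.inr 14)},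
    {Sum.inr (Sum.inl 0), Sum.inr (Sum.inl 3), Sum.inr (Sum.inr 0), Sum.inr (Sum.inr 3), Sum.inr (Sum.inr 9), Sum.inr (Sum.inr 12)},
    {Sum.inr (Sum.inl 1), Sum.inr (Sum.inl 3), Sum.inr (Sum.inr 0), Sum.inr (Sum.inr 4), Sum.inr (Sum.inr 5), Sum.inr (Sum.inr 6)},
    {Sum.inr (Sum.inl 0), Sum.inr (Sum.inl 3), Sum.inr (Sum.inr 1), Sum.inr (Sum.inr 5), Sum.inr (Sum.inr 11), Sum.inr (Sum.inr 13)},
    {Sum.inr (Sum.inl 1), Sum.inr (Sum.inl 3), Sum.inr (Sum.inr 1), Sum.inr (Sum.inr 8), Sum.inr (Sum.inr 12), Sum.inr (Sum.inr 14)},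
    {Sum.inr (Sum.inl 0), Sum.inr (Sum.inl 3), Sum.inr (Sum.inr 2), Sum.inr (Sum.inr 4), Sum.inr (Sum.inr 10), Sum.inr (Sum.inr 14)},
    {Sum.inr (Sum.inl 1), Sum.inr (Sum.inl 3), Sum.inr (Sum.inr 2), Sum.inr (Sum.inr 7), Sum.inr (Sum.inr 9), Sum.inr (Sum.inr 11)},
    {Sum.inr (Sum.inl 0), Sum.inr (Sum.inl 4), Sum.inr (Sum.inr 0), Sum.inr (Sum.inr 5), Sum.inr (Sum.inr 8), Sum.inr (Sum.inr 14)},
    {Sum.inr (Sum.inl 1), Sum.inr (Sum.inl 4), Sum.inr (Sum.inr 0), Sum.inr (Sum.inr 11), Sum.inr (Sum.inr 12), Sum.inr (Sum.inr 13)},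
    {Sum.inr (Sum.inl 0), Sum.inr (Sum.inl 4), Sum.inr (Sum.inr 1), Sum.inr (Sum.inr 4), Sum.inr (Sum.inr 6), Sum.inr (Sum.inr 12)},
    {Sum.inr (Sum.inl 1), Sum.inr (Sum.inl 4), Sum.inr (Sum.inr 1), Sum.inr (Sum.inr 3), Sum.inr (Sum.inr 5), Sum.inr (Sum.inr 9)},
    {Sum.inr (Sum.inl 0), Sum.inr (Sum.inl 4), Sum.inr (Sum.inr 2), Sum.inr (Sum.inr 3), Sum.inr (Sum.inr 7), Sum.inr (Sum.inr 13)},
    {Sum.inr (Sum.inl 1), Sum.inr (Sum.inl 4), Sum.inr (Sum.inr 2), Sum.inr (Sum.inr 6), Sum.inr (Sum.inr 8), Sum.inr (Sum.inr 10)},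
    {Sum.inr (Sum.inl 0), Sum.inr (Sum.inl 5), Sum.inr (Sum.inr 0), Sum.inr (Sum.inr 4), Sum.inr (Sum.inr 7), Sum.inr (Sum.inr 11)},
    {Sum.inr (Sum.inl 1), Sum.inr (Sum.inl 5), Sum.inr (Sum.inr 0), Sum.inr (Sum.inr 9), Sum.inr (Sum.inr 10), Sum.inr (Sum.inr 14)},
    {Sum.inr (Sum.inl 0), Sum.inr (Sum.inl 5), Sum.inr (Sum.inr 1), Sum.inr (Sum.inr 3), Sum.inr (Sum.inr 8), Sum.inr (Sum.inr 10)},
    {Sum.inr (Sum.inl 1), Sum.inr (Sum.inl 5), Sum.inr (Sum.inr 1), Sum.inr (Sum.inr 6), Sum.inr (Sum.inr 7), Sum.inr (Sum.inr 13)},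
    {Sum.inr (Sum.inl 0), Sum.inr (Sum.inl 5), Sum.inr (Sum.inr 2), Sum.inr (Sum.inr 5), Sum.inr (Sum.inr 6), Sum.inr (Sum.inr 9)},
    {Sum.inr (Sum.inl 1), Sum.inr (Sum.inl 5), Sum.inr (Sum.inr 2), Sum.inr (Sum.inr 3), Sum.inr (Sum.inr 4), Sum.inr (Sum.inr 12)},
    {Sum.inr (Sum.inl 2), Sum.inr (Sum.inl 3), Sum.inr (Sum.inr 4), Sum.inr (Sum.inr 7), Sum.inr (Sum.inr 12), Sum.inr (Sum.inr 13)},
    {Sum.inr (Sum.inl 2), Sum.inr (Sum.inl 3), Sum.inr (Sum.inr 5), Sum.inr (Sum.inr 8), Sum.inr (Sum.inr 9), Sum.inr (Sum.inr 10)},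
    {Sum.inr (Sum.inl 2), Sum.inr (Sum.inl 4), Sum.inr (Sum.inr 3), Sum.inr (Sum.inr 10), Sum.inr (Sum.inr 12), Sum.inr (Sum.inr 14)},
    {Sum.inr (Sum.inl 2), Sum.inr (Sum.inl 4), Sum.inr (Sum.inr 5), Sum.inr (Sum.inr 6), Sum.inr (Sum.inr 7), Sum.inr (Sum.inr 11)},
    {Sum.inr (Sum.inl 2), Sum.inr (Sum.inl 5), Sum.inr (Sum.inr 3), Sum.inr (Sum.inr 9), Sum.inr (Sum.inr 11), Sum.inr (Sum.inr 13)},
    {Sum.inr (Sum.inl 2), Sum.inr (Sum.inl 5), Sum.inr (Sum.inr 4), Sum.inr (Sum.inr 6), Sum.inr (Sum.inr 8), Sum.inr (Sum.inr 14)},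
    {Sum.inr (Sum.inl 3), Sum.inr (Sum.inl 4), Sum.inr (Sum.inr 3), Sum.inr (Sum.inr 4), Sum.inr (Sum.inr 8), Sum.inr (Sum.inr 11)},
    {Sum.inr (Sum.inl 3), Sum.inr (Sum.inl 4), Sum.inr (Sum.inr 6), Sum.inr (Sum.inr 9), Sum.inr (Sum.inr 13), Sum.inr (Sum.inr 14)},
    {Sum.inr (Sum.inl 3), Sum.inr (Sum.inl 5), Sum.inr (Sum.inr 3), Sum.inr (Sum.inr 5), Sum.inr (Sum.inr 7), Sum.inr (Sum.inr 14)},
    {Sum.inr (Sum.inl 3), Sum.inr (Sum.inl 5), Sum.inr (Sum.inr 6), Sum.inr (Sum.inr 10), Sum.inr (Sum.inr 11), Sum.inr (Sum.inr 12)},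
    {Sum.inr (Sum.inl 4), Sum.inr (Sum.inl 5), Sum.inr (Sum.inr 4), Sum.inr (Sum.inr 5), Sum.inr (Sum.inr 10), Sum.inr (Sum.inr 13)},
    {Sum.inr (Sum.inl 4), Sum.inr (Sum.inl 5), Sum.inr (Sum.inr 7), Sum.inr (Sum.inr 8), Sum.inr (Sum.inr 9), Sum.inr (Sum.inr 12)},
    {Sum.inr (Sum.inr 0), Sum.inr (Sum.inr 1), Sum.inr (Sum.inr 3), Sum.inr (Sum.inr 4), Sum.inr (Sum.inr 13), Sum.inr (Sum.inr 14)},
    {Sum.inr (Sum.inr 0), Sum.inr (Sum.inr 1), Sum.inr (Sum.inr 6), Sum.inr (Sum.inr 8), Sum.inr (Sum.inr 9), Sum.inr (Sum.inr 11)},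
    {Sum.inr (Sum.inr 0), Sum.inr (Sum.inr 2), Sum.inr (Sum.inr 3), Sum.inr (Sum.inr 5), Sum.inr (Sum.inr 10), Sum.inr (Sum.inr 11)},
    {Sum.inr (Sum.inr 0), Sum.inr (Sum.inr 2), Sum.inr (Sum.inr 6), Sum.inr (Sum.inr 7), Sum.inr (Sum.inr 12), Sum.inr (Sum.inr 14)},
    {Sum.inr (Sum.inr 1), Sum.inr (Sum.inr 2), Sum.inr (Sum.inr 4), Sum.inr (Sum.inr 5), Sum.inr (Sum.inr 7), Sum.inr (Sum.inr 8)},
    {Sum.inr (Sum.inr 1), Sum.inr (Sum.inr 2), Sum.inr (Sum.inr 9), Sum.inr (Sum.inr 10), Sum.inr (Sum.inr 12), Sum.inr (Sum.inr 13)}]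

def cc : Fin 77 → Finset (Fin 11) :=
  ![{0},
    {3, 4},
    {2, 6},
    {0, 7, 10},
    {0, 1, 5},
    {9, 10},
    {8, 10},
    {10},
    {3, 4, 8},
    {2, 6, 9},
    {1, 5, 7},
    {0, 8},
    {0, 9},
    {1, 5, 10},
    {7},
    {0, 2, 6, 10},
    {0, 3, 4, 10},
    {7, 8, 9},
    {1, 2, 5, 6, 8},
    {1, 3, 4, 5, 9},
    {2, 3, 4, 6, 7},
    {1},
    {5, 8, 9},
    {2, 8},
    {6, 7},
    {3, 7, 9},
    {4},
    {4, 5, 6, 10},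
    {1, 2, 3, 10},
    {2, 5, 7},
    {1, 6, 9},
    {3, 5},
    {1, 4, 7, 8},
    {0, 2, 4, 9},
    {0, 3, 6, 8},
    {6, 7, 8},
    {2},
    {4, 9},
    {3, 7},
    {0, 2, 3, 5},
    {0, 1, 4, 6},
    {5, 9},
    {1, 8},
    {1, 3, 6},
    {2, 4, 5},
    {0, 4, 7},
    {0, 3, 9},
    {1, 2, 4},
    {3, 5, 6},
    {5, 8},
    {1, 9},
    {0, 6},
    {0, 2, 7, 8},
    {3, 10},
    {4, 7, 9, 10},
    {2, 7, 10},
    {6, 8, 10},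
    {0, 1, 8, 9, 10},
    {0, 5, 10},
    {5, 6},
    {1, 2, 7, 9},
    {4, 5, 7},
    {1, 3, 8},
    {3, 6, 9, 10},
    {2, 4, 8, 10},
    {2, 3},
    {4, 6, 8, 9},
    {1, 4, 10},
    {3, 5, 7, 8, 10},
    {1, 6, 7, 10},
    {2, 5, 9, 10},
    {4, 6},
    {2, 3, 8, 9},
    {0, 1, 3, 7},
    {0, 4, 5, 8},
    {0, 1, 2},
    {0, 5, 6, 7, 9}]

set_option maxRecDepth 100000 in
theorem L77_card : ∀ i, (L77 i).card = 6 := by decide +kernel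

set_option maxRecDepth 100000 in
theorem L77_ind : ∀ (i : Fin 77) (x : Pts22), ind (L77 i) x = ∑ j ∈ cc i, hvec22 j x := by
  decide +kernel

theorem L77_mem (i : Fin 77) : L77 i ∈ BM22 := by
  refine ⟨L77_card i, ?_⟩
  have h1 : ind (L77 i) = ∑ j ∈ cc i, hvec22 j := by
    funext x
    rw [L77_ind, Finset.sum_apply]
  rw [h1]
  exact Submodule.sum_mem _ (fun j _ => Submodule.subset_span ⟨j, rfl⟩)

set_option maxRecDepth 100000 in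
theorem L77_inj : ∀ i j : Fin 77, L77 i = L77 j → i = j := by decide +kernel

/-- The action of the model automorphism on the indices of the blocks. -/
def tau77 : Fin 77 → Fin 77 := fun i =>
  if i.val < 21 then i
  else if (i.val - 21) % 2 = 0 then ⟨(i.val + 1) % 77, Nat.mod_lt _ (by norm_num)⟩
  else ⟨(i.val - 1) % 77, Nat.mod_lt _ (by norm_num)⟩

theorem tau77_invol : ∀ i, tau77 (tau77 i) = i := by decide

def tau : Equiv.Perm (Fin 77) := ⟨tau77, tau77, tau77_invol, tau77_invol⟩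

set_option maxRecDepth 100000 in
theorem L77_image : ∀ i : Fin 77, (L77 i).image t22 = L77 (tau i) := by decide +kernel

set_option maxRecDepth 100000 in
theorem sign_t22 : Equiv.Perm.sign t22 = -1 := by decide +kernel

set_option maxRecDepth 100000 in
theorem sign_tau : Equiv.Perm.sign tau = 1 := by decide +kernel

/-- The enumeration of the blocks of the model. -/
noncomputable def E77 : Fin 77 ≃ ↥BM22 :=
  Equiv.ofBijective (fun i => (⟨L77 i, L77_mem i⟩ : ↥BM22))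
    ((Nat.bijective_iff_injective_and_card _).2
      ⟨fun i j h => L77_inj i j (congrArg Subtype.val h), by
        rw [Nat.card_eq_fintype_card, Fintype.card_fin, Nat.card_coe_set_eq, BM22_ncard]⟩)

theorem E77_coe (i : Fin 77) : ((E77 i : ↥BM22) : Finset Pts22) = L77 i := rfl

/-- The model automorphism is odd on the points, even on the blocks, and fixes a point and a
block. -/
theorem model_odd [Fintype ↥BM22] :
    ∃ (t : Equiv.Perm Pts22) (ht : (fun b => b.image t) '' BM22 = BM22),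
      Equiv.Perm.sign t * Equiv.Perm.sign (blockEquiv t ht) = -1 ∧ (∃ x, t x = x) ∧
        ∃ b : ↥BM22, blockEquiv t ht b = b := by
  have ht := mem_aut_iff.1 t22_mem
  refine ⟨t22, ht, ?_, ⟨Sum.inl 0, rfl⟩, ⟨E77 0, ?_⟩⟩
  · have h1 : blockEquiv t22 ht = (E77.symm.trans tau).trans E77 := by
      apply Equiv.ext
      intro b
      obtain ⟨i, rfl⟩ := E77.surjective b
      apply Subtype.ext
      rw [blockEquiv_coe, E77_coe, L77_image]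
      simp [E77_coe]
    rw [h1, Equiv.Perm.sign_symm_trans_trans, sign_t22, sign_tau]
    rfl
  · apply Subtype.ext
    rw [blockEquiv_coe, E77_coe, L77_image]
    rfl

end Cfsg.Agent.Lib.Helper8.HSModel
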