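import Mathlib
import Cfsg.Prelude.Def_Sporadic
import Cfsg.Prelude.Def_Sporadic_a
import Cfsg.Agent.Lib.Helper8.HSModel
import Cfsg.Agent.Lib.Helper8.PBAut
import Cfsg.Agent.Lib.Helper8.Rank3Simple
import Cfsg.Agent.S0414
import Cfsg.Agent.S1586

/-!
The even automorphisms of the point-block graph of an `S(3,6,22)` form a simple group of
order 44352000.
-/

set_option autoImplicit false

namespace Cfsg.Agent.Lib.Helper8.HSMain

open Finset Cfsg.Agent.Lib.Helper8.SRG100 Cfsg.Agent.Lib.Helper8.AutTransport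
  Cfsg.Agent.Lib.Helper8.PBAut Cfsg.Agent.Lib.Helper8.HSModel
  Cfsg.Agent.Lib.Helper8.SteinerUniq Cfsg.Agent.Lib.Helper8.GolayModel

section general

theorem hom_units_trivial {G : Type*} [Group G] [IsSimpleGroup G] (hG : 2 < Nat.card G)
    (f : G →* ℤˣ) (g : G) : f g = 1 := by
  rcases IsSimpleGroup.eq_bot_or_eq_top_of_normal f.ker (MonoidHom.normal_ker f) with h | h
  · exfalso
    have hinj : Function.Injective f := (MonoidHom.ker_eq_bot_iff f).1 h
    have h1 := Nat.card_le_card_of_injective f hinj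
    have h2 : Nat.card ℤˣ = 2 := by
      rw [Nat.card_eq_fintype_card]
      rfl
    omega
  · have h1 : g ∈ f.ker := by
      rw [h]
      trivial
    exact MonoidHom.mem_ker.1 h1

theorem orbit_of_index_two {G X : Type*} [Group G] (ρ : G →* Equiv.Perm X) (N : Subgroup G)
    (hN : N.index = 2) (s : G) (hs : s ∉ N) (x₀ : X) (hsx : ρ s x₀ = x₀) (c : G) :
    ∃ g ∈ N, ρ g x₀ = ρ c x₀ := by
  by_cases hc : c ∈ N
  · exact ⟨c, hc, rfl⟩
  · refine ⟨c * s, (Subgroup.mul_mem_iff_of_index_two hN).2 (iff_of_false hc hs), ?_⟩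
    rw [map_mul, Equiv.Perm.mul_apply, hsx]

/-- The natural map from the automorphisms of a graph to the permutations of its vertices. -/
def phi {V : Type*} (G : SimpleGraph V) : (G ≃g G) →* Equiv.Perm V where
  toFun g := g.toEquiv
  map_one' := rfl
  map_mul' _ _ := rfl

theorem phi_apply {V : Type*} (G : SimpleGraph V) (g : G ≃g G) (v : V) : phi G g v = g v := rfl

theorem phi_injective {V : Type*} (G : SimpleGraph V) : Function.Injective (phi G) := by
  intro g g' h
  refine DFunLike.ext _ _ (fun v => ?_)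
  have h1 := congrArg (fun e : Equiv.Perm V => e v) h
  exact h1

/-- The action of the automorphisms of a graph on its vertices. -/
@[reducible] def act {V : Type*} (G : SimpleGraph V) : MulAction (G ≃g G) V :=
  MulAction.compHom V (phi G)

end general

section odd

variable {α : Type*} [Fintype α] [DecidableEq α] {B : Set (Finset α)}

theorem sign_autHom [Fintype ↥B] (g : Cfsg.setSystemAut B) :
    Equiv.Perm.sign (autHom B g).toEquiv = Equiv.Perm.sign (g : Equiv.Perm α) *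
      Equiv.Perm.sign (blockEquiv (g : Equiv.Perm α) (mem_aut_iff.1 g.2)) := by
  show Equiv.Perm.sign (Equiv.optionCongr (Equiv.sumCongr (g : Equiv.Perm α)
    (blockEquiv (g : Equiv.Perm α) (mem_aut_iff.1 g.2)))) = _
  rw [Equiv.optionCongr_sign]
  exact Equiv.Perm.sign_sumCongr _ _

/-- Every `S(3,6,22)` has an automorphism acting as an odd permutation on the vertices of the
point-block graph, and fixing a point and a block. -/
theorem exists_odd (hα : Fintype.card α = 22) (hB : Cfsg.IsSteinerSystem 3 6 B) [Fintype ↥B] :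
    ∃ g : Cfsg.setSystemAut B, Equiv.Perm.sign (autHom B g).toEquiv = -1 ∧
      (∃ x, (g : Equiv.Perm α) x = x) ∧
      ∃ b : ↥B, blockEquiv (g : Equiv.Perm α) (mem_aut_iff.1 g.2) b = b := by
  have : Fintype ↥BM22 := Fintype.ofFinite _
  obtain ⟨Φ, hΦ⟩ := u22 hα hB
  obtain ⟨t, ht, hsign, ⟨x, hx⟩, ⟨b, hb⟩⟩ := model_odd
  have hg : Φ.symm.symm.trans (t.trans Φ.symm) ∈ Cfsg.setSystemAut B :=
    conj_mem Φ.symm (symm_image Φ hΦ) (mem_aut_iff.2 ht)
  have hconj : blockEquiv (Φ.symm.symm.trans (t.trans Φ.symm)) (mem_aut_iff.1 hg)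
      = ((blockEquiv Φ hΦ).trans (blockEquiv t ht)).trans (blockEquiv Φ hΦ).symm := by
    apply Equiv.ext
    intro c
    apply Subtype.ext
    show (c : Finset α).image _ = (((c : Finset α).image Φ).image t).image Φ.symm
    rw [image_image, image_image]
    rfl
  refine ⟨⟨_, hg⟩, ?_, ⟨Φ.symm x, ?_⟩, ⟨(blockEquiv Φ hΦ).symm b, ?_⟩⟩
  · rw [sign_autHom]
    show Equiv.Perm.sign ((Φ.trans t).trans Φ.symm) *
      Equiv.Perm.sign (blockEquiv (Φ.symm.symm.trans (t.trans Φ.symm)) (mem_aut_iff.1 hg)) = -1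
    rw [hconj, Equiv.Perm.sign_trans_trans_symm, Equiv.Perm.sign_trans_trans_symm]
    exact hsign
  · show Φ.symm (t (Φ (Φ.symm x))) = Φ.symm x
    rw [Equiv.apply_symm_apply, hx]
  · show blockEquiv (Φ.symm.symm.trans (t.trans Φ.symm)) (mem_aut_iff.1 hg)
      ((blockEquiv Φ hΦ).symm b) = _
    rw [hconj]
    simp [hb]

end odd

section main

variable {α : Type*} [Fintype α] [DecidableEq α] {B : Set (Finset α)}

/-- The sign of a graph automorphism as a permutation of the vertices. -/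
noncomputable def eps (B : Set (Finset α)) [Fintype ↥B] :
    (Cfsg.pointBlockGraph B ≃g Cfsg.pointBlockGraph B) →* ℤˣ :=
  Equiv.Perm.sign.comp (phi (Cfsg.pointBlockGraph B))

theorem eps_apply [Fintype ↥B] (c : Cfsg.pointBlockGraph B ≃g Cfsg.pointBlockGraph B) :
    eps B c = Equiv.Perm.sign c.toEquiv := rfl

theorem block_trans (hB : Cfsg.IsSteinerSystem 3 6 B)
    (h3 : MulAction.IsMultiplyPretransitive (Cfsg.setSystemAut B) α 3) (b c : ↥B) :
    ∃ g : Cfsg.setSystemAut B, blockEquiv (g : Equiv.Perm α) (mem_aut_iff.1 g.2) b = c := by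
  have hb : (b : Finset α).card = 6 := hB.1 _ b.2
  have hc : (c : Finset α).card = 6 := hB.1 _ c.2
  obtain ⟨s, hsb, hs⟩ := Finset.exists_subset_card_eq (s := (b : Finset α)) (n := 3) (by omega)
  obtain ⟨t, htc, ht⟩ := Finset.exists_subset_card_eq (s := (c : Finset α)) (n := 3) (by omega)
  let x : Fin 3 ↪ α :=
    (s.equivFinOfCardEq hs).symm.toEmbedding.trans (Function.Embedding.subtype _)
  let y : Fin 3 ↪ α :=
    (t.equivFinOfCardEq ht).symm.toEmbedding.trans (Function.Embedding.subtype _)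
  obtain ⟨g, hg⟩ := h3.exists_smul_eq x y
  refine ⟨g, ?_⟩
  apply Subtype.ext
  rw [blockEquiv_coe]
  obtain ⟨d, -, hd⟩ := hB.2 t ht
  have h1 : (b : Finset α).image (g : Equiv.Perm α) ∈ B :=
    (blockEquiv (g : Equiv.Perm α) (mem_aut_iff.1 g.2) b).2
  have h2 : t ⊆ (b : Finset α).image (g : Equiv.Perm α) := by
    intro z hz
    have hi : y (t.equivFinOfCardEq ht ⟨z, hz⟩) = z := by
      show (((t.equivFinOfCardEq ht).symm (t.equivFinOfCardEq ht ⟨z, hz⟩) : ↥t) : α) = z
      rw [Equiv.symm_apply_apply]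
    rw [← hi, ← hg]
    show (g : Equiv.Perm α) (x _) ∈ _
    refine Finset.mem_image_of_mem _ (hsb ?_)
    exact ((s.equivFinOfCardEq hs).symm _).2
  exact (hd _ ⟨h1, h2⟩).trans (hd _ ⟨c.2, htc⟩).symm

/-- The facts on the automorphism group of an `S(3,6,22)` used below. -/
theorem key (hα : Fintype.card α = 22) (hB : Cfsg.IsSteinerSystem 3 6 B) [Fintype ↥B] :
    ∃ H₀ : Subgroup (Cfsg.setSystemAut B), IsSimpleGroup H₀ ∧
      (∀ g, g ∈ H₀ ↔ eps B (autHom B g) = 1) ∧
      (∀ x y : α, ∃ g ∈ H₀, (g : Equiv.Perm α) x = y) ∧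
      (∀ b c : ↥B, ∃ g ∈ H₀, blockEquiv (g : Equiv.Perm α) (mem_aut_iff.1 g.2) b = c) ∧
      ∃ g₀ : Cfsg.setSystemAut B, eps B (autHom B g₀) = -1 := by
  obtain ⟨-, h3, H₀, hidx, hsimple, hcard⟩ := Cfsg.Agent.S0414.result hα hB
  obtain ⟨g₀, hsign, ⟨x₀, hx₀⟩, ⟨b₀, hb₀⟩⟩ := exists_odd hα hB
  have heven : ∀ g ∈ H₀, eps B (autHom B g) = 1 := by
    intro g hg
    have : IsSimpleGroup ↥H₀ := hsimple
    exact hom_units_trivial (by rw [hcard]; norm_num)
      (((eps B).comp (autHom B)).comp H₀.subtype) ⟨g, hg⟩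
  have hg₀ : g₀ ∉ H₀ := by
    intro h
    have h1 := heven g₀ h
    rw [eps_apply, hsign] at h1
    exact absurd h1 (by decide)
  have hiff : ∀ g, g ∈ H₀ ↔ eps B (autHom B g) = 1 := by
    intro g
    refine ⟨heven g, fun h => ?_⟩
    by_contra hg
    have h1 : g * g₀ ∈ H₀ := (Subgroup.mul_mem_iff_of_index_two hidx).2 (iff_of_false hg hg₀)
    have h2 := heven _ h1
    rw [map_mul, map_mul, h, one_mul, eps_apply, hsign] at h2
    exact absurd h2 (by decide)
  have h1 : MulAction.IsMultiplyPretransitive (Cfsg.setSystemAut B) α 1 :=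
    MulAction.isMultiplyPretransitive_of_le (n := 3) (by norm_num)
      (by rw [Nat.card_eq_fintype_card, hα]; norm_num)
  have htr : MulAction.IsPretransitive (Cfsg.setSystemAut B) α :=
    MulAction.is_one_pretransitive_iff.1 h1
  let ρ : Cfsg.setSystemAut B →* Equiv.Perm (Option (α ⊕ ↥B)) :=
    (phi (Cfsg.pointBlockGraph B)).comp (autHom B)
  have hpt₀ : ∀ y : α, ∃ g ∈ H₀, (g : Equiv.Perm α) x₀ = y := by
    intro y
    obtain ⟨c, hc⟩ := htr.exists_smul_eq x₀ y
    have hc' : (c : Equiv.Perm α) x₀ = y := hc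
    obtain ⟨g, hg, hgc⟩ := orbit_of_index_two ρ H₀ hidx g₀ hg₀ (some (Sum.inl x₀))
      (by
        show autHom B g₀ (some (Sum.inl x₀)) = _
        rw [autHom_inl, hx₀]) c
    refine ⟨g, hg, ?_⟩
    have h2 : autHom B g (some (Sum.inl x₀)) = autHom B c (some (Sum.inl x₀)) := hgc
    rw [autHom_inl, autHom_inl, hc'] at h2
    exact Sum.inl.inj (Option.some.inj h2)
  have hbl₀ : ∀ y : ↥B, ∃ g ∈ H₀,
      blockEquiv (g : Equiv.Perm α) (mem_aut_iff.1 g.2) b₀ = y := by
    intro y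
    obtain ⟨c, hc⟩ := block_trans hB h3 b₀ y
    obtain ⟨g, hg, hgc⟩ := orbit_of_index_two ρ H₀ hidx g₀ hg₀ (some (Sum.inr b₀))
      (by
        show autHom B g₀ (some (Sum.inr b₀)) = _
        rw [autHom_inr, hb₀]) c
    refine ⟨g, hg, ?_⟩
    have h2 : autHom B g (some (Sum.inr b₀)) = autHom B c (some (Sum.inr b₀)) := hgc
    rw [autHom_inr, autHom_inr, hc] at h2
    exact Sum.inr.inj (Option.some.inj h2)
  refine ⟨H₀, hsimple, hiff, ?_, ?_, g₀, ?_⟩
  · intro x y
    obtain ⟨g, hg, hgx⟩ := hpt₀ x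
    obtain ⟨g', hg', hgy⟩ := hpt₀ y
    refine ⟨g' * g⁻¹, H₀.mul_mem hg' (H₀.inv_mem hg), ?_⟩
    show (g' : Equiv.Perm α) ((g : Equiv.Perm α)⁻¹ x) = y
    rw [← hgx]
    show (g' : Equiv.Perm α) ((g : Equiv.Perm α).symm ((g : Equiv.Perm α) x₀)) = y
    rw [Equiv.symm_apply_apply, hgy]
  · intro b c
    obtain ⟨g, hg, hgx⟩ := hbl₀ b
    obtain ⟨g', hg', hgy⟩ := hbl₀ c
    refine ⟨g' * g⁻¹, H₀.mul_mem hg' (H₀.inv_mem hg), ?_⟩
    have h2 : autHom B (g' * g⁻¹) (some (Sum.inr b)) = some (Sum.inr c) := by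
      rw [map_mul, map_inv]
      show autHom B g' ((autHom B g)⁻¹ (some (Sum.inr b))) = _
      rw [← hgx, ← autHom_inr, ← hgy, ← autHom_inr]
      congr 1
      exact (autHom B g).symm_apply_apply _
    rw [autHom_inr] at h2
    exact Sum.inr.inj (Option.some.inj h2)
  · rw [eps_apply, hsign]

attribute [local instance] act

/-- The even automorphisms of the point-block graph of an `S(3,6,22)` form a simple group of
order 44352000. -/
theorem hs_exists (hα : Fintype.card α = 22) (hB : Cfsg.IsSteinerSystem 3 6 B) :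
    ∃ H : Subgroup (Cfsg.pointBlockGraph B ≃g Cfsg.pointBlockGraph B), Cfsg.IsHS H := by
  classical
  have : Fintype ↥B := Fintype.ofFinite _
  obtain ⟨H₀, hsimple₀, hiff, hpt, hbl, g₀, hg₀⟩ := key hα hB
  have hfin : Finite (Cfsg.pointBlockGraph B ≃g Cfsg.pointBlockGraph B) :=
    Finite.of_injective (phi _) (phi_injective _)
  let H : Subgroup (Cfsg.pointBlockGraph B ≃g Cfsg.pointBlockGraph B) := (eps B).ker
  have hmem : ∀ c, c ∈ H ↔ eps B c = 1 := fun c => MonoidHom.mem_ker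
  have hidx : H.index = 2 := by
    rw [Subgroup.index_eq_two_iff_exists_notMem_and]
    refine ⟨autHom B g₀, ?_, ?_⟩
    · rw [hmem, hg₀]
      decide
    · intro b
      rw [hmem, hmem, map_mul, hg₀]
      rcases Int.units_eq_one_or (eps B b) with h | h
      · exact Or.inr h
      · rw [h]
        exact Or.inl (by decide)
  have hcard : Nat.card H = 44352000 := by
    have h1 := Subgroup.card_mul_index H
    rw [hidx, card_aut hα hB] at h1
    omega
  have hsmul : ∀ (h : ↥H) (y : Option (α ⊕ ↥B)),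
      h • y = (h : Cfsg.pointBlockGraph B ≃g Cfsg.pointBlockGraph B) y := fun _ _ => rfl
  have hfaith : FaithfulSMul ↥H (Option (α ⊕ ↥B)) :=
    ⟨fun {h h'} hh => Subtype.ext (DFunLike.ext _ _ hh)⟩
  have hto : ∀ y : Option (α ⊕ ↥B), ∃ h : ↥H, h • y = none := by
    intro y
    obtain ⟨g, hg⟩ := exists_to_none hα hB y
    by_cases hgH : g ∈ H
    · exact ⟨⟨g, hgH⟩, hg⟩
    · refine ⟨⟨autHom B g₀ * g, ?_⟩, ?_⟩
      · rw [hmem, map_mul, hg₀]
        rcases Int.units_eq_one_or (eps B g) with h | h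
        · exact absurd ((hmem g).2 h) hgH
        · rw [h]
          decide
      · show autHom B g₀ (g y) = none
        rw [hg]
        rfl
  have htrans : MulAction.IsPretransitive ↥H (Option (α ⊕ ↥B)) := by
    constructor
    intro y z
    obtain ⟨g, hg⟩ := hto y
    obtain ⟨g', hg'⟩ := hto z
    refine ⟨g'⁻¹ * g, ?_⟩
    rw [mul_smul, hg, ← hg', inv_smul_smul]
  have hΩ : Nat.card (Option (α ⊕ ↥B)) = 100 := by
    rw [Nat.card_eq_fintype_card]
    exact (Cfsg.Agent.S0428.result hα hB).card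
  have hstab_mem : ∀ g : Cfsg.setSystemAut B, g ∈ H₀ → autHom B g ∈ H :=
    fun g hg => (hmem _).2 ((hiff g).1 hg)
  let ψ₁ : ↥H₀ →* ↥H :=
    ((autHom B).comp H₀.subtype).codRestrict H (fun g => hstab_mem g g.2)
  let ψ : ↥H₀ →* ↥(MulAction.stabilizer ↥H (none : Option (α ⊕ ↥B))) :=
    ψ₁.codRestrict _ (fun g => MulAction.mem_stabilizer_iff.2 rfl)
  have hψinj : Function.Injective ψ := by
    intro g g' h
    have h1 : autHom B g = autHom B g' :=
      congrArg (fun k : ↥(MulAction.stabilizer ↥H (none : Option (α ⊕ ↥B))) =>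
        ((k : ↥H) : Cfsg.pointBlockGraph B ≃g Cfsg.pointBlockGraph B)) h
    exact Subtype.ext (autHom_injective B h1)
  have hψsurj : Function.Surjective ψ := by
    intro k
    have hk : ((k : ↥H) : Cfsg.pointBlockGraph B ≃g Cfsg.pointBlockGraph B) none = none :=
      MulAction.mem_stabilizer_iff.1 k.2
    obtain ⟨g, hg⟩ := autHom_surj B _ hk
    have hgH : g ∈ H₀ := (hiff g).2 (by
      rw [hg]
      exact (hmem _).1 (k : ↥H).2)
    refine ⟨⟨g, hgH⟩, ?_⟩
    apply Subtype.ext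
    apply Subtype.ext
    exact hg
  have hsimple : IsSimpleGroup (MulAction.stabilizer ↥H (none : Option (α ⊕ ↥B))) := by
    have : IsSimpleGroup ↥H₀ := hsimple₀
    exact (MulEquiv.ofBijective ψ ⟨hψinj, hψsurj⟩).symm.isSimpleGroup
  have horb : ∀ S : Set (Option (α ⊕ ↥B)), none ∈ S →
      (∀ h ∈ MulAction.stabilizer ↥H (none : Option (α ⊕ ↥B)), ∀ s ∈ S, h • s ∈ S) →
      S.ncard = 1 ∨ S.ncard = 23 ∨ S.ncard = 78 ∨ S.ncard = 100 := by
    intro S hnone hinv
    have hinv' : ∀ g ∈ H₀, ∀ s ∈ S, autHom B g s ∈ S := by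
      intro g hg s hs
      exact hinv ⟨autHom B g, hstab_mem g hg⟩ (MulAction.mem_stabilizer_iff.2 rfl) s hs
    have hP : ∀ a, some (Sum.inl a) ∈ S ↔ ∃ a', some (Sum.inl a') ∈ S := by
      intro a
      refine ⟨fun h => ⟨a, h⟩, ?_⟩
      rintro ⟨a', ha'⟩
      obtain ⟨g, hg, hga⟩ := hpt a' a
      have h1 := hinv' g hg _ ha'
      rw [autHom_inl, hga] at h1
      exact h1
    have hQ : ∀ d : ↥B, some (Sum.inr d) ∈ S ↔ ∃ d' : ↥B, some (Sum.inr d') ∈ S := by
      intro d
      refine ⟨fun h => ⟨d, h⟩, ?_⟩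
      rintro ⟨d', hd'⟩
      obtain ⟨g, hg, hgd⟩ := hbl d' d
      have h1 := hinv' g hg _ hd'
      rw [autHom_inr, hgd] at h1
      exact h1
    have : Fintype ↥S := Fintype.ofFinite _
    have hc := Cfsg.Agent.S0428.card_vertex_set S True
      (fun _ => ∃ a', some (Sum.inl a') ∈ S) (fun _ => ∃ d' : ↥B, some (Sum.inr d') ∈ S)
      (iff_true_intro hnone) hP (fun d => hQ d)
    rw [← Nat.card_eq_fintype_card, Nat.card_coe_set_eq] at hc
    rw [hc]
    by_cases p : ∃ a', some (Sum.inl a') ∈ S <;>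
      by_cases q : ∃ d' : ↥B, some (Sum.inr d') ∈ S
    all_goals simp [p, q, hα, Cfsg.Agent.Lib.Helper8.S3622.card_blocks hα hB]
  have hHsimple : IsSimpleGroup ↥H :=
    Cfsg.Agent.Lib.Helper8.Rank3Simple.simple_of_rank3 (none : Option (α ⊕ ↥B)) hΩ hsimple horb
      (by rw [hcard]; norm_num) (by rw [hcard]; norm_num)
  exact ⟨H, hHsimple, hcard⟩

end main

end Cfsg.Agent.Lib.Helper8.HSMain
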