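import Cfsg.Agent.Lib.Helper8.HSTwo
import Cfsg.Agent.Lib.Helper8.HSIso
import Cfsg.Agent.Lib.Helper66.HSOdd
import Cfsg.Agent.Lib.Helper66.SpinCover
import Cfsg.Agent.Lib.Helper66.PrimeMult

/-!
The Schur multiplier of the Higman-Sims group is cyclic of order 2.  The upper bound comes from
the local analysis at the primes 2, 3 and 5 in the model group `G0` on the hundred vertices of
the Higman-Sims graph; the lower bound from the restriction of the spin cover of the alternating
group of degree 100, which does not split because `G0` has a fixed-point-free involution.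
-/

set_option autoImplicit false

namespace Cfsg.Agent.Lib.Helper8.HSTab

open Cfsg.Agent.Lib.Helper35.StemB
open scoped commutatorElement

theorem sq_not_dvd_hs {p : ℕ} (hp : p.Prime) (h2 : p ≠ 2) (h3 : p ≠ 3) (h5 : p ≠ 5) :
    ¬ p ^ 2 ∣ 44352000 := by
  intro h
  have hcop : Nat.Coprime (p ^ 2) 576000 := by
    apply Nat.Coprime.pow_left
    rw [show (576000 : ℕ) = 2 ^ 9 * 3 ^ 2 * 5 ^ 3 from rfl]
    apply Nat.Coprime.mul_right
    · apply Nat.Coprime.mul_right
      · exact Nat.Coprime.pow_right _ ((Nat.coprime_primes hp Nat.prime_two).mpr h2)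
      · exact Nat.Coprime.pow_right _ ((Nat.coprime_primes hp Nat.prime_three).mpr h3)
    · exact Nat.Coprime.pow_right _ ((Nat.coprime_primes hp Nat.prime_five).mpr h5)
  have h' : p ^ 2 ∣ 77 := by
    apply hcop.dvd_of_dvd_mul_left
    rw [show (576000 * 77 : ℕ) = 44352000 from rfl]; exact h
  have hle : p ^ 2 ≤ 77 := Nat.le_of_dvd (by norm_num) h'
  have hp9 : p < 9 := by nlinarith
  have hp2 := hp.two_le
  interval_cases p <;> revert h' <;> decide

/-- The kernel of a stem extension of the model group is a 2-group. -/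
theorem ker_isPGroup (Γ : Type) [Group Γ] [Finite Γ] (σ : Γ →* ↥G0)
    (hσ : Cfsg.IsStemExtension σ) : IsPGroup 2 σ.ker := by
  have hcard : Nat.card σ.ker = 2 ^ (Nat.card σ.ker).primeFactorsList.length := by
    apply Nat.eq_prime_pow_of_unique_prime_dvd Nat.card_pos.ne'
    intro q hq hdvd
    by_contra h2
    haveI : Fact q.Prime := ⟨hq⟩
    obtain ⟨z, hz⟩ := exists_prime_orderOf_dvd_card' q hdvd
    have hzo : orderOf (z : Γ) = q := by rw [Subgroup.orderOf_coe]; exact hz
    have hz1 : (z : Γ) ≠ 1 := by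
      intro h
      rw [h, orderOf_one] at hzo
      exact hq.one_lt.ne hzo
    by_cases h3 : q = 3
    · exact hz1 (eq_one_of_exponent_case 3 Cfsg.Agent.Lib.Helper66.HSOdd.hs_three Γ σ hσ z z.2
        (by rw [← h3, ← hzo]; exact pow_orderOf_eq_one _))
    by_cases h5 : q = 5
    · exact hz1 (eq_one_of_exponent_case 5 Cfsg.Agent.Lib.Helper66.HSOdd.hs_five Γ σ hσ z z.2
        (by rw [← h5, ← hzo]; exact pow_orderOf_eq_one _))
    exact false_of_sq_not_dvd σ hσ.2.1 q (by rw [card_G0]; exact sq_not_dvd_hs hq h2 h3 h5) z.2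
      (hσ.2.2 z.2) hzo
  exact IsPGroup.of_card hcard

/-- The kernel of a stem extension of the model group has order at most 2. -/
theorem hs_bound (Γ : Type) [Group Γ] [Finite Γ] (σ : Γ →* ↥G0)
    (hσ : Cfsg.IsStemExtension σ) : Nat.card σ.ker ∣ 2 :=
  hs_two Γ σ hσ (ker_isPGroup Γ σ hσ)

/-- The model group is perfect. -/
theorem G0_perfect : commutator ↥G0 = ⊤ := by
  obtain ⟨e⟩ := iso_G0
  haveI : IsSimpleGroup ↥(Cfsg.Agent.Lib.Helper8.HSLeech.A) :=
    (Cfsg.Agent.S0405.result _ _ Cfsg.Agent.Lib.Helper8.HSLeech.hv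
      Cfsg.Agent.Lib.Helper8.HSLeech.hw Cfsg.Agent.Lib.Helper8.HSLeech.hvw).1
  haveI : IsSimpleGroup ↥G0 := (e.trans Cfsg.Agent.Lib.Helper8.HSLeech.hsEquiv).isSimpleGroup
  rcases (inferInstance : (commutator ↥G0).Normal).eq_bot_or_eq_top with h | h
  · exfalso
    have h1 : ⁅(⟨s2, s2_mem⟩ : ↥G0), ⟨s0, s0_mem⟩⁆ ∈ commutator ↥G0 := by
      rw [commutator_def]
      exact Subgroup.commutator_mem_commutator (Subgroup.mem_top _) (Subgroup.mem_top _)
    rw [h, Subgroup.mem_bot, commutatorElement_eq_one_iff_mul_comm] at h1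
    have h2 : s2 * s0 = s0 * s2 := congrArg Subtype.val h1
    apply f_r2
    calc (s2 * s0) ^ 2 = s2 * (s0 * s2) * s0 := by rw [pow_two]; simp only [mul_assoc]
      _ = s2 * (s2 * s0) * s0 := by rw [← h2]
      _ = (s2 * s2) * (s0 * s0) := by simp only [mul_assoc]
      _ = 1 := by rw [f_s2s2, f_s0s0, one_mul]
  · exact h

/-- The Schur multiplier of the Higman-Sims group is cyclic of order 2. -/
theorem hs_multiplier : Cfsg.HasCyclicSchurMultiplier ↥Cfsg.Spor.HS 2 := by
  obtain ⟨e⟩ := iso_G0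
  haveI : Finite ↥Cfsg.Spor.HS := Finite.of_equiv _ e.toEquiv
  have hub : ∀ (Γ : Type) [Group Γ] [Finite Γ] (σ : Γ →* ↥Cfsg.Spor.HS),
      Cfsg.IsStemExtension σ → Nat.card σ.ker ∣ 2 := by
    intro Γ _ _ σ hσ
    have hk : (e.symm.toMonoidHom.comp σ).ker = σ.ker := by
      ext x
      rw [MonoidHom.mem_ker, MonoidHom.mem_ker, MonoidHom.comp_apply]
      exact e.symm.map_eq_one_iff
    have h := hs_bound Γ (e.symm.toMonoidHom.comp σ)
      ⟨e.symm.surjective.comp hσ.1, by rw [hk]; exact hσ.2.1, by rw [hk]; exact hσ.2.2⟩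
    rw [hk] at h
    exact h
  obtain ⟨X, _, ξ, hξ, hcξ, z, hz, hz1⟩ := Cfsg.Agent.Lib.Helper66.SpinCover.spin_cover G0
    inf_le_right G0_perfect w0 w0_mem f_w0w0 w0_fpf
  have hk : (e.toMonoidHom.comp ξ).ker = ξ.ker := by
    ext x
    rw [MonoidHom.mem_ker, MonoidHom.mem_ker, MonoidHom.comp_apply]
    exact e.map_eq_one_iff
  exact Cfsg.Agent.Lib.Helper66.PrimeMult.hasCyclic_prime_of_bound 2 Nat.prime_two hub
    (e.toMonoidHom.comp ξ) (e.surjective.comp hξ) (by rw [hk]; exact hcξ) z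
    (by rw [hk]; exact hz) hz1

end Cfsg.Agent.Lib.Helper8.HSTab
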