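import Cfsg.Agent.Lib.Helper8.HSRecog

/-!
A transitive permutation group of degree `100` whose point stabiliser is isomorphic to `M22`
and has orbits of lengths `22` and `77` is isomorphic to the Higman-Sims group: the orbital
graph of the orbit of length `22` is strongly regular with parameters `(100, 22, 0, 6)`.
-/

set_option autoImplicit false

namespace Cfsg.Agent.Lib.Helper8.HSRecog2

open Cfsg Cfsg.Agent.Lib.Helper8.SRG100 Cfsg.Agent.Lib.Helper8.HSGraph
  Cfsg.Agent.Lib.Helper8.HSLeech Cfsg.Agent.Lib.Helper35.PermAut Cfsg.Agent.Lib.Helper8.M24Sub2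
  Cfsg.Agent.Lib.Helper8.HSRecog

section

variable {Ω : Type*} [Fintype Ω] [DecidableEq Ω]

/-- The stabiliser of a point in a subgroup of the symmetric group. -/
abbrev St (G : Subgroup (Equiv.Perm Ω)) (a : Ω) : Subgroup (Equiv.Perm Ω) :=
  G ⊓ MulAction.stabilizer (Equiv.Perm Ω) a

omit [Fintype Ω] [DecidableEq Ω] in
theorem mem_St {G : Subgroup (Equiv.Perm Ω)} {a : Ω} {k : Equiv.Perm Ω} :
    k ∈ St G a ↔ k ∈ G ∧ k a = a := by
  rw [Subgroup.mem_inf, MulAction.mem_stabilizer_iff]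
  rfl

theorem orb_eq {K : Subgroup (Equiv.Perm Ω)} {x y : Ω} (h : y ∈ orb K x) : orb K y = orb K x := by
  obtain ⟨k, hk, rfl⟩ := mem_orb.mp h
  ext z
  rw [mem_orb, mem_orb]
  constructor
  · rintro ⟨k', hk', rfl⟩
    exact ⟨k' * k, K.mul_mem hk' hk, rfl⟩
  · rintro ⟨k', hk', rfl⟩
    exact ⟨k' * k⁻¹, K.mul_mem hk' (K.inv_mem hk), by simp⟩

/-- The hypotheses of the recognition theorem, in terms of finsets. -/
structure Hyp (G : Subgroup (Equiv.Perm Ω)) (a b c : Ω) : Prop where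
  card : Fintype.card Ω = 100
  tr : ∀ x y : Ω, ∃ g ∈ G, g x = y
  hb : (orb (St G a) b).card = 22
  hc : (orb (St G a) c).card = 77
  two : ∀ y y₁ y₂ : Ω, y ∈ orb (St G a) b → y₁ ∈ orb (St G a) b → y₂ ∈ orb (St G a) b →
    y₁ ≠ y → y₂ ≠ y → ∃ k ∈ St G a, k y = y ∧ k y₁ = y₂
  cardG : Nat.card G = 44352000

variable {G : Subgroup (Equiv.Perm Ω)} {a b c : Ω}

theorem orb_self (G : Subgroup (Equiv.Perm Ω)) (a : Ω) : orb (St G a) a = {a} := by
  ext z
  rw [mem_orb, Finset.mem_singleton]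
  constructor
  · rintro ⟨k, hk, rfl⟩
    exact (mem_St.mp hk).2
  · rintro rfl
    exact ⟨1, (St G z).one_mem, rfl⟩

theorem a_notMem (hn : (orb (St G a) b).card ≠ 1) : a ∉ orb (St G a) b := by
  intro h
  apply hn
  rw [← orb_eq h, orb_self, Finset.card_singleton]

theorem disj (h : Hyp G a b c) : Disjoint (orb (St G a) c) (orb (St G a) b) := by
  apply orb_disjoint
  intro hcb
  have h1 := h.hc
  rw [orb_eq hcb, h.hb] at h1
  omega

theorem cover (h : Hyp G a b c) (x : Ω) :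
    x = a ∨ x ∈ orb (St G a) b ∨ x ∈ orb (St G a) c := by
  have ha_b := a_notMem (G := G) (a := a) (b := b) (by rw [h.hb]; norm_num)
  have ha_c := a_notMem (G := G) (a := a) (b := c) (by rw [h.hc]; norm_num)
  have hd := disj h
  have hcard : (insert a (orb (St G a) c ∪ orb (St G a) b)).card = 100 := by
    rw [Finset.card_insert_of_notMem (by
      rw [Finset.mem_union]
      tauto), Finset.card_union_of_disjoint hd, h.hc, h.hb]
  have huniv : insert a (orb (St G a) c ∪ orb (St G a) b) = Finset.univ := by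
    apply Finset.eq_univ_of_card
    rw [hcard, h.card]
  have hx := Finset.mem_univ x
  rw [← huniv, Finset.mem_insert, Finset.mem_union] at hx
  tauto

theorem card_St (h : Hyp G a b c) (x : Ω) : Nat.card G = Nat.card ↥(St G x) * 100 := by
  have h1 := card_eq_mul_orb G x
  have h2 : orb G x = Finset.univ := by
    ext z
    simp only [Finset.mem_univ, iff_true, mem_orb]
    exact h.tr x z
  rw [h2, Finset.card_univ, h.card] at h1
  exact h1

theorem b_ne_a (h : Hyp G a b c) : b ≠ a := by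
  intro hba
  have h1 := a_notMem (G := G) (a := a) (b := b) (by rw [h.hb]; norm_num)
  exact h1 (mem_orb.mpr ⟨1, Subgroup.one_mem _, hba⟩)

theorem swap_ab (h : Hyp G a b c) : ∃ g ∈ G, g a = b ∧ g b = a := by
  have hba := b_ne_a h
  have h1 := card_St h a
  have h2 := card_St h b
  have h3 := card_eq_mul_orb (St G a) b
  rw [h.hb] at h3
  have h4 := card_eq_mul_orb (St G b) a
  have h5 : St G b ⊓ MulAction.stabilizer (Equiv.Perm Ω) a
      = St G a ⊓ MulAction.stabilizer (Equiv.Perm Ω) b := inf_right_comm _ _ _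
  rw [h5] at h4
  have hpos : 0 < Nat.card ↥(St G a ⊓ MulAction.stabilizer (Equiv.Perm Ω) b) := Nat.card_pos
  have h6 : (orb (St G b) a).card = 22 := by
    have h7 : Nat.card ↥(St G a ⊓ MulAction.stabilizer (Equiv.Perm Ω) b) * (orb (St G b) a).card
        = Nat.card ↥(St G a ⊓ MulAction.stabilizer (Equiv.Perm Ω) b) * 22 := by
      rw [← h4, ← h3]
      omega
    exact Nat.eq_of_mul_eq_mul_left hpos h7
  obtain ⟨g, hg, hga⟩ := h.tr a b
  have hgb : g⁻¹ b = a := by rw [Equiv.Perm.inv_eq_iff_eq, hga]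
  have hne : g⁻¹ a ≠ a := by
    intro h'
    rw [Equiv.Perm.inv_eq_iff_eq, hga] at h'
    exact hba h'.symm
  rcases cover h (g⁻¹ a) with h' | h' | h'
  · exact absurd h' hne
  · obtain ⟨k, hk, hkb⟩ := mem_orb.mp h'
    rw [mem_St] at hk
    refine ⟨g * k, G.mul_mem hg hk.1, ?_, ?_⟩
    · show g (k a) = b
      rw [hk.2, hga]
    · show g (k b) = a
      rw [hkb]
      simp
  · exfalso
    have hsub : (orb (St G a) c).image g ⊆ orb (St G b) a := by
      intro z hz
      obtain ⟨z', hz', rfl⟩ := Finset.mem_image.mp hz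
      rw [← orb_eq h'] at hz'
      obtain ⟨k, hk, rfl⟩ := mem_orb.mp hz'
      rw [mem_St] at hk
      rw [mem_orb]
      refine ⟨g * k * g⁻¹, mem_St.mpr ⟨G.mul_mem (G.mul_mem hg hk.1) (G.inv_mem hg), ?_⟩, rfl⟩
      show g (k (g⁻¹ b)) = b
      rw [hgb, hk.2, hga]
    have h8 := Finset.card_le_card hsub
    rw [Finset.card_image_of_injective _ g.injective, h.hc, h6] at h8
    omega

/-- The orbital relation of the pair `(a, b)`. -/
def R (G : Subgroup (Equiv.Perm Ω)) (a b : Ω) (x y : Ω) : Prop := ∃ g ∈ G, g a = x ∧ g b = y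

omit [Fintype Ω] [DecidableEq Ω] in
theorem R_map {x y : Ω} {g : Equiv.Perm Ω} (hg : g ∈ G) :
    R G a b (g x) (g y) ↔ R G a b x y := by
  constructor
  · rintro ⟨k, hk, hkx, hky⟩
    refine ⟨g⁻¹ * k, G.mul_mem (G.inv_mem hg) hk, ?_, ?_⟩
    · show g⁻¹ (k a) = x
      rw [hkx]
      simp
    · show g⁻¹ (k b) = y
      rw [hky]
      simp
  · rintro ⟨k, hk, rfl, rfl⟩
    exact ⟨g * k, G.mul_mem hg hk, rfl, rfl⟩

theorem R_a {y : Ω} : R G a b a y ↔ y ∈ orb (St G a) b := by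
  rw [mem_orb]
  constructor
  · rintro ⟨g, hg, hga, hgb⟩
    exact ⟨g, mem_St.mpr ⟨hg, hga⟩, hgb⟩
  · rintro ⟨k, hk, hkb⟩
    exact ⟨k, (mem_St.mp hk).1, (mem_St.mp hk).2, hkb⟩

theorem R_iff {x y : Ω} {g : Equiv.Perm Ω} (hg : g ∈ G) (hga : g a = x) :
    R G a b x y ↔ g⁻¹ y ∈ orb (St G a) b := by
  rw [← R_a, ← R_map (G := G) (a := a) (b := b) (x := a) (y := g⁻¹ y) hg, hga]
  simp

theorem R_symm (h : Hyp G a b c) {x y : Ω} (hxy : R G a b x y) : R G a b y x := by
  obtain ⟨g, hg, rfl, rfl⟩ := hxy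
  obtain ⟨s, hs, hsa, hsb⟩ := swap_ab h
  refine ⟨g * s, G.mul_mem hg hs, ?_, ?_⟩
  · show g (s a) = g b
    rw [hsa]
  · show g (s b) = g a
    rw [hsb]

theorem R_irrefl (h : Hyp G a b c) (x : Ω) : ¬ R G a b x x := by
  rintro ⟨g, hg, hga, hgb⟩
  exact b_ne_a h (g.injective (hgb.trans hga.symm))

/-- The orbital graph. -/
def gph (h : Hyp G a b c) : SimpleGraph Ω where
  Adj := R G a b
  symm := ⟨fun _ _ hxy => R_symm h hxy⟩
  loopless := ⟨fun x hx => R_irrefl h x hx⟩

theorem gph_adj (h : Hyp G a b c) (x y : Ω) : (gph h).Adj x y ↔ R G a b x y := Iff.rfl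

theorem nbr_eq (h : Hyp G a b c) [DecidableRel (gph h).Adj] {x : Ω} {g : Equiv.Perm Ω}
    (hg : g ∈ G) (hga : g a = x) :
    (gph h).neighborFinset x = (orb (St G a) b).image g := by
  ext y
  rw [SimpleGraph.mem_neighborFinset, gph_adj, R_iff hg hga, Finset.mem_image]
  constructor
  · intro hy
    exact ⟨g⁻¹ y, hy, by simp⟩
  · rintro ⟨z, hz, rfl⟩
    simpa using hz

theorem gph_deg (h : Hyp G a b c) [DecidableRel (gph h).Adj] (x : Ω) :
    ((gph h).neighborFinset x).card = 22 := by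
  obtain ⟨g, hg, hga⟩ := h.tr a x
  rw [nbr_eq h hg hga, Finset.card_image_of_injective _ g.injective, h.hb]

theorem gph_far (h : Hyp G a b c) (x z z' : Ω) (hz : z ≠ x) (hz' : z' ≠ x)
    (hn : ¬ (gph h).Adj x z) (hn' : ¬ (gph h).Adj x z') :
    ∃ π : Equiv.Perm Ω, (∀ u v, (gph h).Adj (π u) (π v) ↔ (gph h).Adj u v) ∧ π x = x ∧
      π z = z' := by
  obtain ⟨g, hg, hga⟩ := h.tr a x
  have hgx : g⁻¹ x = a := by rw [Equiv.Perm.inv_eq_iff_eq, hga]
  have key : ∀ w, w ≠ x → ¬ (gph h).Adj x w → g⁻¹ w ∈ orb (St G a) c := by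
    intro w hw hnw
    rcases cover h (g⁻¹ w) with h' | h' | h'
    · exfalso
      apply hw
      rw [Equiv.Perm.inv_eq_iff_eq, hga] at h'
      exact h'
    · exact absurd ((R_iff hg hga).mpr h') hnw
    · exact h'
  obtain ⟨k₁, hk₁, e₁⟩ := mem_orb.mp (key z hz hn)
  obtain ⟨k₂, hk₂, e₂⟩ := mem_orb.mp (key z' hz' hn')
  have hk₁' := mem_St.mp hk₁
  have hk₂' := mem_St.mp hk₂
  have hπ : g * (k₂ * k₁⁻¹) * g⁻¹ ∈ G :=
    G.mul_mem (G.mul_mem hg (G.mul_mem hk₂'.1 (G.inv_mem hk₁'.1))) (G.inv_mem hg)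
  refine ⟨g * (k₂ * k₁⁻¹) * g⁻¹, fun u v => R_map hπ, ?_, ?_⟩
  · show g (k₂ (k₁⁻¹ (g⁻¹ x))) = x
    rw [hgx]
    have h1 : k₁⁻¹ a = a := by rw [Equiv.Perm.inv_eq_iff_eq, hk₁'.2]
    rw [h1, hk₂'.2, hga]
  · show g (k₂ (k₁⁻¹ (g⁻¹ z))) = z'
    rw [← e₁]
    have h1 : k₁⁻¹ (k₁ c) = c := by simp
    rw [h1, e₂]
    simp

theorem gph_tri (h : Hyp G a b c) (x y z : Ω) (hxy : (gph h).Adj x y) (hxz : (gph h).Adj x z) :
    ¬ (gph h).Adj y z := by
  classical
  intro hyz
  have hclq : ∀ u v, u ∈ orb (St G a) b → v ∈ orb (St G a) b → u ≠ v → R G a b u v := by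
    intro u v hu hv huv
    obtain ⟨g, hg, hga⟩ := h.tr a x
    have hy' : g⁻¹ y ∈ orb (St G a) b := (R_iff hg hga).mp hxy
    have hz' : g⁻¹ z ∈ orb (St G a) b := (R_iff hg hga).mp hxz
    have hR : R G a b (g⁻¹ y) (g⁻¹ z) := (R_map (G.inv_mem hg)).mpr hyz
    have hne : g⁻¹ y ≠ g⁻¹ z := fun e => R_irrefl h _ (e ▸ hR)
    obtain ⟨k₁, hk₁, e₁⟩ : ∃ k ∈ St G a, k (g⁻¹ y) = u := by
      rw [← orb_eq hy'] at hu
      exact mem_orb.mp hu
    have hk₁z : k₁ (g⁻¹ z) ∈ orb (St G a) b := apply_mem_orb hz' hk₁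
    have hne' : k₁ (g⁻¹ z) ≠ u := by
      rw [← e₁]
      exact fun e => hne (k₁.injective e).symm
    obtain ⟨k₂, hk₂, e₂, e₃⟩ := h.two u (k₁ (g⁻¹ z)) v hu hk₁z hv hne' (Ne.symm huv)
    have hk : k₂ * k₁ ∈ G := G.mul_mem (mem_St.mp hk₂).1 (mem_St.mp hk₁).1
    have h1 := (R_map (x := g⁻¹ y) (y := g⁻¹ z) hk).mpr hR
    have e4 : (k₂ * k₁) (g⁻¹ y) = u := by
      show k₂ (k₁ (g⁻¹ y)) = u
      rw [e₁, e₂]
    have e5 : (k₂ * k₁) (g⁻¹ z) = v := e₃
    rwa [e4, e5] at h1
  have hclq2 : ∀ w u v, R G a b w u → R G a b w v → u ≠ v → R G a b u v := by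
    intro w u v hwu hwv huv
    obtain ⟨g, hg, hga⟩ := h.tr a w
    have h1 := hclq (g⁻¹ u) (g⁻¹ v) ((R_iff hg hga).mp hwu) ((R_iff hg hga).mp hwv)
      (fun e => huv (g⁻¹.injective e))
    exact (R_map (G.inv_mem hg)).mp h1
  have hnb : ∀ w u, R G a b w u → (gph h).neighborFinset u
      = insert w (((gph h).neighborFinset w).erase u) := by
    intro w u hwu
    symm
    apply Finset.eq_of_subset_of_card_le
    · intro v hv
      rw [Finset.mem_insert, Finset.mem_erase, SimpleGraph.mem_neighborFinset] at hv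
      rw [SimpleGraph.mem_neighborFinset]
      rcases hv with rfl | ⟨hvu, hwv⟩
      · exact R_symm h hwu
      · exact hclq2 w u v hwu hwv (Ne.symm hvu)
    · rw [gph_deg, Finset.card_insert_of_notMem, Finset.card_erase_of_mem, gph_deg]
      · exact (SimpleGraph.mem_neighborFinset _ _ _).mpr hwu
      · intro hmem
        rw [Finset.mem_erase, SimpleGraph.mem_neighborFinset] at hmem
        exact R_irrefl h w hmem.2
  have hf : ∀ w u, u ∈ insert w ((gph h).neighborFinset w) →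
      insert u ((gph h).neighborFinset u) = insert w ((gph h).neighborFinset w) := by
    intro w u hu
    rw [Finset.mem_insert, SimpleGraph.mem_neighborFinset] at hu
    rcases hu with rfl | hu
    · rfl
    · rw [hnb w u hu, Finset.insert_comm,
        Finset.insert_erase ((SimpleGraph.mem_neighborFinset _ _ _).mpr hu)]
  have hcount := Finset.card_eq_sum_card_fiberwise
    (f := fun w => insert w ((gph h).neighborFinset w)) (s := Finset.univ)
    (t := Finset.univ.image (fun w => insert w ((gph h).neighborFinset w)))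
    (fun w _ => Finset.mem_image_of_mem _ (Finset.mem_univ w))
  have hfib : ∀ F ∈ Finset.univ.image (fun w => insert w ((gph h).neighborFinset w)),
      (Finset.univ.filter (fun u => insert u ((gph h).neighborFinset u) = F)).card = 23 := by
    intro F hF
    obtain ⟨w, -, rfl⟩ := Finset.mem_image.mp hF
    have h1 : Finset.univ.filter (fun u => insert u ((gph h).neighborFinset u)
        = insert w ((gph h).neighborFinset w)) = insert w ((gph h).neighborFinset w) := by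
      ext u
      rw [Finset.mem_filter]
      constructor
      · rintro ⟨-, hu⟩
        rw [← hu]
        exact Finset.mem_insert_self _ _
      · intro hu
        exact ⟨Finset.mem_univ _, hf w u hu⟩
    rw [h1, Finset.card_insert_of_notMem, gph_deg]
    intro hmem
    rw [SimpleGraph.mem_neighborFinset] at hmem
    exact R_irrefl h w hmem
  rw [Finset.sum_congr rfl hfib, Finset.sum_const, Finset.card_univ, h.card] at hcount
  simp only [smul_eq_mul] at hcount
  omega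

theorem gph_loc (h : Hyp G a b c) [DecidableRel (gph h).Adj] : Loc (gph h) :=
  loc_of_rank3 (gph h) h.card (gph_deg h) (gph_tri h) (gph_far h)

theorem le_autP (h : Hyp G a b c) : G ≤ autP (gph h) := fun _ hg _ _ => R_map hg

theorem iso_of_hyp (h : Hyp G a b c) : Nonempty (G ≃* Cfsg.Spor.HS) := by
  classical
  exact iso_hs_of_graph (gph_loc h) G (le_autP h) h.cardG

/-- The hypotheses of the recognition theorem hold. -/
theorem hyp_of (hΩ : Fintype.card Ω = 100) (G : Subgroup (Equiv.Perm Ω))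
    [MulAction.IsPretransitive G Ω] (a : Ω) (e : MulAction.stabilizer G a ≃* Cfsg.Spor.M22)
    (b c : Ω) (hb : (MulAction.orbit (MulAction.stabilizer G a) b).ncard = 22)
    (hc : (MulAction.orbit (MulAction.stabilizer G a) c).ncard = 77) : Hyp G a b c := by
  have hset : ∀ z : Ω, MulAction.orbit (MulAction.stabilizer G a) z
      = ((orb (St G a) z : Finset Ω) : Set Ω) := by
    intro z
    ext y
    rw [Finset.mem_coe, mem_orb, MulAction.mem_orbit_iff]
    constructor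
    · rintro ⟨s, rfl⟩
      exact ⟨((s : G) : Equiv.Perm Ω),
        mem_St.mpr ⟨(s : G).2, MulAction.mem_stabilizer_iff.mp s.2⟩, rfl⟩
    · rintro ⟨k, hk, rfl⟩
      exact ⟨⟨⟨k, (mem_St.mp hk).1⟩, MulAction.mem_stabilizer_iff.mpr (mem_St.mp hk).2⟩, rfl⟩
  have hb' : (orb (St G a) b).card = 22 := by rw [← Set.ncard_coe_finset, ← hset, hb]
  have hc' : (orb (St G a) c).card = 77 := by rw [← Set.ncard_coe_finset, ← hset, hc]
  have htr : ∀ x y : Ω, ∃ g ∈ G, g x = y := by
    intro x y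
    obtain ⟨g, hg⟩ := MulAction.exists_smul_eq G x y
    exact ⟨g.1, g.2, hg⟩
  have hcSt : Nat.card ↥(St G a) = 443520 := by
    rw [← Cfsg.Agent.Lib.Helper35.M22Aut.card_M22, ← Nat.card_congr e.toEquiv]
    apply Nat.card_congr
    exact ⟨fun k => ⟨⟨k.1, (mem_St.mp k.2).1⟩,
        MulAction.mem_stabilizer_iff.mpr (mem_St.mp k.2).2⟩,
      fun s => ⟨((s : G) : Equiv.Perm Ω),
        mem_St.mpr ⟨(s : G).2, MulAction.mem_stabilizer_iff.mp s.2⟩⟩,
      fun _ => rfl, fun _ => rfl⟩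
  refine ⟨hΩ, htr, hb', hc', ?_, ?_⟩
  · intro y y₁ y₂ hy hy₁ hy₂ h1 h2
    have cv : ∀ z, z ∈ orb (St G a) b → z ∈ MulAction.orbit (MulAction.stabilizer G a) b := by
      intro z hz
      rw [hset]
      exact Finset.mem_coe.mpr hz
    obtain ⟨s, hs, hs'⟩ := two_trans e hb (cv y hy) (cv y₁ hy₁) (cv y₂ hy₂) h1 h2
    exact ⟨((s : G) : Equiv.Perm Ω),
      mem_St.mpr ⟨(s : G).2, MulAction.mem_stabilizer_iff.mp s.2⟩, hs, hs'⟩
  · have h1 := card_eq_mul_orb G a
    have h2 : orb G a = Finset.univ := by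
      ext z
      simp only [Finset.mem_univ, iff_true, mem_orb]
      exact htr a z
    rw [h2, Finset.card_univ, hΩ, hcSt] at h1
    rw [h1]

end

end Cfsg.Agent.Lib.Helper8.HSRecog2
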