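import Mathlib
import Cfsg.Agent.Lib.Helper8.HSTab

/-!
Tables of permutations of the hundred vertices of the model graph, and the model group.
-/

set_option autoImplicit false

namespace Cfsg.Agent.Lib.Helper8.HSTab

open Cfsg.Agent.Lib.Helper8.SRG100 Cfsg.Agent.Lib.Helper8.HSGraph

theorem card_filter_fin (n : ℕ) (p : ℕ → Bool) :
    (Finset.univ.filter (fun k : Fin n => p k = true)).card = ((List.range n).filter p).length := by
  have h1 : ((Finset.univ.filter (fun k : Fin n => p k = true)).map Fin.valEmbedding)
      = (Finset.range n).filter (fun k => p k = true) := by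
    ext k
    simp only [Finset.mem_map, Finset.mem_filter, Finset.mem_univ, true_and, Fin.valEmbedding_apply,
      Finset.mem_range]
    constructor
    · rintro ⟨a, ha, rfl⟩
      exact ⟨a.2, ha⟩
    · rintro ⟨hk, hp⟩
      exact ⟨⟨k, hk⟩, hp, rfl⟩
  rw [← Finset.card_map Fin.valEmbedding, h1]
  show (List.filter (fun k => decide (p k = true)) (List.range n)).length = _
  congr 1
  apply List.filter_congr
  intro k _
  simp

theorem card_inter (i j : Fin 100) :
    (gr0.neighborFinset i ∩ gr0.neighborFinset j).card = cn i j := by
  have h : gr0.neighborFinset i ∩ gr0.neighborFinset j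
      = Finset.univ.filter (fun k : Fin 100 => (adjB i k && adjB j k) = true) := by
    ext k
    simp only [Finset.mem_inter, SimpleGraph.mem_neighborFinset, Finset.mem_filter,
      Finset.mem_univ, true_and, Bool.and_eq_true]
    rfl
  rw [h, card_filter_fin 100 (fun k => adjB i k && adjB j k)]
  rfl

theorem loc0 : Loc gr0 where
  card := by simp
  deg := fun v => by
    have := card_inter v v
    rw [Finset.inter_self] at this
    rw [this, cn_deg]
  adj := fun v w h => by
    rw [← Finset.card_eq_zero, card_inter]
    exact cn_adj v w h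
  nadj := fun v w hne h => by
    rw [card_inter]
    exact cn_nadj v w hne h

/-! ### Tables -/

/-- The table of images of a permutation. -/
def tab (π : Equiv.Perm (Fin 100)) : List Nat := (List.finRange 100).map (fun i => (π i : Nat))

theorem tab_length (π : Equiv.Perm (Fin 100)) : (tab π).length = 100 := by simp [tab]

theorem tab_getElem (π : Equiv.Perm (Fin 100)) (i : ℕ) (hi : i < (tab π).length) :
    (tab π)[i] = (π ⟨i, by rw [tab_length] at hi; exact hi⟩ : ℕ) := by
  simp [tab]

theorem tab_getD (π : Equiv.Perm (Fin 100)) (i : Fin 100) : (tab π).getD i 0 = π i := by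
  have hi : (i : ℕ) < (tab π).length := by rw [tab_length]; exact i.2
  rw [List.getD_eq_getElem?_getD, List.getElem?_eq_getElem hi, Option.getD_some, tab_getElem]

theorem tab_injective : Function.Injective tab := by
  intro π ρ h
  ext i
  rw [← tab_getD π i, ← tab_getD ρ i, h]

/-- Composition of tables. -/
def tmul (s t : List Nat) : List Nat := t.map (fun j => s.getD j 0)

theorem tab_mul (π ρ : Equiv.Perm (Fin 100)) : tab (π * ρ) = tmul (tab π) (tab ρ) := by
  have h1 : tab (π * ρ) = (List.finRange 100).map (fun i => ((π (ρ i) : Fin 100) : ℕ)) := rfl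
  have h2 : tmul (tab π) (tab ρ)
      = (List.finRange 100).map (fun i => (tab π).getD ((ρ i : Fin 100) : ℕ) 0) := by
    show List.map (fun j => (tab π).getD j 0) (List.map (fun i => ((ρ i : Fin 100) : ℕ))
      (List.finRange 100)) = _
    rw [List.map_map]
    rfl
  rw [h1, h2]
  apply List.map_congr_left
  intro i _
  exact (tab_getD π (ρ i)).symm

/-- The identity table. -/
def idT : List Nat := List.range 100

theorem tab_one : tab 1 = idT := by
  unfold tab idT
  simp [List.map_coe_finRange_eq_range]

/-- The inverse table. -/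
def tinv (t : List Nat) : List Nat := (List.range 100).map (fun j => t.idxOf j)

theorem tab_nodup (π : Equiv.Perm (Fin 100)) : (tab π).Nodup := by
  unfold tab
  apply List.Nodup.map _ (List.nodup_finRange 100)
  intro a b h
  exact π.injective (Fin.ext h)

theorem tab_inv (π : Equiv.Perm (Fin 100)) : tab π⁻¹ = tinv (tab π) := by
  apply List.ext_getElem
  · simp [tab, tinv]
  · intro j h1 h2
    have hj : j < 100 := by rw [tab_length] at h1; exact h1
    rw [tab_getElem]
    simp only [tinv, List.getElem_map, List.getElem_range]
    set i := π⁻¹ ⟨j, hj⟩ with hi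
    have hil : (i : ℕ) < (tab π).length := by rw [tab_length]; exact i.2
    have e : (tab π)[(i : ℕ)] = j := by
      rw [tab_getElem]
      simp [hi]
    have := (tab_nodup π).idxOf_getElem (i : ℕ) hil
    rw [e] at this
    exact this.symm

/-- Validity of a table. -/
def okT (t : List Nat) : Bool :=
  t.length == 100 &&
  ((List.range 100).all (fun i => decide (t.getD i 0 < 100) && (tinv t).getD (t.getD i 0) 0 == i) &&
   (List.range 100).all (fun j => decide ((tinv t).getD j 0 < 100) && t.getD ((tinv t).getD j 0) 0 == j))

theorem okT_left {t : List Nat} (h : okT t = true) (i : Fin 100) :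
    t.getD i 0 < 100 ∧ (tinv t).getD (t.getD i 0) 0 = i := by
  simp only [okT, Bool.and_eq_true, List.all_eq_true, List.mem_range, decide_eq_true_eq,
    beq_iff_eq] at h
  exact h.2.1 i i.2

theorem okT_right {t : List Nat} (h : okT t = true) (j : Fin 100) :
    (tinv t).getD j 0 < 100 ∧ t.getD ((tinv t).getD j 0) 0 = j := by
  simp only [okT, Bool.and_eq_true, List.all_eq_true, List.mem_range, decide_eq_true_eq,
    beq_iff_eq] at h
  exact h.2.2 j j.2

/-- The permutation with a given valid table. -/
def mkP (t : List Nat) (h : okT t = true) : Equiv.Perm (Fin 100) where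
  toFun i := ⟨t.getD i 0 % 100, Nat.mod_lt _ (by norm_num)⟩
  invFun j := ⟨(tinv t).getD j 0 % 100, Nat.mod_lt _ (by norm_num)⟩
  left_inv i := by
    apply Fin.ext
    show (tinv t).getD (t.getD i 0 % 100) 0 % 100 = i
    obtain ⟨h1, h2⟩ := okT_left h i
    rw [Nat.mod_eq_of_lt h1, h2, Nat.mod_eq_of_lt i.2]
  right_inv j := by
    apply Fin.ext
    show t.getD ((tinv t).getD j 0 % 100) 0 % 100 = j
    obtain ⟨h1, h2⟩ := okT_right h j
    rw [Nat.mod_eq_of_lt h1, h2, Nat.mod_eq_of_lt j.2]

theorem tab_mkP (t : List Nat) (h : okT t = true) : tab (mkP t h) = t := by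
  have hl : t.length = 100 := by
    simp only [okT, Bool.and_eq_true, beq_iff_eq] at h
    exact h.1
  apply List.ext_getElem
  · rw [tab_length, hl]
  · intro i h1 h2
    have hi : i < 100 := by rw [tab_length] at h1; exact h1
    rw [tab_getElem]
    show t.getD i 0 % 100 = t[i]
    have e : t.getD i 0 = t[i] := by
      rw [List.getD_eq_getElem?_getD, List.getElem?_eq_getElem h2, Option.getD_some]
    rw [Nat.mod_eq_of_lt (by have := (okT_left h ⟨i, hi⟩).1; exact this), e]

/-- The table check for adjacency preservation. -/
def autB (t : List Nat) : Bool :=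
  (List.range 100).all fun i => (List.range 100).all fun j =>
    adjB (t.getD i 0) (t.getD j 0) == adjB i j

theorem mem_autP_of_tab {π : Equiv.Perm (Fin 100)} (h : autB (tab π) = true) : π ∈ autP gr0 := by
  rw [mem_autP]
  intro u v
  simp only [autB, List.all_eq_true, List.mem_range, beq_iff_eq] at h
  have := h u u.2 v v.2
  rw [tab_getD, tab_getD] at this
  show adjB (π u) (π v) = true ↔ adjB u v = true
  rw [this]

/-- The model group: the even automorphisms of the model graph. -/
def G0 : Subgroup (Equiv.Perm (Fin 100)) := autP gr0 ⊓ alternatingGroup (Fin 100)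

theorem mem_G0 (t : List Nat) (h : okT t = true) (ha : autB t = true)
    (hs : Equiv.Perm.sign (mkP t h) = 1) : mkP t h ∈ G0 :=
  ⟨mem_autP_of_tab (by rw [tab_mkP]; exact ha), Equiv.Perm.mem_alternatingGroup.mpr hs⟩

end Cfsg.Agent.Lib.Helper8.HSTab
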