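import Cfsg.Agent.Lib.Helper8.HSTab2

/-!
The order of the model group `G0`.
-/

set_option autoImplicit false

namespace Cfsg.Agent.Lib.Helper8.HSTab

open Cfsg.Agent.Lib.Helper8.SRG100 Cfsg.Agent.Lib.Helper8.HSGraph

def tauT : List Nat := [98, 25, 70, 60, 13, 58, 48, 20, 81, 34, 56, 33, 19, 44, 12, 29, 17, 72, 68, 37, 23, 84, 22, 15, 92, 75, 14, 76, 88, 16, 87, 95, 62, 67, 78, 2, 66, 71, 79, 5, 1, 90, 69, 61, 35, 53, 26, 3, 24, 54, 74, 9, 7, 32, 42, 82, 21, 50, 51, 38, 59, 52, 41, 43, 83, 11, 8, 4, 36, 27, 55, 86, 63, 77, 39, 31, 85, 94, 97, 47, 0, 18, 65, 30, 28, 93, 73, 64, 40, 89, 45, 46, 6, 80, 91, 10, 57, 96, 99, 49]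

/-- An odd automorphism of the model graph. -/
def tau : Equiv.Perm (Fin 100) := mkP tauT (by decide +kernel)

theorem tau_mem : tau ∈ autP gr0 :=
  mem_autP_of_tab (by rw [tau, tab_mkP]; decide +kernel)

theorem tau_sign : Equiv.Perm.sign tau = -1 := by decide +kernel

theorem card_G0 : Nat.card G0 = 44352000 := by
  have hA : Nat.card (autP gr0) = 88704000 := card_autP loc0
  have h1 : (alternatingGroup (Fin 100)).relIndex (autP gr0) ∣ 2 := by
    have := Subgroup.relIndex_dvd_index_of_normal (alternatingGroup (Fin 100)) (autP gr0)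
    rwa [alternatingGroup.index_eq_two] at this
  have h2 : (alternatingGroup (Fin 100)).relIndex (autP gr0) ≠ 1 := by
    intro h
    rw [Subgroup.relIndex_eq_one] at h
    have := Equiv.Perm.mem_alternatingGroup.mp (h tau_mem)
    rw [tau_sign] at this
    exact absurd this (by decide)
  have h3 : (alternatingGroup (Fin 100)).relIndex (autP gr0) = 2 := by
    rcases (Nat.dvd_prime Nat.prime_two).mp h1 with h | h
    · exact absurd h h2
    · exact h
  have h4 : G0.relIndex (autP gr0) = 2 := by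
    rw [G0, Subgroup.inf_relIndex_left]
    exact h3
  have h5 := Subgroup.relIndex_mul_relIndex (⊥ : Subgroup (Equiv.Perm (Fin 100))) G0 (autP gr0)
    bot_le inf_le_left
  rw [Subgroup.relIndex_bot_left, Subgroup.relIndex_bot_left, h4, hA] at h5
  omega

end Cfsg.Agent.Lib.Helper8.HSTab
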