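import Cfsg.Agent.Lib.Helper8.HSFacts2
import Cfsg.Agent.Lib.Helper8.TwoLocal2
import Cfsg.Agent.Lib.Helper35.StemC

/-!
The 2-part of the kernel of a stem extension of the model group `G0` of the Higman-Sims group
has order at most 2.
-/

set_option autoImplicit false

namespace Cfsg.Agent.Lib.Helper8.HSTab

open Cfsg.Agent.Lib.Helper8.TwoLocal Cfsg.Agent.Lib.Helper35.StemC

/-- The 2-local configuration in the model group. -/
def cfg0 : Cfg (Equiv.Perm (Fin 100)) where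
  x0 := x0
  x1 := x1
  x2 := x2
  g7 := g7
  h3 := h3
  s0 := s0
  s2 := s2
  e0 := e0
  w0 := w0
  w2 := w2
  cs := cs
  cr := cr
  c2 := c2
  c3 := c3
  hx1 := rfl
  hx2 := rfl
  hs2 := rfl
  he0 := rfl
  hw0 := rfl
  hw2 := rfl
  c01 := f_c01
  c02 := f_c02
  c12 := f_c12
  p0 := f_p0
  p1 := f_p1
  p2 := f_p2
  g2 := f_g2
  fpf := f_fpf
  inj := f_inj
  hh0 := f_hh0
  hh1 := f_hh1
  hh2 := f_hh2
  hhg := f_hhg
  hs0 := f_hs0
  hs1 := f_hs1
  hs2' := f_hs2
  s0s0 := f_s0s0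
  hsh := f_hsh
  hse := f_hse
  d0 := f_d0
  d1 := f_d1
  d2 := f_d2
  r4 := f_r4
  r2 := f_r2
  sr := f_sr
  s2s2 := f_s2s2
  dfix := f_dfix
  dinj := f_dinj
  fs := f_fs
  fr := f_fr
  w02 := f_w02
  w3 := f_w3
  w0w0 := f_w0w0

/-- A stem extension of the model group whose kernel is a 2-group has kernel of order at most
2. -/
theorem hs_two (Γ : Type) [Group Γ] [Finite Γ] (σ : Γ →* ↥G0) (hσ : Cfsg.IsStemExtension σ)
    (hp : IsPGroup 2 σ.ker) : Nat.card σ.ker ∣ 2 := by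
  obtain ⟨hs, hc, hcomm⟩ := hσ
  have hker := incl_ker σ
  have key := main cfg0 (incl σ) (by rw [hker]; exact hc) (by rw [hker]; exact hcomm)
    (by rw [hker]; exact hp)
    (incl_lift σ hs g7_mem) (incl_lift σ hs h3_mem) (incl_lift σ hs s0_mem)
    (incl_lift σ hs x0_mem) (incl_lift σ hs cs_mem) (incl_lift σ hs cr_mem)
    (incl_lift σ hs c2_mem) (incl_lift σ hs c3_mem)
    86625 (by decide) (by rw [incl_range σ hs, card_G0])
  rw [hker] at key
  exact key

end Cfsg.Agent.Lib.Helper8.HSTab
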