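import Mathlib
import Cfsg.Agent.Lib.Helper1.PDStmt

/-!
# S4020 / NOEXTRA: a Sylow subgroup of order `p ^ 3` and exponent `p` is abelian
-/

set_option autoImplicit false

namespace Cfsg.Agent.Lib.Helper8.PDNOEXTRA

open Cfsg.Agent.Lib.Helper1.PDStmt

universe u

theorem aux (hQ : Quot.{u}) (hE : EvenCore.{u}) (hI : Iso.{u}) (hS : QStep.{u})
    (hO : OddCase.{u}) :
    ∀ (n : ℕ) (G : Type u) [Group G] [Finite G], Nat.card G = n → PropD G →
      ∀ (p : ℕ) [Fact p.Prime] (P : Sylow p G),
      Nat.card ↥(P : Subgroup G) = p ^ 3 → (∀ x ∈ (P : Subgroup G), x ^ p = 1) →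
        ∀ a ∈ (P : Subgroup G), ∀ b ∈ (P : Subgroup G), a * b = b * a := by
  intro n
  induction n using Nat.strong_induction_on with
  | _ n ih =>
    intro G _ _ hn hD p _ P hcard hexp a ha b hb
    by_contra hab
    have hp : p.Prime := Fact.out
    have hp2 : p ≠ 2 := by
      rintro rfl
      apply hab
      have h1 := hexp (a * b) (mul_mem ha hb)
      have h2 := hexp a ha
      have h3 := hexp b hb
      have h4 : a * b = (a * b)⁻¹ := by
        rw [eq_inv_iff_mul_eq_one, ← pow_two]
        exact h1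
      have h5 : a⁻¹ = a := by
        rw [inv_eq_iff_mul_eq_one, ← pow_two]
        exact h2
      have h6 : b⁻¹ = b := by
        rw [inv_eq_iff_mul_eq_one, ← pow_two]
        exact h3
      rw [h4, mul_inv_rev, h5, h6]
    have hb1 : b ≠ 1 := by
      rintro rfl
      exact hab (by rw [mul_one, one_mul])
    have hordb : orderOf b = p := orderOf_eq_prime (hexp b hb) hb1
    have hPg : IsPGroup p ↥(P : Subgroup G) := P.isPGroup'
    haveI : Nontrivial ↥(P : Subgroup G) := by
      rw [← Finite.one_lt_card_iff_nontrivial, hcard]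
      exact Nat.one_lt_pow (by norm_num) hp.one_lt
    obtain ⟨z, hzP, hz1, hzc⟩ : ∃ z ∈ (P : Subgroup G), z ≠ 1 ∧
        ∀ x ∈ (P : Subgroup G), x * z = z * x := by
      haveI := hPg.center_nontrivial
      obtain ⟨z', hz'⟩ := exists_ne (1 : ↥(Subgroup.center ↥(P : Subgroup G)))
      refine ⟨((z' : ↥(P : Subgroup G)) : G), (z' : ↥(P : Subgroup G)).2, ?_, ?_⟩
      · intro h
        apply hz'
        apply Subtype.ext
        apply Subtype.ext
        exact h
      · intro x hx
        have h1 := Subgroup.mem_center_iff.mp z'.2 ⟨x, hx⟩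
        exact congrArg Subtype.val h1
    have hordz : orderOf z = p := orderOf_eq_prime (hexp z hzP) hz1
    have hpg : ∀ y : G, orderOf y = p → IsPGroup p ↥(Subgroup.zpowers y) := by
      intro y hy
      exact IsPGroup.of_card (n := 1) (by rw [Nat.card_zpowers, hy, pow_one])
    obtain ⟨k, hk⟩ := hD p hp (Subgroup.zpowers z) (Subgroup.zpowers b) (hpg z hordz)
      (hpg b hordb) (by rw [Nat.card_zpowers, Nat.card_zpowers, hordz, hordb])
    obtain ⟨q, hq⟩ := hE G p hp2 P hcard hexp z hzP hz1 hzc b hb ⟨a, ha, hab⟩ ⟨k, hk⟩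
    obtain ⟨t, ht, N, hNn, hNodd, hNt⟩ := hI G hD ⟨q, hq⟩
    by_cases hPN : (P : Subgroup G) ⊓ N = ⊥
    swap
    · haveI := hNn
      exact hab (hO G hD N hNodd p P hcard hexp hPN a ha b hb)
    obtain ⟨M, hMn, hMne, hPM⟩ : ∃ M : Subgroup G, M.Normal ∧ M ≠ ⊥ ∧
        (P : Subgroup G) ⊓ M = ⊥ := by
      by_cases hN : N = ⊥
      · have htc : ∀ g : G, t * g = g * t := by
          intro g
          have h1 := hNt g
          rw [hN, Subgroup.mem_bot] at h1
          exact mul_inv_eq_iff_eq_mul.mp (mul_inv_eq_one.mp h1)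
        have ht2 : t ^ 2 = 1 := by
          rw [← ht]
          exact pow_orderOf_eq_one t
        refine ⟨Subgroup.zpowers t, ⟨?_⟩, ?_, ?_⟩
        · intro n hn g
          obtain ⟨j, rfl⟩ := Subgroup.mem_zpowers_iff.mp hn
          have hc : Commute g t := (htc g).symm
          have h1 : g * t ^ j * g⁻¹ = t ^ j := by
            rw [(hc.zpow_right j).eq, mul_inv_cancel_right]
          rw [h1]
          exact Subgroup.zpow_mem_zpowers t j
        · intro h
          have h1 : t ∈ (⊥ : Subgroup G) := h ▸ Subgroup.mem_zpowers t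
          rw [Subgroup.mem_bot] at h1
          rw [h1, orderOf_one] at ht
          norm_num at ht
        · rw [eq_bot_iff]
          rintro x ⟨hxP, hxt⟩
          rw [Subgroup.mem_bot]
          have h1 : orderOf x ∣ p := orderOf_dvd_of_pow_eq_one (hexp x hxP)
          have h2 : orderOf x ∣ 2 := by
            apply orderOf_dvd_of_pow_eq_one
            obtain ⟨j, rfl⟩ := Subgroup.mem_zpowers_iff.mp hxt
            rw [← zpow_natCast, ← zpow_mul, mul_comm, zpow_mul, zpow_natCast, ht2, one_zpow]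
          have h3 : orderOf x ∣ Nat.gcd p 2 := Nat.dvd_gcd h1 h2
          have h4 : Nat.gcd p 2 = 1 := (Nat.coprime_primes hp Nat.prime_two).mpr hp2
          rw [h4, Nat.dvd_one] at h3
          exact orderOf_eq_one_iff.mp h3
      · exact ⟨N, hNn, hN, hPN⟩
    haveI := hMn
    have hcardlt : Nat.card (G ⧸ M) < n := by
      rw [← hn, Subgroup.card_eq_card_quotient_mul_card_subgroup M]
      have h1 : 1 < Nat.card ↥M := M.one_lt_card_iff_ne_bot.mpr hMne
      have h2 : 0 < Nat.card (G ⧸ M) := Nat.card_pos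
      nlinarith
    have hDq := hQ G hD M
    obtain ⟨Q, hQeq, hQcard⟩ := hS G M p P hPM
    have hexpQ : ∀ x ∈ (Q : Subgroup (G ⧸ M)), x ^ p = 1 := by
      intro x hx
      rw [hQeq] at hx
      obtain ⟨y, hy, rfl⟩ := Subgroup.mem_map.mp hx
      rw [← map_pow, hexp y hy, map_one]
    have hmem : ∀ y ∈ (P : Subgroup G), QuotientGroup.mk' M y ∈ (Q : Subgroup (G ⧸ M)) := by
      intro y hy
      rw [hQeq]
      exact Subgroup.mem_map_of_mem _ hy
    have hcomm := ih (Nat.card (G ⧸ M)) hcardlt (G ⧸ M) rfl hDq p Q (by rw [hQcard, hcard])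
      hexpQ _ (hmem a ha) _ (hmem b hb)
    apply hab
    have h1 : QuotientGroup.mk' M (a * b) = QuotientGroup.mk' M (b * a) := by
      rw [map_mul, map_mul]
      exact hcomm
    rw [QuotientGroup.mk'_apply, QuotientGroup.mk'_apply] at h1
    have h2 : (a * b)⁻¹ * (b * a) ∈ M := QuotientGroup.eq.mp h1
    have h3 : (a * b)⁻¹ * (b * a) ∈ (P : Subgroup G) ⊓ M :=
      ⟨(P : Subgroup G).mul_mem ((P : Subgroup G).inv_mem ((P : Subgroup G).mul_mem ha hb))
        ((P : Subgroup G).mul_mem hb ha), h2⟩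
    rw [hPM, Subgroup.mem_bot] at h3
    exact inv_mul_eq_one.mp h3

theorem main (hQ : Quot.{u}) (hE : EvenCore.{u}) (hI : Iso.{u}) (hS : QStep.{u})
    (hO : OddCase.{u}) : NoExtra.{u} := by
  intro G _ _ hD p _ P hcard hexp a ha b hb
  exact aux hQ hE hI hS hO (Nat.card G) G rfl hD p P hcard hexp a ha b hb

end Cfsg.Agent.Lib.Helper8.PDNOEXTRA
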