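import Mathlib
import Cfsg.Agent.Lib.Helper18.ReeHallStmt

/-!
# Common lemmas for the counting pieces KH, KA1, KA2, KT of S1158 / S2357
-/

set_option autoImplicit false

namespace Cfsg.Agent.Lib.Helper8.RHCommon

open Cfsg.Agent.Lib.Helper42.ReeSpStmt Cfsg.Agent.Lib.Helper18.ReeHallStmt

universe u v

/-! ## arithmetic -/

theorem qq_mod8 (m : ℕ) : qq m % 8 = 3 := by
  show 3 ^ (2 * m + 1) % 8 = 3
  rw [pow_succ, pow_mul, Nat.mul_mod, Nat.pow_mod]
  norm_num

theorem three_dvd_qq (m : ℕ) : 3 ∣ qq m := dvd_pow_self 3 (by omega)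

theorem qq_ge (m : ℕ) : 3 ≤ qq m := by
  have h : 3 ^ 1 ≤ 3 ^ (2 * m + 1) := Nat.pow_le_pow_right (by norm_num) (by omega)
  simpa using h

theorem rr_sq (m : ℕ) : rr m * rr m = 3 * qq m := by
  show 3 ^ (m + 1) * 3 ^ (m + 1) = 3 * 3 ^ (2 * m + 1)
  ring

theorem rr_le_qq (m : ℕ) : rr m ≤ qq m := Nat.pow_le_pow_right (by norm_num) (by omega)

theorem three_dvd_rr (m : ℕ) : 3 ∣ rr m := dvd_pow_self 3 (by omega)

theorem rr_odd (m : ℕ) : rr m % 2 = 1 := by
  show 3 ^ (m + 1) % 2 = 1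
  rw [Nat.pow_mod]
  norm_num

theorem prime_dvd_rr {p m : ℕ} (hp : p.Prime) (h : p ∣ rr m) : p = 3 :=
  (Nat.prime_dvd_prime_iff_eq hp Nat.prime_three).1 (hp.dvd_of_dvd_pow h)

theorem no_common (q : ℕ) (h3 : 3 ∣ q) (hq : 3 ≤ q) (p : ℕ) (hp : p.Prime)
    (h1 : p ∣ q ^ 2 - q + 1) (h2 : p ∣ q * (q ^ 2 - 1)) : False := by
  obtain ⟨t, rfl⟩ : ∃ t, q = t + 3 := ⟨q - 3, by omega⟩
  have e1 : (t + 3) ^ 2 - (t + 3) + 1 = (t + 3) * (t + 2) + 1 := by
    have : (t + 3) ^ 2 = (t + 3) * (t + 2) + (t + 3) := by ring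
    omega
  have e2 : (t + 3) ^ 2 - 1 = (t + 2) * (t + 4) := by
    have : (t + 3) ^ 2 = (t + 2) * (t + 4) + 1 := by ring
    omega
  have e3 : (t + 3) * (t + 2) + 1 = (t + 4) * (t + 1) + 3 := by ring
  rw [e1] at h1
  rw [e2] at h2
  have hp1 : ¬ p ∣ 1 := fun h => hp.one_lt.ne' (Nat.dvd_one.1 h)
  rcases (Nat.Prime.dvd_mul hp).1 h2 with h | h
  · exact hp1 ((Nat.dvd_add_right (Dvd.dvd.mul_right h _)).1 h1)
  · rcases (Nat.Prime.dvd_mul hp).1 h with h | h
    · exact hp1 ((Nat.dvd_add_right (Dvd.dvd.mul_left h _)).1 h1)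
    · rw [e3] at h1
      have h3' : p ∣ 3 := (Nat.dvd_add_right (Dvd.dvd.mul_right h _)).1 h1
      have hp3 : p = 3 := (Nat.prime_dvd_prime_iff_eq hp Nat.prime_three).1 h3'
      subst hp3
      omega

theorem tor_prod' (q r : ℕ) (h1 : r * r = 3 * q) (h2 : r ≤ q) :
    (q + r + 1) * (q - r + 1) = q ^ 2 - q + 1 := by
  obtain ⟨s, rfl⟩ : ∃ s, q = r + s := ⟨q - r, by omega⟩
  have e1 : r + s - r + 1 = s + 1 := by omega
  have e0 : (r + s) ^ 2 + 1 = (r + s + r + 1) * (s + 1) + (r + s) := by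
    have e : (r + s) ^ 2 + 1 = r * r + (2 * r * s + s ^ 2 + 1) := by ring
    rw [e, h1]
    ring
  have e2 : r + s ≤ (r + s) ^ 2 := Nat.le_self_pow (by norm_num) _
  rw [e1]
  omega

theorem tor_prod (m : ℕ) : (qq m + rr m + 1) * (qq m - rr m + 1) = qq m ^ 2 - qq m + 1 :=
  tor_prod' _ _ (rr_sq m) (rr_le_qq m)

theorem tor_no_common (m p : ℕ) (hp : p.Prime) (h1 : p ∣ qq m + rr m + 1)
    (h2 : p ∣ qq m - rr m + 1) : False := by
  have hle := rr_le_qq m
  have h3q := three_dvd_qq m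
  have h3r := three_dvd_rr m
  have e : qq m + rr m + 1 = (qq m - rr m + 1) + 2 * rr m := by omega
  rw [e] at h1
  have h4 : p ∣ 2 * rr m := (Nat.dvd_add_right h2).1 h1
  rcases (Nat.Prime.dvd_mul hp).1 h4 with h | h
  · have hp2 : p = 2 := (Nat.prime_dvd_prime_iff_eq hp Nat.prime_two).1 h
    subst hp2
    have hq8 := qq_mod8 m
    have hr2 := rr_odd m
    omega
  · have hp3 := prime_dvd_rr hp h
    subst hp3
    omega

theorem cube_fact (q : ℕ) (hq : 1 ≤ q) : q ^ 3 + 1 = (q + 1) * (q ^ 2 - q + 1) := by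
  obtain ⟨t, rfl⟩ : ∃ t, q = t + 1 := ⟨q - 1, by omega⟩
  have e1 : (t + 1) ^ 2 - (t + 1) + 1 = t * (t + 1) + 1 := by
    have : (t + 1) ^ 2 = t * (t + 1) + (t + 1) := by ring
    omega
  rw [e1]
  ring

theorem sq_fact (q : ℕ) (hq : 1 ≤ q) : q ^ 2 - 1 = (q - 1) * (q + 1) := by
  obtain ⟨t, rfl⟩ : ∃ t, q = t + 1 := ⟨q - 1, by omega⟩
  have e1 : (t + 1) ^ 2 = t * (t + 1 + 1) + 1 := by ring
  have e2 : t + 1 - 1 = t := by omega
  rw [e2]
  omega

/-! ## group theory -/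

theorem orderOf_conj' {G : Type u} [Group G] (x g : G) : orderOf (x * g * x⁻¹) = orderOf g := by
  have h := MulEquiv.orderOf_eq (MulAut.conj x) g
  rwa [MulAut.conj_apply] at h

/-- number of elements of order `i` in a cyclic subgroup -/
theorem card_order_cyclic {G : Type u} [Group G] [Finite G] (T : Subgroup G)
    (hT : IsCyclic ↥T) (i : ℕ) (hi : i ∣ Nat.card ↥T) :
    Nat.card {y : ↥T // orderOf (y : G) = i} = Nat.totient i := by
  classical
  letI : Fintype ↥T := Fintype.ofFinite _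
  have h := IsCyclic.card_orderOf_eq_totient (α := ↥T) (d := i)
    (by rwa [← Nat.card_eq_fintype_card])
  rw [← h, Nat.card_eq_fintype_card, Fintype.card_subtype]
  simp only [Subgroup.orderOf_coe]

theorem cyc_comm {G : Type u} [Group G] (T : Subgroup G) (hT : IsCyclic ↥T) :
    ∀ a ∈ T, ∀ b ∈ T, a * b = b * a := by
  intro a ha b hb
  obtain ⟨c, hc⟩ := IsCyclic.exists_generator (α := ↥T)
  obtain ⟨j, hj⟩ := Subgroup.mem_zpowers_iff.1 (hc ⟨a, ha⟩)
  obtain ⟨k, hk⟩ := Subgroup.mem_zpowers_iff.1 (hc ⟨b, hb⟩)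
  have h := ((Commute.refl c).zpow_zpow j k).eq
  rw [hj, hk] at h
  exact congrArg Subtype.val h

/-- if `C(y) = S = C(g y g⁻¹)` then `g` normalizes `S` -/
theorem fusion_cent {G : Type u} [Group G] (S : Subgroup G) (g y : G)
    (h1 : Subgroup.centralizer ({y} : Set G) = S)
    (h2 : Subgroup.centralizer ({g * y * g⁻¹} : Set G) = S) :
    g ∈ Subgroup.normalizer (S : Set G) := by
  rw [Subgroup.mem_normalizer_iff]
  intro h
  have e1 : h ∈ S ↔ y * h = h * y := by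
    rw [← h1, Subgroup.mem_centralizer_iff]
    simp only [Set.mem_singleton_iff, forall_eq]
  have e2 : g * h * g⁻¹ ∈ S ↔ g * y * g⁻¹ * (g * h * g⁻¹) = g * h * g⁻¹ * (g * y * g⁻¹) := by
    rw [← h2, Subgroup.mem_centralizer_iff]
    simp only [Set.mem_singleton_iff, forall_eq]
  rw [e1, e2]
  constructor
  · intro hc
    calc g * y * g⁻¹ * (g * h * g⁻¹) = g * (y * h) * g⁻¹ := by group
      _ = g * (h * y) * g⁻¹ := by rw [hc]
      _ = g * h * g⁻¹ * (g * y * g⁻¹) := by group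
  · intro hc
    calc y * h = g⁻¹ * (g * y * g⁻¹ * (g * h * g⁻¹)) * g := by group
      _ = g⁻¹ * (g * h * g⁻¹ * (g * y * g⁻¹)) * g := by rw [hc]
      _ = h * y := by group

theorem conj_ne_one {G : Type u} [Group G] (g y : G) (hy : y ≠ 1) : g * y * g⁻¹ ≠ 1 :=
  fun h => hy (conj_eq_one_iff.1 h)

/-- the counting lemma applied to the elements of order `i` and a cyclic subgroup `T` -/
theorem count_via {G : Type u} [Group G] [Finite G] (hCnt : Cnt.{u}) (T : Subgroup G)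
    (hT : IsCyclic ↥T) (i : ℕ) (hi : i ∣ Nat.card ↥T)
    (hfus : ∀ g : G, ∀ y ∈ T, orderOf y = i → g * y * g⁻¹ ∈ T →
      g ∈ Subgroup.normalizer (T : Set G))
    (hcov : ∀ g : G, orderOf g = i → ∃ x : G, x * g * x⁻¹ ∈ T) :
    Nat.card {g : G // orderOf g = i} * Nat.card ↥(Subgroup.normalizer (T : Set G))
      = Nat.totient i * Nat.card G := by
  have h := hCnt G T (fun g => orderOf g = i)
    (fun g x hg => by rw [orderOf_conj']; exact hg) hfus hcov
  rw [card_order_cyclic T hT i hi] at h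
  exact h

/-- in an abelian group `C` of order `4a` (`a` odd) containing `A` of order `a`, the elements
with `x ^ a = 1` lie in `A` -/
theorem mem_of_pow {G : Type u} [Group G] [Finite G] (A C : Subgroup G) (a : ℕ) (ha : Odd a)
    (hcardA : Nat.card ↥A = a) (hcardC : Nat.card ↥C = 4 * a)
    (hcomm : ∀ x ∈ C, ∀ y ∈ C, x * y = y * x) (hAC : A ≤ C)
    (x : G) (hx : x ∈ C) (hxa : x ^ a = 1) : x ∈ A := by
  haveI : (A.subgroupOf C).Normal := by
    constructor
    intro n hn g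
    have hgn : g * n * g⁻¹ = n := by
      apply Subtype.ext
      have h := hcomm g.1 g.2 n.1 n.2
      simp only [Subgroup.coe_mul, InvMemClass.coe_inv]
      rw [h, mul_inv_cancel_right]
    rw [hgn]
    exact hn
  have ha0 : 0 < a := Odd.pos ha
  have hidx : (A.subgroupOf C).index = 4 := by
    have h1 := Subgroup.card_mul_index (A.subgroupOf C)
    have h2 : Nat.card ↥(A.subgroupOf C) = a := by
      rw [Nat.card_congr (Subgroup.subgroupOfEquivOfLe hAC).toEquiv, hcardA]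
    rw [h2, hcardC] at h1
    exact Nat.eq_of_mul_eq_mul_left ha0 (by rw [h1]; ring)
  have h4 : ((⟨x, hx⟩ : ↥C) : ↥C ⧸ A.subgroupOf C) ^ 4 = 1 := by
    have h := pow_card_eq_one' (G := ↥C ⧸ A.subgroupOf C)
      (x := ((⟨x, hx⟩ : ↥C) : ↥C ⧸ A.subgroupOf C))
    rwa [← Subgroup.index_eq_card, hidx] at h
  have ha' : ((⟨x, hx⟩ : ↥C) : ↥C ⧸ A.subgroupOf C) ^ a = 1 := by
    rw [← QuotientGroup.mk_pow]
    have h : (⟨x, hx⟩ : ↥C) ^ a = 1 := Subtype.ext (by simpa using hxa)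
    rw [h]
    rfl
  have h1 : ((⟨x, hx⟩ : ↥C) : ↥C ⧸ A.subgroupOf C) = 1 := by
    have hd1 := orderOf_dvd_of_pow_eq_one h4
    have hd2 := orderOf_dvd_of_pow_eq_one ha'
    have hco : Nat.Coprime 4 a := by
      have h2 : Nat.Coprime 2 a := Nat.coprime_two_left.2 ha
      exact Nat.Coprime.pow_left 2 h2
    have h := Nat.dvd_gcd hd1 hd2
    rw [hco] at h
    exact orderOf_eq_one_iff.1 (Nat.dvd_one.1 h)
  have h := (QuotientGroup.eq_one_iff (⟨x, hx⟩ : ↥C)).1 h1
  exact Subgroup.mem_subgroupOf.1 h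

section ax

variable {G : Type u} [Group G] [Finite G] {U H A : Subgroup G} {K : Type v} [Field K]
  [Fintype K] {m : ℕ}

theorem ax_A_le (hax : Ax G U H A K m) : A ≤ Subgroup.centralizer (A : Set G) := by
  intro x hx
  rw [Subgroup.mem_centralizer_iff]
  intro h hh
  exact cyc_comm A hax.cycA h hh x hx

theorem ax_a_odd (m : ℕ) : Odd ((qq m + 1) / 4) := by
  have := qq_mod8 m
  rw [Nat.odd_iff]
  omega

theorem ax_memA (hax : Ax G U H A K m) (x : G) :
    x ∈ A ↔ x ∈ Subgroup.centralizer (A : Set G) ∧ x ^ ((qq m + 1) / 4) = 1 := by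
  constructor
  · intro hx
    refine ⟨ax_A_le hax hx, ?_⟩
    have h := pow_card_eq_one' (G := ↥A) (x := ⟨x, hx⟩)
    rw [hax.cardA] at h
    simpa using congrArg Subtype.val h
  · rintro ⟨hx, hxa⟩
    have hq8 := qq_mod8 m
    exact mem_of_pow A (Subgroup.centralizer (A : Set G)) ((qq m + 1) / 4) (ax_a_odd m)
      hax.cardA (by rw [hax.cardCA]; omega) hax.commCA (ax_A_le hax) x hx hxa

theorem ax_normCA (hax : Ax G U H A K m) :
    Subgroup.normalizer ((Subgroup.centralizer (A : Set G) : Subgroup G) : Set G)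
      = Subgroup.normalizer (A : Set G) := by
  apply le_antisymm
  · intro g hg
    rw [Subgroup.mem_normalizer_iff] at hg ⊢
    intro h
    rw [ax_memA hax, ax_memA hax, ← hg h, conj_pow, conj_eq_one_iff]
  · intro g hg
    rw [Subgroup.mem_normalizer_iff]
    intro c
    rw [Subgroup.mem_centralizer_iff, Subgroup.mem_centralizer_iff]
    constructor
    · intro hc h hh
      have h1 : g⁻¹ * h * g ∈ A := (Subgroup.mem_normalizer_iff''.1 hg h).1 hh
      have h2 := hc _ h1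
      calc h * (g * c * g⁻¹) = g * (g⁻¹ * h * g * c) * g⁻¹ := by group
        _ = g * (c * (g⁻¹ * h * g)) * g⁻¹ := by rw [h2]
        _ = g * c * g⁻¹ * h := by group
    · intro hc h hh
      have h1 : g * h * g⁻¹ ∈ A := (Subgroup.mem_normalizer_iff.1 hg h).1 hh
      have h2 := hc _ h1
      calc h * c = g⁻¹ * (g * h * g⁻¹ * (g * c * g⁻¹)) * g := by group
        _ = g⁻¹ * (g * c * g⁻¹ * (g * h * g⁻¹)) * g := by rw [h2]
        _ = c * h := by group

end ax

end Cfsg.Agent.Lib.Helper8.RHCommon
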