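import Mathlib
import Cfsg.Agent.Lib.Helper18.ReeHallStmt
import Cfsg.Agent.Lib.Helper8.RHCommon

/-!
# S1158/S2357 piece KA1: numbers of elements of order `i ∣ (q+1)/4`, `i > 1`
-/

set_option autoImplicit false

namespace Cfsg.Agent.Lib.Helper8.RHKA1

open Cfsg.Agent.Lib.Helper42.ReeSpStmt Cfsg.Agent.Lib.Helper18.ReeHallStmt
open Cfsg.Agent.Lib.Helper8.RHCommon

universe u v

theorem main : Cfsg.Agent.Lib.Helper18.ReeHallStmt.KA1.{u, v} := by
  intro G _ _ U H A K _ _ m hax hCnt hOdd hNA i hi hdv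
  have hq8 := qq_mod8 m
  have hq3 := qq_ge m
  have haodd := ax_a_odd m
  have hcube := cube_fact (qq m) (by omega)
  have hy1 : ∀ y : G, orderOf y = i → y ≠ 1 := by
    intro y ho
    rintro rfl
    rw [orderOf_one] at ho
    omega
  have hcnt := count_via hCnt A hax.cycA i (by rw [hax.cardA]; exact hdv)
    (by
      intro g y hy ho hgy
      have hy1' := hy1 y ho
      have h := fusion_cent (Subgroup.centralizer (A : Set G)) g y (hax.centA y hy hy1')
        (hax.centA _ hgy (conj_ne_one g y hy1'))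
      rw [ax_normCA hax] at h
      exact h)
    (by
      intro g ho
      obtain ⟨p, hp, hpi⟩ := Nat.exists_prime_and_dvd (Nat.ne_of_gt hi)
      have hpa : p ∣ (qq m + 1) / 4 := hpi.trans hdv
      have hp2 : p ≠ 2 := by
        rintro rfl
        rw [Nat.odd_iff] at haodd
        omega
      have hpq : p ∣ qq m + 1 := hpa.trans (Nat.div_dvd_of_dvd (by omega))
      obtain ⟨x, hx⟩ := hOdd g p hp hp2 (ho ▸ hpi) hpq
      refine ⟨x, (ax_memA hax _).2 ⟨hx, ?_⟩⟩
      apply orderOf_dvd_iff_pow_eq_one.1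
      rw [orderOf_conj', ho]
      exact hdv)
  have hNA' : Nat.card ↥(Subgroup.normalizer (A : Set G)) = 6 * (qq m + 1) := hNA
  rw [hNA', hax.card] at hcnt
  have hpos : 0 < qq m + 1 := by omega
  apply Nat.eq_of_mul_eq_mul_right hpos
  calc 6 * Nat.card {g : G // orderOf g = i} * (qq m + 1)
      = Nat.card {g : G // orderOf g = i} * (6 * (qq m + 1)) := by ring
    _ = Nat.totient i * (qq m ^ 3 * (qq m - 1) * (qq m ^ 3 + 1)) := hcnt
    _ = Nat.totient i * qq m ^ 3 * (qq m - 1) * (qq m ^ 2 - qq m + 1) * (qq m + 1) := by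
      rw [hcube]
      ring

end Cfsg.Agent.Lib.Helper8.RHKA1
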