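import Mathlib
import Cfsg.Agent.Lib.Helper18.ReeHallStmt
import Cfsg.Agent.Lib.Helper8.RHCommon

/-!
# S1158/S2357 piece KA2: numbers of elements of order `2 i`, `i ∣ (q+1)/4`, `i > 1`
-/

set_option autoImplicit false

namespace Cfsg.Agent.Lib.Helper8.RHKA2

open Cfsg.Agent.Lib.Helper42.ReeSpStmt Cfsg.Agent.Lib.Helper18.ReeHallStmt
open Cfsg.Agent.Lib.Helper8.RHCommon

universe u v

/-- an abelian group of order `4a` (`a` odd) without elements of order 4 and with a subgroup of
order `a` has exactly three involutions -/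
theorem inv_count {G : Type u} [Group G] [Finite G] (A C : Subgroup G) (a : ℕ) (ha : Odd a)
    (hcardA : Nat.card ↥A = a) (hcardC : Nat.card ↥C = 4 * a)
    (hcomm : ∀ x ∈ C, ∀ y ∈ C, x * y = y * x) (hAC : A ≤ C)
    (hno4 : ∀ x ∈ C, orderOf x ≠ 4) :
    Nat.card {t : ↥C // orderOf (t : G) = 2} = 3 := by
  have ha0 : 0 < a := Odd.pos ha
  have hcomm' : ∀ x y : ↥C, Commute x y := fun x y => Subtype.ext (hcomm x.1 x.2 y.1 y.2)
  let ψ : ↥C →* ↥C :=
    { toFun := fun c => c ^ a
      map_one' := one_pow a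
      map_mul' := fun x y => (hcomm' x y).mul_pow a }
  have hψ : ∀ c : ↥C, ψ c = c ^ a := fun c => rfl
  have hker : ψ.ker = A.subgroupOf C := by
    ext c
    rw [MonoidHom.mem_ker, Subgroup.mem_subgroupOf, hψ]
    constructor
    · intro h
      have h' : (c : G) ^ a = 1 := by
        have h2 := congrArg Subtype.val h
        simpa using h2
      exact mem_of_pow A C a ha hcardA hcardC hcomm hAC c.1 c.2 h'
    · intro h
      have h1 := pow_card_eq_one' (G := ↥A) (x := ⟨c.1, h⟩)
      rw [hcardA] at h1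
      apply Subtype.ext
      have h2 := congrArg Subtype.val h1
      simpa using h2
  have hrange : Nat.card ↥ψ.range = 4 := by
    rw [← Subgroup.index_ker, hker]
    have h1 := Subgroup.card_mul_index (A.subgroupOf C)
    have h2 : Nat.card ↥(A.subgroupOf C) = a := by
      rw [Nat.card_congr (Subgroup.subgroupOfEquivOfLe hAC).toEquiv, hcardA]
    rw [h2, hcardC] at h1
    exact Nat.eq_of_mul_eq_mul_left ha0 (by rw [h1]; ring)
  have hmem : ∀ t : ↥C, t ∈ ψ.range ↔ t ^ 2 = 1 := by
    intro t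
    constructor
    · rintro ⟨c, rfl⟩
      rw [hψ]
      have h4 : (c ^ a) ^ 4 = 1 := by
        rw [← pow_mul, mul_comm, ← hcardC]
        exact pow_card_eq_one'
      have hd : orderOf (c ^ a) ∣ 4 := orderOf_dvd_of_pow_eq_one h4
      have hne : orderOf (c ^ a) ≠ 4 := by
        have h := hno4 ((c ^ a : ↥C) : G) (c ^ a).2
        rwa [Subgroup.orderOf_coe] at h
      have hd2 : orderOf (c ^ a) ∣ 2 := by
        have hle : orderOf (c ^ a) ≤ 4 := Nat.le_of_dvd (by norm_num) hd
        generalize orderOf (c ^ a) = o at hd hne hle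
        interval_cases o
        · norm_num at hd
        · norm_num
        · norm_num
        · norm_num at hd
        · exact absurd rfl hne
      exact orderOf_dvd_iff_pow_eq_one.1 hd2
    · intro h
      refine ⟨t, ?_⟩
      rw [hψ]
      obtain ⟨k, hk⟩ := ha
      rw [hk, pow_succ, pow_mul, h, one_pow, one_mul]
  have hset : {t : ↥C | orderOf (t : G) = 2} = (ψ.range : Set ↥C) \ {1} := by
    ext t
    simp only [Set.mem_ofPred_eq, Set.mem_sdiff, SetLike.mem_coe, Set.mem_singleton_iff, hmem]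
    rw [Subgroup.orderOf_coe]
    constructor
    · intro h
      refine ⟨?_, ?_⟩
      · rw [← h]
        exact pow_orderOf_eq_one t
      · rintro rfl
        rw [orderOf_one] at h
        omega
    · rintro ⟨h1, h2⟩
      exact orderOf_eq_prime h1 h2
  have h1 : Nat.card {t : ↥C // orderOf (t : G) = 2}
      = ({t : ↥C | orderOf (t : G) = 2} : Set ↥C).ncard := Nat.card_coe_set_eq _
  have h2 : ((ψ.range : Set ↥C)).ncard = 4 := by
    rw [← Nat.card_coe_set_eq]
    exact hrange
  rw [h1, hset, Set.ncard_sdiff_singleton_of_mem (Subgroup.one_mem _), h2]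

/-- elements of order `2 i` of `C` are the products of an involution of `C` and an element of
order `i` of `A` -/
theorem ord2i_count {G : Type u} [Group G] [Finite G] (A C : Subgroup G) (a i : ℕ) (ha : Odd a)
    (hi : i ∣ a) (hcomm : ∀ x ∈ C, ∀ y ∈ C, x * y = y * x) (hAC : A ≤ C)
    (hmemA : ∀ x, x ∈ A ↔ x ∈ C ∧ x ^ a = 1) :
    Nat.card {y : G // y ∈ C ∧ orderOf y = 2 * i} =
      Nat.card {t : G // t ∈ C ∧ orderOf t = 2} * Nat.card {x : G // x ∈ A ∧ orderOf x = i} := by
  have hiodd : Odd i := Odd.of_dvd_nat ha hi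
  have hi0 : 0 < i := Odd.pos hiodd
  obtain ⟨k, hk⟩ := hiodd
  have hco : Nat.Coprime 2 i := Nat.coprime_two_left.2 ⟨k, hk⟩
  have hpowt : ∀ t : G, orderOf t = 2 → t ^ i = t := by
    intro t ht
    have h2 : t ^ 2 = 1 := by
      rw [← ht]
      exact pow_orderOf_eq_one t
    rw [hk, pow_succ, pow_mul, h2, one_pow, one_mul]
  let f : {t : G // t ∈ C ∧ orderOf t = 2} × {x : G // x ∈ A ∧ orderOf x = i} →
      {y : G // y ∈ C ∧ orderOf y = 2 * i} := fun tx =>
    ⟨tx.1.1 * tx.2.1, C.mul_mem tx.1.2.1 (hAC tx.2.2.1), by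
      have hc : Commute tx.1.1 tx.2.1 := hcomm _ tx.1.2.1 _ (hAC tx.2.2.1)
      have h := hc.orderOf_mul_eq_mul_orderOf_of_coprime (by rw [tx.1.2.2, tx.2.2.2]; exact hco)
      rw [h, tx.1.2.2, tx.2.2.2]⟩
  have hf : ∀ tx, (f tx).1 = tx.1.1 * tx.2.1 := fun tx => rfl
  have hbij : Function.Bijective f := by
    constructor
    · rintro ⟨⟨t, ht, hto⟩, ⟨x, hx, hxo⟩⟩ ⟨⟨t', ht', hto'⟩, ⟨x', hx', hxo'⟩⟩ h
      have h1 : t * x = t' * x' := congrArg Subtype.val h
      have hc : Commute t x := hcomm _ ht _ (hAC hx)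
      have hc' : Commute t' x' := hcomm _ ht' _ (hAC hx')
      have hxi : x ^ i = 1 := by
        rw [← hxo]
        exact pow_orderOf_eq_one x
      have hxi' : x' ^ i = 1 := by
        rw [← hxo']
        exact pow_orderOf_eq_one x'
      have h2 : (t * x) ^ i = (t' * x') ^ i := by rw [h1]
      rw [hc.mul_pow, hc'.mul_pow, hxi, hxi', mul_one, mul_one, hpowt t hto, hpowt t' hto'] at h2
      subst h2
      have h3 : x = x' := mul_left_cancel h1
      subst h3
      rfl
    · rintro ⟨y, hy, hyo⟩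
      have hy2i : y ^ (2 * i) = 1 := by
        rw [← hyo]
        exact pow_orderOf_eq_one y
      have ht2 : (y ^ i) ^ 2 = 1 := by
        rw [← pow_mul, mul_comm]
        exact hy2i
      have ht1 : y ^ i ≠ 1 := pow_ne_one_of_lt_orderOf (by omega) (by omega)
      have hto : orderOf (y ^ i) = 2 := orderOf_eq_prime ht2 ht1
      have hxC : y ^ (i + 1) ∈ C := C.pow_mem hy _
      obtain ⟨c, hc⟩ := hi
      have hxa : (y ^ (i + 1)) ^ a = 1 := by
        rw [← pow_mul]
        have e : (i + 1) * a = (2 * i) * ((k + 1) * c) := by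
          rw [hc, hk]
          ring
        rw [e, pow_mul, hy2i, one_pow]
      have hxA : y ^ (i + 1) ∈ A := (hmemA _).2 ⟨hxC, hxa⟩
      have hxi : (y ^ (i + 1)) ^ i = 1 := by
        rw [← pow_mul]
        have e : (i + 1) * i = (2 * i) * (k + 1) := by
          rw [hk]
          ring
        rw [e, pow_mul, hy2i, one_pow]
      have hprod : y ^ i * y ^ (i + 1) = y := by
        rw [← pow_add]
        have e : i + (i + 1) = 2 * i + 1 := by ring
        rw [e, pow_succ, hy2i, one_mul]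
      have hcomm2 : Commute (y ^ i) (y ^ (i + 1)) := (Commute.refl y).pow_pow _ _
      have hxo : orderOf (y ^ (i + 1)) = i := by
        apply Nat.dvd_antisymm (orderOf_dvd_of_pow_eq_one hxi)
        have h1 := hcomm2.orderOf_mul_dvd_lcm
        rw [hprod, hyo, hto] at h1
        have h2 : 2 * i ∣ 2 * orderOf (y ^ (i + 1)) := h1.trans (Nat.lcm_dvd_mul _ _)
        exact Nat.dvd_of_mul_dvd_mul_left (by norm_num) h2
      refine ⟨(⟨y ^ i, C.pow_mem hy _, hto⟩, ⟨y ^ (i + 1), hxA, hxo⟩), ?_⟩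
      apply Subtype.ext
      rw [hf]
      exact hprod
  rw [← Nat.card_prod]
  exact (Nat.card_eq_of_bijective f hbij).symm

theorem main : Cfsg.Agent.Lib.Helper18.ReeHallStmt.KA2.{u, v} := by
  intro G _ _ U H A K _ _ m hax hCnt hOdd hNA i hi hdv
  have hq8 := qq_mod8 m
  have hq3 := qq_ge m
  have haodd := ax_a_odd m
  have hcube := cube_fact (qq m) (by omega)
  have hiodd : Odd i := Odd.of_dvd_nat haodd hdv
  have hAC := ax_A_le hax
  have hcardC : Nat.card ↥(Subgroup.centralizer (A : Set G)) = 4 * ((qq m + 1) / 4) := by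
    rw [hax.cardCA]
    omega
  have h := hCnt G (Subgroup.centralizer (A : Set G)) (fun g => orderOf g = 2 * i)
    (fun g x hg => by rw [orderOf_conj']; exact hg)
    (by
      intro g y hy ho hgy
      have ho' : orderOf y = 2 * i := ho
      have hwC : y ^ 2 ∈ Subgroup.centralizer (A : Set G) := Subgroup.pow_mem _ hy 2
      have hwa : (y ^ 2) ^ ((qq m + 1) / 4) = 1 := by
        rw [← pow_mul]
        apply orderOf_dvd_iff_pow_eq_one.1
        rw [ho']
        exact mul_dvd_mul_left 2 hdv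
      have hwA : y ^ 2 ∈ A := (ax_memA hax _).2 ⟨hwC, hwa⟩
      have hw1 : y ^ 2 ≠ 1 := pow_ne_one_of_lt_orderOf (by norm_num) (by omega)
      have e : (g * y * g⁻¹) ^ 2 = g * y ^ 2 * g⁻¹ := conj_pow
      have hw'C : g * y ^ 2 * g⁻¹ ∈ Subgroup.centralizer (A : Set G) := by
        rw [← e]
        exact Subgroup.pow_mem _ hgy 2
      have hw'a : (g * y ^ 2 * g⁻¹) ^ ((qq m + 1) / 4) = 1 := by
        rw [conj_pow, hwa, mul_one, mul_inv_cancel]
      have hw'A : g * y ^ 2 * g⁻¹ ∈ A := (ax_memA hax _).2 ⟨hw'C, hw'a⟩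
      exact fusion_cent (Subgroup.centralizer (A : Set G)) g (y ^ 2) (hax.centA _ hwA hw1)
        (hax.centA _ hw'A (conj_ne_one g _ hw1)))
    (by
      intro g ho
      have ho' : orderOf g = 2 * i := ho
      obtain ⟨p, hp, hpi⟩ := Nat.exists_prime_and_dvd (Nat.ne_of_gt hi)
      have hpa : p ∣ (qq m + 1) / 4 := hpi.trans hdv
      have hp2 : p ≠ 2 := by
        rintro rfl
        rw [Nat.odd_iff] at haodd
        omega
      have hpq : p ∣ qq m + 1 := hpa.trans (Nat.div_dvd_of_dvd (by omega))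
      exact hOdd g p hp hp2 (ho' ▸ Dvd.dvd.mul_left hpi 2) hpq)
  have hNA' : Nat.card ↥(Subgroup.normalizer (A : Set G)) = 6 * (qq m + 1) := hNA
  have hT : Nat.card {y : ↥(Subgroup.centralizer (A : Set G)) // orderOf (y : G) = 2 * i}
      = 3 * Nat.totient i := by
    rw [Nat.card_congr (Equiv.subtypeSubtypeEquivSubtypeInter
      (· ∈ Subgroup.centralizer (A : Set G)) (fun y => orderOf y = 2 * i)),
      ord2i_count A (Subgroup.centralizer (A : Set G)) ((qq m + 1) / 4) i haodd hdv hax.commCA hAC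
        (ax_memA hax),
      ← Nat.card_congr (Equiv.subtypeSubtypeEquivSubtypeInter
        (· ∈ Subgroup.centralizer (A : Set G)) (fun t => orderOf t = 2)),
      inv_count A (Subgroup.centralizer (A : Set G)) ((qq m + 1) / 4) haodd hax.cardA hcardC
        hax.commCA hAC hax.no4,
      ← Nat.card_congr (Equiv.subtypeSubtypeEquivSubtypeInter
        (· ∈ A) (fun x => orderOf x = i)),
      card_order_cyclic A hax.cycA i (by rw [hax.cardA]; exact hdv)]
  rw [ax_normCA hax, hNA', hax.card, hT] at h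
  have hpos : 0 < 3 * (qq m + 1) := by omega
  apply Nat.eq_of_mul_eq_mul_right hpos
  calc 2 * Nat.card {g : G // orderOf g = 2 * i} * (3 * (qq m + 1))
      = Nat.card {g : G // orderOf g = 2 * i} * (6 * (qq m + 1)) := by ring
    _ = 3 * Nat.totient i * (qq m ^ 3 * (qq m - 1) * (qq m ^ 3 + 1)) := h
    _ = Nat.totient i * qq m ^ 3 * (qq m - 1) * (qq m ^ 2 - qq m + 1) * (3 * (qq m + 1)) := by
      rw [hcube]
      ring

end Cfsg.Agent.Lib.Helper8.RHKA2
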