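import Mathlib
import Cfsg.Agent.Lib.Helper18.ReeHallStmt
import Cfsg.Agent.Lib.Helper8.RHCommon

/-!
# S1158/S2357 piece KH: numbers of elements of order `i ∣ q - 1`, `i > 2`
-/

set_option autoImplicit false

namespace Cfsg.Agent.Lib.Helper8.RHKH

open Cfsg.Agent.Lib.Helper42.ReeSpStmt Cfsg.Agent.Lib.Helper18.ReeHallStmt
open Cfsg.Agent.Lib.Helper8.RHCommon

universe u v

theorem main : Cfsg.Agent.Lib.Helper18.ReeHallStmt.KH.{u, v} := by
  intro G _ _ U H A K _ _ m hax hCnt hOdd hNH i hi hdv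
  have hq8 := qq_mod8 m
  have hq3 := qq_ge m
  have hcomm := cyc_comm H hax.cycH
  -- centralizers of nonidentity elements of odd order of `H`
  have hcentH : ∀ w ∈ H, w ≠ 1 → Odd (orderOf w) → Subgroup.centralizer ({w} : Set G) = H := by
    intro w hw hw1 hwo
    apply le_antisymm
    · intro c hc
      rw [Subgroup.mem_centralizer_iff] at hc
      exact hax.centH w hw hw1 hwo c (hc w rfl).symm
    · intro c hc
      rw [Subgroup.mem_centralizer_iff]
      intro h hh
      rw [Set.mem_singleton_iff] at hh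
      subst hh
      exact hcomm h hw c hc
  have hsq : ∀ y : G, orderOf y = i → y ^ 2 ≠ 1 ∧ Odd (orderOf (y ^ 2)) := by
    intro y ho
    refine ⟨pow_ne_one_of_lt_orderOf (by norm_num) (by omega), ?_⟩
    have hw : (y ^ 2) ^ ((qq m - 1) / 2) = 1 := by
      rw [← pow_mul]
      have e : 2 * ((qq m - 1) / 2) = qq m - 1 := by omega
      rw [e]
      exact orderOf_dvd_iff_pow_eq_one.1 (ho ▸ hdv)
    have hodd : Odd ((qq m - 1) / 2) := by
      rw [Nat.odd_iff]
      omega
    exact Odd.of_dvd_nat hodd (orderOf_dvd_of_pow_eq_one hw)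
  have hcnt := count_via hCnt H hax.cycH i (by rw [hax.cardH]; exact hdv)
    (by
      intro g y hy ho hgy
      obtain ⟨h1, h2⟩ := hsq y ho
      have ho' : orderOf (g * y * g⁻¹) = i := by rw [orderOf_conj']; exact ho
      obtain ⟨h1', h2'⟩ := hsq _ ho'
      have e : (g * y * g⁻¹) ^ 2 = g * y ^ 2 * g⁻¹ := conj_pow
      rw [e] at h1' h2'
      have hmem : g * y ^ 2 * g⁻¹ ∈ H := by
        rw [← e]
        exact H.pow_mem hgy 2
      exact fusion_cent H g (y ^ 2) (hcentH _ (H.pow_mem hy 2) h1 h2) (hcentH _ hmem h1' h2'))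
    (by
      intro g ho
      rcases Nat.four_dvd_or_exists_odd_prime_and_dvd_of_two_lt hi with h4 | ⟨p, hp, hpi, hpo⟩
      · exfalso
        have h4' : 4 ∣ qq m - 1 := h4.trans hdv
        omega
      · have hp2 : p ≠ 2 := by
          rintro rfl
          exact absurd hpo (by decide)
        exact hOdd g p hp hp2 (ho ▸ hpi) (hpi.trans hdv))
  have hNH' : Nat.card ↥(Subgroup.normalizer (H : Set G)) = 2 * (qq m - 1) := hNH
  rw [hNH', hax.card] at hcnt
  have hpos : 0 < qq m - 1 := by omega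
  apply Nat.eq_of_mul_eq_mul_right hpos
  calc 2 * Nat.card {g : G // orderOf g = i} * (qq m - 1)
      = Nat.card {g : G // orderOf g = i} * (2 * (qq m - 1)) := by ring
    _ = Nat.totient i * (qq m ^ 3 * (qq m - 1) * (qq m ^ 3 + 1)) := hcnt
    _ = Nat.totient i * qq m ^ 3 * (qq m ^ 3 + 1) * (qq m - 1) := by ring

end Cfsg.Agent.Lib.Helper8.RHKH
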