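import Mathlib
import Cfsg.Agent.Lib.Helper44.SMStmt

set_option autoImplicit false

/-!
helper8: piece GEN of S2721: if `D0 / Inn` is cyclic of order 2 or 4 and `δ ∈ G0` has non-square
multiplier, then `D0 = Inn * ⟨Phi δ⟩`.
-/

namespace Cfsg.Agent.Lib.Helper8.SMGEN

open Matrix
open Cfsg.Agent.Lib.Helper44.QSpace Cfsg.Agent.Lib.Helper44.OGroup Cfsg.Agent.Lib.Helper44.OMat
open Cfsg.Agent.Lib.Helper45.OmegaAut Cfsg.Agent.Lib.Helper45.OmegaAutPsi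
open Cfsg.Agent.Lib.Helper45.OmegaAutMain Cfsg.Agent.Lib.Helper45.OmegaInndiag

universe u

theorem gen4 : ∀ a b : ZMod 4, (∀ w : ZMod 4, a ≠ w + w) → ∃ j : Fin 4, b = (j : ℕ) • a := by
  decide

theorem gen2 : ∀ a b : ZMod 2, (∀ w : ZMod 2, a ≠ w + w) → ∃ j : Fin 2, b = (j : ℕ) • a := by
  decide

theorem genM4 (a b : Multiplicative (ZMod 4)) (h : ∀ w : Multiplicative (ZMod 4), a ≠ w * w) :
    ∃ j : ℕ, b = a ^ j := by
  obtain ⟨j, hj⟩ := gen4 (Multiplicative.toAdd a) (Multiplicative.toAdd b)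
    (fun w hw => h (Multiplicative.ofAdd w) (Multiplicative.toAdd.injective hw))
  exact ⟨j, Multiplicative.toAdd.injective hj⟩

theorem genM2 (a b : Multiplicative (ZMod 2)) (h : ∀ w : Multiplicative (ZMod 2), a ≠ w * w) :
    ∃ j : ℕ, b = a ^ j := by
  obtain ⟨j, hj⟩ := gen2 (Multiplicative.toAdd a) (Multiplicative.toAdd b)
    (fun w hw => h (Multiplicative.ofAdd w) (Multiplicative.toAdd.injective hw))
  exact ⟨j, Multiplicative.toAdd.injective hj⟩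

theorem sq22 : ∀ x : ZMod 2 × ZMod 2, x + x = 0 := by decide

theorem sqM22 (x : Multiplicative (ZMod 2 × ZMod 2)) : x * x = 1 :=
  Multiplicative.toAdd.injective (sq22 (Multiplicative.toAdd x))

theorem main : Cfsg.Agent.Lib.Helper44.SMStmt.CycGen.{u} := by
  intro F _ _ ι _ _ Q h2 hS k hk hn v₀ hv₀ hφ δ hδ hdl h hh
  have hδG : δ ∈ G0 Q hv₀ k := (mem_G0 Q hv₀ k δ).mpr hdl
  have hδD : Phi ⇑Q δ ∈ D0 Q hv₀ k := ⟨δ, hδG, rfl⟩
  have core : ∀ (A : Type) [Group A]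
      (_ : ∀ a b : A, (∀ w : A, a ≠ w * w) → ∃ j : ℕ, b = a ^ j)
      (φ : ↥(D0 Q hv₀ k) →* A), Function.Surjective φ →
      φ.ker = (Cfsg.Inn (Cfsg.POmega F ⇑Q)).subgroupOf (D0 Q hv₀ k) →
      ∃ j : ℕ, h * ((Phi ⇑Q δ)⁻¹) ^ j ∈ Cfsg.Inn (Cfsg.POmega F ⇑Q) := by
    intro A _ hA φ hφs hφk
    set d' : ↥(D0 Q hv₀ k) := ⟨Phi ⇑Q δ, hδD⟩ with hd'
    have hns : ∀ w : A, φ d' ≠ w * w := by
      intro w hw
      obtain ⟨z, rfl⟩ := hφs w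
      obtain ⟨g, hg, hgz⟩ := z.2
      have h1 : d' * (z * z)⁻¹ ∈ φ.ker := by
        rw [MonoidHom.mem_ker, map_mul, map_inv, map_mul, hw, mul_inv_cancel]
      rw [hφk, Subgroup.mem_subgroupOf] at h1
      have h2' : Phi ⇑Q (δ * (g * g)⁻¹) ∈ Cfsg.Inn (Cfsg.POmega F ⇑Q) := by
        have : Phi ⇑Q (δ * (g * g)⁻¹) = ((d' * (z * z)⁻¹ : ↥(D0 Q hv₀ k)) : MulAut (Cfsg.POmega F ⇑Q)) := by
          rw [map_mul, map_inv, map_mul, hgz]; rfl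
        rw [this]; exact h1
      have h3 := (psi_eq_one_iff_pso Q h2 hS hv₀ hk hn _).mpr
        (Cfsg.Agent.Lib.Helper45.OmegaAutD8.inn_le_pso Q h2')
      rw [map_mul, map_inv, map_mul, sqM22, inv_one, mul_one] at h3
      exact not_pso_of_nonsquare Q h2 hS hv₀ hk hn δ hδ h3
    obtain ⟨j, hj⟩ := hA (φ d') (φ ⟨h, hh⟩) hns
    refine ⟨j, ?_⟩
    have h1 : (⟨h, hh⟩ : ↥(D0 Q hv₀ k)) * (d'⁻¹) ^ j ∈ φ.ker := by
      rw [MonoidHom.mem_ker, map_mul, map_pow, map_inv, hj, inv_pow, mul_inv_cancel]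
    rw [hφk, Subgroup.mem_subgroupOf] at h1
    exact h1
  rcases hφ with ⟨φ, hφs, hφk⟩ | ⟨φ, hφs, hφk⟩
  · exact core _ genM4 φ hφs hφk
  · exact core _ genM2 φ hφs hφk

end Cfsg.Agent.Lib.Helper8.SMGEN
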