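import Mathlib
import Cfsg.Agent.Lib.Helper44.SMStmt

set_option autoImplicit false

/-!
helper8: piece PO of S2721: a similarity with square multiplier induces an element of `poAut`,
and `poAut ≤ pgoAut`.
-/

namespace Cfsg.Agent.Lib.Helper8.SMPO

open Matrix
open Cfsg.Agent.Lib.Helper44.QSpace Cfsg.Agent.Lib.Helper44.OGroup Cfsg.Agent.Lib.Helper44.OMat
open Cfsg.Agent.Lib.Helper45.OmegaAut Cfsg.Agent.Lib.Helper45.OmegaAutPsi
open Cfsg.Agent.Lib.Helper45.OmegaAutMain Cfsg.Agent.Lib.Helper45.OmegaInndiag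

universe u

theorem main : Cfsg.Agent.Lib.Helper44.SMStmt.PoMem.{u} := by
  intro F _ _ ι _ _ Q
  refine ⟨?_, ?_⟩
  · intro v₀ hv₀ g hsq
    obtain ⟨c, hc⟩ := hsq
    set sg : ↥(Cfsg.Geo.quadSimilarityGroup (F := F) ⇑Q) := ⟨sc c, sc_mem Q c⟩ with hsg
    have hmusc : mu Q sg = c * c :=
      mu_unique Q hv₀ sg (c * c) (fun v => by
        rw [hsg]
        change Q (((sc c : GL ι F) : Matrix ι ι F) *ᵥ v) = _
        rw [sc_mulVec, QuadraticMap.map_smul, Units.val_mul, smul_eq_mul])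
    set g' : ↥(Cfsg.Geo.quadSimilarityGroup (F := F) ⇑Q) := g * sg⁻¹ with hg'
    have hmu : mu Q g' = 1 := by
      have h1 : muHom Q hv₀ g' = muHom Q hv₀ g * (muHom Q hv₀ sg)⁻¹ := by
        rw [hg', map_mul, map_inv]
      rw [muHom_apply, muHom_apply, muHom_apply, hmusc, hc, mul_inv_cancel] at h1
      exact h1
    have hiso : (g' : GL ι F) ∈ Cfsg.isometryGroup F ⇑Q := by
      rw [mem_iso_iff']
      intro v
      rw [mu_spec, hmu, Units.val_one, one_mul]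
    have hPhisc : Phi ⇑Q sg = 1 :=
      Cfsg.Agent.Lib.Helper45.OmegaAutKer.Phi_eq_one_of_scalar ⇑Q sg (c : F)
        (fun x => sc_mulVec c x)
    have hPhi : Phi ⇑Q g' = Phi ⇑Q g := by
      rw [hg', map_mul, map_inv, hPhisc, inv_one, mul_one]
    rw [← hPhi]
    unfold Cfsg.poAut Cfsg.autSubgroupOf
    exact Subgroup.subset_closure ⟨g'.1, hiso, (induced_iff ⇑Q g'.1 g'.2 _).mpr rfl⟩
  · unfold Cfsg.poAut Cfsg.pgoAut Cfsg.autSubgroupOf
    apply Subgroup.closure_mono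
    rintro β ⟨g, hg, hβ⟩
    exact ⟨g, iso_le_GO ⇑Q hg, hβ⟩

end Cfsg.Agent.Lib.Helper8.SMPO
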