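import Mathlib
import Cfsg.Agent.Lib.Helper44.SPStmt

set_option autoImplicit false

/-! helper8: piece EXTRA of S2720: transporting the good list of a minimal block through the
block model. -/

namespace Cfsg.Agent.Lib.Helper8.SPEXTRA

open Matrix Polynomial
open Cfsg.Agent.Lib.Helper44.QSpace Cfsg.Agent.Lib.Helper44.OGroup Cfsg.Agent.Lib.Helper44.OMat
open Cfsg.Agent.Lib.Helper44.OExt Cfsg.Agent.Lib.Helper44.OCls2
open Cfsg.Agent.Lib.Helper44.SPStmt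

universe u

variable {F : Type u} [Field F] {ι ι₁ ι₂ : Type} [Fintype ι] [DecidableEq ι]
  [Fintype ι₁] [DecidableEq ι₁] [Fintype ι₂] [DecidableEq ι₂]

theorem refl_transport (Q : QuadraticForm F (ι → F)) (N₁ : Matrix ι₁ ι₁ F) (N₂ : Matrix ι₂ ι₂ F)
    (J : (ι₁ ⊕ ι₂ → F) ≃ₗ[F] (ι → F))
    (hJ : ∀ u : ι₁ ⊕ ι₂ → F, Q (J u) = qN N₁ (u ∘ Sum.inl) + qN N₂ (u ∘ Sum.inr))
    (v : ι₁ → F) (u : ι₁ ⊕ ι₂ → F) :
    reflE Q (J (Sum.elim v 0)) (J u)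
      = J (Sum.elim (reflE (qN N₁) v (u ∘ Sum.inl)) (u ∘ Sum.inr)) := by
  have hQv : Q (J (Sum.elim v 0)) = qN N₁ v := by
    rw [hJ, Sum.elim_comp_inl, Sum.elim_comp_inr, map_zero, add_zero]
  have hpol : QuadraticMap.polar Q (J u) (J (Sum.elim v 0))
      = QuadraticMap.polar (qN N₁) (u ∘ Sum.inl) v := by
    unfold QuadraticMap.polar
    rw [← map_add, hJ, hJ, hQv]
    have h1 : (u + Sum.elim v 0) ∘ Sum.inl = u ∘ Sum.inl + v := by
      funext i; simp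
    have h2 : (u + Sum.elim v (0 : ι₂ → F)) ∘ Sum.inr = u ∘ Sum.inr := by
      funext i; simp
    rw [h1, h2]
    ring
  rw [reflE_apply, reflE_apply, hQv, hpol]
  have h3 : Sum.elim (u ∘ Sum.inl - ((qN N₁ v)⁻¹ * QuadraticMap.polar (qN N₁) (u ∘ Sum.inl) v) • v)
      (u ∘ Sum.inr)
      = u - ((qN N₁ v)⁻¹ * QuadraticMap.polar (qN N₁) (u ∘ Sum.inl) v) • Sum.elim v (0 : ι₂ → F) := by
    funext i
    rcases i with i | i <;> simp
  rw [h3, map_sub, map_smul]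

theorem prod_transport (Q : QuadraticForm F (ι → F)) (N₁ : Matrix ι₁ ι₁ F) (N₂ : Matrix ι₂ ι₂ F)
    (J : (ι₁ ⊕ ι₂ → F) ≃ₗ[F] (ι → F))
    (hJ : ∀ u : ι₁ ⊕ ι₂ → F, Q (J u) = qN N₁ (u ∘ Sum.inl) + qN N₂ (u ∘ Sum.inr))
    (vs₁ : List (ι₁ → F)) (u : ι₁ ⊕ ι₂ → F) :
    ((vs₁.map (fun v => J (Sum.elim v (0 : ι₂ → F)))).map (reflE Q)).prod (J u)
      = J (Sum.elim ((vs₁.map (reflE (qN N₁))).prod (u ∘ Sum.inl)) (u ∘ Sum.inr)) := by
  induction vs₁ generalizing u with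
  | nil =>
    simp only [List.map_nil, List.prod_nil, LinearEquiv.coe_one, id_eq]
    rw [Sum.elim_comp_inl_inr]
  | cons v vs ih =>
    rw [List.map_cons, List.map_cons, List.prod_cons, List.map_cons, List.prod_cons,
      LinearEquiv.mul_apply, ih, refl_transport Q N₁ N₂ J hJ, Sum.elim_comp_inl,
      Sum.elim_comp_inr, LinearEquiv.mul_apply]

theorem main : ModelIso.{u} → BlockElt.{u} → Extra.{u} := by
  intro hModel hBlock F _ _ p _ _ ι _ _ Q h2 hS k hk S r hr hr2 hrp hSr hSQ hfix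
  obtain ⟨P, ι₁, _, _, s₁, N₁, ι₂, _, _, s₂, N₂, J, hPirr, hPmon, hPdvd, hPne, hchar, hs₁r, hs₁N,
    hdet₁, hJ, hJS⟩ := hModel F p ι Q h2 hS k hk S r hr hr2 hrp hSr hSQ hfix
  obtain ⟨vs₁, hvs₁, heven, hnsq, hcomm₁⟩ :=
    hBlock F p h2 r hr hr2 hrp P hPirr hPmon hPdvd hPne ι₁ s₁ N₁ hchar hs₁r hs₁N hdet₁
  have hQv : ∀ v : ι₁ → F, Q (J (Sum.elim v (0 : ι₂ → F))) = qN N₁ v := by
    intro v
    rw [hJ, Sum.elim_comp_inl, Sum.elim_comp_inr, map_zero, add_zero]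
  refine ⟨vs₁.map (fun v => J (Sum.elim v (0 : ι₂ → F))), ?_, ?_, ?_, ?_⟩
  · intro w hw
    obtain ⟨v, hv, rfl⟩ := List.mem_map.mp hw
    rw [hQv]
    exact hvs₁ v hv
  · rw [List.length_map]; exact heven
  · have : (vs₁.map (fun v => J (Sum.elim v (0 : ι₂ → F)))).map (fun v => Q v)
        = vs₁.map (fun v => qN N₁ v) := by
      rw [List.map_map]
      apply List.map_congr_left
      intro v _
      exact hQv v
    rw [this]
    exact hnsq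
  · intro x
    obtain ⟨u, rfl⟩ := J.surjective x
    have e1 : S *ᵥ J u = J (Sum.elim (s₁ *ᵥ (u ∘ Sum.inl)) (s₂ *ᵥ (u ∘ Sum.inr))) := (hJS u).symm
    rw [e1, prod_transport Q N₁ N₂ J hJ, prod_transport Q N₁ N₂ J hJ, Sum.elim_comp_inl,
      Sum.elim_comp_inr, hcomm₁]
    have e2 := hJS (Sum.elim ((vs₁.map (reflE (qN N₁))).prod (u ∘ Sum.inl)) (u ∘ Sum.inr))
    rw [Sum.elim_comp_inl, Sum.elim_comp_inr] at e2
    exact e2

end Cfsg.Agent.Lib.Helper8.SPEXTRA
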