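import Mathlib
import Cfsg.Agent.Lib.Helper44.SPStmt
import Cfsg.Agent.Lib.Helper43.SMNOFIX

set_option autoImplicit false

/-! helper8: piece INVDET of S2720: an isometry `g` inverting an isometry `s` of odd order without
nonzero fixed vectors has determinant `(-1) ^ k` (`2k` the dimension). -/

namespace Cfsg.Agent.Lib.Helper8.SPINVDET

open Matrix Polynomial
open Cfsg.Agent.Lib.Helper44.QSpace Cfsg.Agent.Lib.Helper44.OGroup Cfsg.Agent.Lib.Helper44.OMat
open Cfsg.Agent.Lib.Helper45.OmegaAut Cfsg.Agent.Lib.Helper45.OmegaAutPsi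
open Cfsg.Agent.Lib.Helper45.OmegaAutMain Cfsg.Agent.Lib.Helper45.OmegaInndiag
open Cfsg.Agent.Lib.Helper43.SMNOFIX

universe u

variable {F : Type u} [Field F] {ι : Type} [Fintype ι] [DecidableEq ι]

/-- The matrix core. -/
theorem core (hA : Cfsg.Agent.Lib.Helper44.SMStmt.AltSimDet.{u}) (h2 : (2 : F) ≠ 0)
    {B S T G : Matrix ι ι F} {k r : ℕ} (hk : Fintype.card ι = 2 * k)
    (hBT : Bᵀ = B) (hBdet : B.det ≠ 0) (hST : S * T = 1) (hTS : T * S = 1)
    (hSB : Sᵀ * B * S = B) (hGB : Gᵀ * B * G = B) (hGS : G * S = T * G)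
    (hr : Odd r) (hSr : S ^ r = 1) (hfix : ∀ v, S *ᵥ v = v → v = 0) : G.det = (-1) ^ k := by
  have h1 : Sᵀ * B = B * T := by
    calc Sᵀ * B = Sᵀ * B * (S * T) := by rw [hST, mul_one]
      _ = (Sᵀ * B * S) * T := by rw [mul_assoc, mul_assoc, mul_assoc]
      _ = B * T := by rw [hSB]
  have h3 : Tᵀ * Sᵀ = 1 := by rw [← Matrix.transpose_mul, hST, Matrix.transpose_one]
  have h4 : Tᵀ * B = B * S := by
    calc Tᵀ * B = Tᵀ * (Sᵀ * B * S) := by rw [hSB]
      _ = (Tᵀ * Sᵀ) * B * S := by rw [mul_assoc, mul_assoc, mul_assoc]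
      _ = B * S := by rw [h3, one_mul]
  have hSGS : S * (G * S) = G := by
    rw [hGS, ← mul_assoc, hST, one_mul]
  have hGT : G * T = S * G := by
    calc G * T = (S * (G * S)) * T := by rw [hSGS]
      _ = S * G * (S * T) := by rw [mul_assoc, mul_assoc, mul_assoc]
      _ = S * G := by rw [hST, mul_one]
  have hAT : (B * (S - T))ᵀ = -(B * (S - T)) := by
    rw [Matrix.transpose_mul, Matrix.transpose_sub, hBT, Matrix.sub_mul, h1, h4, Matrix.mul_sub,
      neg_sub]
  have hGA : Gᵀ * (B * (S - T)) * G = (-1 : F) • (B * (S - T)) := by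
    calc Gᵀ * (B * (S - T)) * G = Gᵀ * B * ((S - T) * G) := by
          rw [mul_assoc, mul_assoc, mul_assoc]
      _ = Gᵀ * B * (G * (T - S)) := by
          rw [Matrix.sub_mul, Matrix.mul_sub (M := G), hGT, hGS]
      _ = (Gᵀ * B * G) * (T - S) := by rw [mul_assoc, mul_assoc, mul_assoc]
      _ = B * (T - S) := by rw [hGB]
      _ = (-1 : F) • (B * (S - T)) := by rw [neg_one_smul, ← Matrix.mul_neg, neg_sub]
  have hT : T.det ≠ 0 := by
    intro h0
    have h5 := congrArg Matrix.det hST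
    rw [Matrix.det_mul, h0, mul_zero, Matrix.det_one] at h5
    exact zero_ne_one h5
  have hS1 : (S - 1).det ≠ 0 := by
    apply det_ne_zero_of_inj
    intro v hv
    apply hfix
    rw [Matrix.sub_mulVec, Matrix.one_mulVec, sub_eq_zero] at hv
    exact hv
  have hS2 : (S + 1).det ≠ 0 := by
    apply det_ne_zero_of_inj
    intro v hv
    rw [Matrix.add_mulVec, Matrix.one_mulVec, add_eq_zero_iff_eq_neg] at hv
    have h5 := pow_mulVec_neg hv r
    rw [hSr, Matrix.one_mulVec, hr.neg_one_pow, neg_smul, one_smul] at h5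
    have h6 : (2 : F) • v = 0 := by
      rw [two_smul]
      nth_rewrite 1 [h5]
      exact neg_add_cancel v
    rcases smul_eq_zero.mp h6 with h | h
    · exact absurd h h2
    · exact h
  have hfac : S - T = T * ((S - 1) * (S + 1)) := by
    have h5 : (S - 1) * (S + 1) = S * S - 1 := by
      rw [Matrix.sub_mul, Matrix.mul_add, Matrix.mul_add, mul_one, one_mul, mul_one]
      abel
    rw [h5, Matrix.mul_sub, ← mul_assoc, hTS, one_mul, mul_one]
  have hdet : (B * (S - T)).det ≠ 0 := by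
    rw [Matrix.det_mul, hfac, Matrix.det_mul, Matrix.det_mul]
    exact mul_ne_zero hBdet (mul_ne_zero hT (mul_ne_zero hS1 hS2))
  exact hA F ι (B * (S - T)) G (-1) k h2 hAT hdet (neg_ne_zero.mpr one_ne_zero) hk hGA

theorem main : Cfsg.Agent.Lib.Helper44.SMStmt.AltSimDet.{u} →
    Cfsg.Agent.Lib.Helper44.SPStmt.InvDet.{u} := by
  intro hA F _ _ ι _ _ Q h2 hS k hk s g r hodd hsr hfix hcomm
  have hSB : (((s : GL ι F) : Matrix ι ι F))ᵀ * gram Q * ((s : GL ι F) : Matrix ι ι F)
      = gram Q := by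
    have h1 := gram_sim Q (M := ((s : GL ι F) : Matrix ι ι F)) (c := 1) (fun v => by
      rw [one_mul]; exact (mem_iso_iff' _ _).mp s.2 v)
    rw [one_smul] at h1
    exact h1
  have hGB : (((g : GL ι F) : Matrix ι ι F))ᵀ * gram Q * ((g : GL ι F) : Matrix ι ι F)
      = gram Q := by
    have h1 := gram_sim Q (M := ((g : GL ι F) : Matrix ι ι F)) (c := 1) (fun v => by
      rw [one_mul]; exact (mem_iso_iff' _ _).mp g.2 v)
    rw [one_smul] at h1
    exact h1
  have hST : ((s : GL ι F) : Matrix ι ι F) * (((s : GL ι F)⁻¹ : GL ι F) : Matrix ι ι F) = 1 := by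
    rw [← Units.val_mul, mul_inv_cancel, Units.val_one]
  have hTS : (((s : GL ι F)⁻¹ : GL ι F) : Matrix ι ι F) * ((s : GL ι F) : Matrix ι ι F) = 1 := by
    rw [← Units.val_mul, inv_mul_cancel, Units.val_one]
  have hGS : ((g : GL ι F) : Matrix ι ι F) * ((s : GL ι F) : Matrix ι ι F)
      = (((s : GL ι F)⁻¹ : GL ι F) : Matrix ι ι F) * ((g : GL ι F) : Matrix ι ι F) := by
    have h1 := congrArg (fun t : ↥(Cfsg.isometryGroup F ⇑Q) =>
      ((t : GL ι F) : Matrix ι ι F)) hcomm
    simp only [Subgroup.coe_mul, Units.val_mul, Subgroup.coe_inv] at h1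
    exact h1
  have hSr : ((s : GL ι F) : Matrix ι ι F) ^ r = 1 := by
    have h1 := congrArg (fun t : ↥(Cfsg.isometryGroup F ⇑Q) =>
      ((t : GL ι F) : Matrix ι ι F)) hsr
    simp only [Subgroup.coe_pow, Units.val_pow_eq_pow_val, Subgroup.coe_one, Units.val_one] at h1
    exact h1
  exact core hA h2 hk (gram_transpose Q) (gram_det Q hS) hST hTS hSB hGB hGS hodd hSr hfix

end Cfsg.Agent.Lib.Helper8.SPINVDET
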