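import Mathlib
import Cfsg.Agent.Lib.Helper44.SPStmt

set_option autoImplicit false

/-! helper8: piece NOTINN of S2720: if `-1 ∈ Ω`, an isometry of determinant one outside `Ω`
induces an element of `psoAut ∖ Inn`. -/

namespace Cfsg.Agent.Lib.Helper8.SPNOTINN

open Matrix Polynomial
open Cfsg.Agent.Lib.Helper44.QSpace Cfsg.Agent.Lib.Helper44.OGroup Cfsg.Agent.Lib.Helper44.OMat
open Cfsg.Agent.Lib.Helper44.ODet
open Cfsg.Agent.Lib.Helper45.OmegaAut Cfsg.Agent.Lib.Helper45.OmegaAutPsi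
open Cfsg.Agent.Lib.Helper45.OmegaAutMain Cfsg.Agent.Lib.Helper45.OmegaInndiag
open Cfsg.Agent.Lib.Helper45.OmegaAutIdx

universe u

theorem main : Cfsg.Agent.Lib.Helper44.SPStmt.NotInn.{u} := by
  intro F _ _ ι _ _ Q h2 hS hn hneg h hdet hΩ
  have hs : h ∈ Cfsg.specialIsometryGroup F ⇑Q := (mem_special_iff Q h).mpr hdet
  have hPhi : Phi ⇑Q ⟨(h : GL ι F), iso_le_GO ⇑Q h.2⟩ = fSO Q ⟨h, hs⟩ := rfl
  rw [hPhi]
  refine ⟨?_, ?_⟩
  · rw [pso_eq']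
    exact ⟨⟨h, hs⟩, rfl⟩
  · rw [inn_eq']
    rintro ⟨s', hs', hss'⟩
    apply hΩ
    have hker := ker_le_of_mem Q h2 hS hn hneg
    have h5 : s'⁻¹ * ⟨h, hs⟩ ∈ (fSO Q).ker := by
      rw [MonoidHom.mem_ker, map_mul, map_inv, hss', inv_mul_cancel]
    have h6 := Subgroup.mul_mem _ hs' (hker h5)
    rw [mul_inv_cancel_left] at h6
    exact Subgroup.mem_subgroupOf.mp h6

end Cfsg.Agent.Lib.Helper8.SPNOTINN
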