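import Mathlib
import Cfsg.Agent.Lib.Helper44.SPStmt

set_option autoImplicit false

/-! helper8: piece V4GEN of S2720: if `D0 / Inn` is a four-group, `δ ∈ G0` has non-square
multiplier and `e ∈ psoAut ∖ Inn`, then `D0 = Inn * ⟨Phi δ⟩ * ⟨e⟩`. -/

namespace Cfsg.Agent.Lib.Helper8.SPV4GEN

open Matrix Polynomial
open Cfsg.Agent.Lib.Helper44.QSpace Cfsg.Agent.Lib.Helper44.OGroup Cfsg.Agent.Lib.Helper44.OMat
open Cfsg.Agent.Lib.Helper45.OmegaAut Cfsg.Agent.Lib.Helper45.OmegaAutPsi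
open Cfsg.Agent.Lib.Helper45.OmegaAutMain Cfsg.Agent.Lib.Helper45.OmegaInndiag
open Cfsg.Agent.Lib.Helper44.SMStmt

universe u

theorem gen22 : ∀ a b x : ZMod 2 × ZMod 2, a ≠ 0 → b ≠ 0 → a ≠ b →
    ∃ i j : Fin 2, x = (i : ℕ) • a + (j : ℕ) • b := by
  decide

theorem genM22 (a b x : Multiplicative (ZMod 2 × ZMod 2)) (ha : a ≠ 1) (hb : b ≠ 1) (hab : a ≠ b) :
    ∃ i j : ℕ, x = a ^ i * b ^ j := by
  obtain ⟨i, j, hij⟩ := gen22 (Multiplicative.toAdd a) (Multiplicative.toAdd b)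
    (Multiplicative.toAdd x) (fun h => ha (Multiplicative.toAdd.injective h))
    (fun h => hb (Multiplicative.toAdd.injective h))
    (fun h => hab (Multiplicative.toAdd.injective h))
  exact ⟨i, j, Multiplicative.toAdd.injective hij⟩

theorem main : PsoLe.{u} → Cfsg.Agent.Lib.Helper44.SPStmt.V4Gen.{u} := by
  intro hPso F _ _ ι _ _ Q h2 hS k hk hn v₀ hv₀ hφ δ hδ hdl e he heInn h hh
  obtain ⟨φ, hφs, hφk⟩ := hφ
  have hδG : δ ∈ G0 Q hv₀ k := (mem_G0 Q hv₀ k δ).mpr hdl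
  have hδD : Phi ⇑Q δ ∈ D0 Q hv₀ k := ⟨δ, hδG, rfl⟩
  have heD : e ∈ D0 Q hv₀ k := hPso F ι Q h2 hS k hk v₀ hv₀ he
  set d' : ↥(D0 Q hv₀ k) := ⟨Phi ⇑Q δ, hδD⟩ with hd'
  set e' : ↥(D0 Q hv₀ k) := ⟨e, heD⟩ with he'
  have hpsi : psi Q h2 hS hv₀ hk δ ≠ 1 := not_pso_of_nonsquare Q h2 hS hv₀ hk hn δ hδ
  have hδpso : Phi ⇑Q δ ∉ Cfsg.psoAut F ⇑Q := fun hc =>
    hpsi ((psi_eq_one_iff_pso Q h2 hS hv₀ hk hn δ).mpr hc)
  have hker : ∀ z : ↥(D0 Q hv₀ k), φ z = 1 → (z : MulAut (Cfsg.POmega F ⇑Q)) ∈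
      Cfsg.Inn (Cfsg.POmega F ⇑Q) := by
    intro z hz
    have : z ∈ φ.ker := hz
    rw [hφk, Subgroup.mem_subgroupOf] at this
    exact this
  have h1 : φ d' ≠ 1 := fun hc =>
    hδpso (Cfsg.Agent.Lib.Helper45.OmegaAutD8.inn_le_pso Q (hker d' hc))
  have h2' : φ e' ≠ 1 := fun hc => heInn (hker e' hc)
  have h3 : φ d' ≠ φ e' := by
    intro hc
    have h4 : φ (d' * e'⁻¹) = 1 := by rw [map_mul, map_inv, hc, mul_inv_cancel]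
    have h5 := Cfsg.Agent.Lib.Helper45.OmegaAutD8.inn_le_pso Q (hker _ h4)
    have h6 : Phi ⇑Q δ * e⁻¹ ∈ Cfsg.psoAut F ⇑Q := h5
    have h7 := Subgroup.mul_mem _ h6 he
    rw [inv_mul_cancel_right] at h7
    exact hδpso h7
  obtain ⟨a, b, hab⟩ := genM22 (φ d') (φ e') (φ ⟨h, hh⟩) h1 h2' h3
  refine ⟨a, b, ?_⟩
  have h8 : φ (⟨h, hh⟩ * (d'⁻¹) ^ a * (e'⁻¹) ^ b) = 1 := by
    rw [map_mul, map_mul, map_pow, map_pow, map_inv, map_inv, hab, inv_pow, inv_pow,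
      mul_comm (φ d' ^ a) (φ e' ^ b), mul_inv_cancel_right, mul_inv_cancel]
  exact hker _ h8

end Cfsg.Agent.Lib.Helper8.SPV4GEN
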