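import Mathlib
import Cfsg.Agent.Lib.Helper44.SPStmt

set_option autoImplicit false

/-! helper8: piece V4X of S2720: the extra element of `psoAut ∖ Inn` commuting with `s`. -/

namespace Cfsg.Agent.Lib.Helper8.SPV4X

open Matrix Polynomial
open Cfsg.Agent.Lib.Helper44.QSpace Cfsg.Agent.Lib.Helper44.OGroup Cfsg.Agent.Lib.Helper44.OMat
open Cfsg.Agent.Lib.Helper44.ODet Cfsg.Agent.Lib.Helper44.Spinor
open Cfsg.Agent.Lib.Helper45.OmegaAut Cfsg.Agent.Lib.Helper45.OmegaAutPsi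
open Cfsg.Agent.Lib.Helper45.OmegaAutMain Cfsg.Agent.Lib.Helper45.OmegaInndiag
open Cfsg.Agent.Lib.Helper45.OmegaAutIdx Cfsg.Agent.Lib.Helper45.OmegaAutD8
open Cfsg.Agent.Lib.Helper44.SMStmt Cfsg.Agent.Lib.Helper44.SPStmt

universe u

theorem main : FixRefl.{u} → Extra.{u} → NotInn.{u} → V4Extra.{u} := by
  intro hFix hExtra hNot F _ _ p _ _ ι _ _ Q h2 hS k hk hn hneg s δ hs r hr hr2 hrp hsr hcomm hδ
  have hrF : (r : F) ≠ 0 := by
    intro h0
    rw [CharP.cast_eq_zero_iff F p r] at h0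
    exact hrp ((Nat.prime_dvd_prime_iff_eq Fact.out hr).mp h0).symm
  by_cases hfix : ∃ v : ι → F, v ≠ 0 ∧ ((s : GL ι F) : Matrix ι ι F) *ᵥ v = v
  · obtain ⟨u, hu, hcu⟩ := hFix F ι Q h2 hS s hs r hrF hsr hfix
    refine ⟨rfl' Q u * (δ * rfl' Q u * δ⁻¹), ?_, ?_, ?_⟩
    · have hδinv : δ⁻¹ * s = s * δ⁻¹ := by
        calc δ⁻¹ * s = δ⁻¹ * (s * δ) * δ⁻¹ := by group
          _ = δ⁻¹ * (δ * s) * δ⁻¹ := by rw [hcomm]
          _ = s * δ⁻¹ := by group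
      calc rfl' Q u * (δ * rfl' Q u * δ⁻¹) * s
          = rfl' Q u * δ * rfl' Q u * (δ⁻¹ * s) := by group
        _ = rfl' Q u * δ * (rfl' Q u * s) * δ⁻¹ := by rw [hδinv]; group
        _ = rfl' Q u * (δ * s) * rfl' Q u * δ⁻¹ := by rw [hcu]; group
        _ = (rfl' Q u * s) * δ * rfl' Q u * δ⁻¹ := by rw [hcomm]; group
        _ = s * (rfl' Q u * (δ * rfl' Q u * δ⁻¹)) := by rw [hcu]; group
    · obtain ⟨s₀, hs₀, -⟩ := exists_so_elt Q h2 hS (by omega) δ hδ hu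
      rw [← hs₀, pso_eq']
      exact ⟨s₀, rfl⟩
    · exact t_not_inn Q h2 hS hn hneg δ hδ hu
  · have hfix' : ∀ v : ι → F, ((s : GL ι F) : Matrix ι ι F) *ᵥ v = v → v = 0 := by
      intro v hv
      by_contra hv0
      exact hfix ⟨v, hv0, hv⟩
    obtain ⟨k', rfl⟩ : ∃ k', k = k' + 1 := ⟨k - 1, by omega⟩
    have hSr : ((s : GL ι F) : Matrix ι ι F) ^ r = 1 := by
      have h1 := congrArg (fun t : ↥(Cfsg.Geo.quadSimilarityGroup (F := F) ⇑Q) =>
        ((t : GL ι F) : Matrix ι ι F)) hsr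
      simp only [Subgroup.coe_pow, Units.val_pow_eq_pow_val, Subgroup.coe_one, Units.val_one] at h1
      exact h1
    have hSQ : ∀ u, Q (((s : GL ι F) : Matrix ι ι F) *ᵥ u) = Q u := (mem_iso_iff' _ _).mp hs
    obtain ⟨vs, hvs, heven, hnsq, hcommS⟩ :=
      hExtra F p ι Q h2 hS k' hk ((s : GL ι F) : Matrix ι ι F) r hr hr2 hrp hSr hSQ hfix'
    set h : ↥(Cfsg.isometryGroup F ⇑Q) := (isoEquiv Q).symm ((vs.map (refl Q)).prod) with hh
    have hact : ∀ x, ((h : GL ι F) : Matrix ι ι F) *ᵥ x = (vs.map (reflE Q)).prod x := by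
      intro x
      rw [hh, isoEquiv_symm_mulVec, coe_prod_refl]
    have hiso : isoEquiv Q h = (vs.map (refl Q)).prod := by
      rw [hh, MulEquiv.apply_symm_apply]
    have hdet : Matrix.GeneralLinearGroup.det (h : GL ι F) = 1 := by
      rw [det_of_prod Q h vs hvs hiso, heven.neg_one_pow]
    have hΩ : h ∉ Cfsg.Omega F ⇑Q := by
      intro hmem
      rw [mem_omega_iff_of_mulVec h2 Q hS (by omega) h vs hvs hact] at hmem
      exact hnsq hmem.2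
    obtain ⟨hp1, hp2⟩ := hNot F ι Q h2 hS hn hneg h hdet hΩ
    refine ⟨⟨(h : GL ι F), iso_le_GO ⇑Q h.2⟩, ?_, hp1, hp2⟩
    apply Subtype.ext
    apply Units.ext
    apply matrix_ext_mulVec
    intro x
    rw [Subgroup.coe_mul, Subgroup.coe_mul, Units.val_mul, Units.val_mul, ← Matrix.mulVec_mulVec,
      ← Matrix.mulVec_mulVec]
    show ((h : GL ι F) : Matrix ι ι F) *ᵥ (((s : GL ι F) : Matrix ι ι F) *ᵥ x)
      = ((s : GL ι F) : Matrix ι ι F) *ᵥ (((h : GL ι F) : Matrix ι ι F) *ᵥ x)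
    rw [hact, hact, hcommS]

end Cfsg.Agent.Lib.Helper8.SPV4X
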